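/-
helper84 library (S4482, Brauer's order formula for dihedral Sylow 2-subgroups with one class of
involutions), glue part A: the two class-sum identities for the principal 2-block
(`sum_J`, `sum_σ`) and the orthogonality relations on the cyclic part (`dih_orth`), obtained
from the section indicator (helper4), the pair count (helper75), the enlargement lemma and the
Schur-Zassenhaus step (helper11), the centralizer orders (helper75) and the fusion of powers of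
`σ` (helper71).
-/
import Mathlib
import Cfsg.Prelude.Def_Blocks
import Cfsg.Agent.H84.DihDefs
import Cfsg.Agent.H4.DihTI
import Cfsg.Agent.H11.DihSZ
import Cfsg.Agent.H75.DihCARD
import Cfsg.Agent.H75.DihPAIR
import Cfsg.Agent.H24.DihBASIC
import Cfsg.Agent.H71.DihFUS
import Cfsg.Agent.H11.DihENL
import Cfsg.Agent.H81.Counting

set_option autoImplicit false
set_option linter.style.haveILetI false
set_option linter.unusedVariables false
set_option linter.unusedSectionVars false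

namespace Cfsg.Agent.H84.DihGlue

open Cfsg Cfsg.Agent.H84.Dih
open scoped ComplexConjugate

universe u

variable {G : Type u} [Group G] [Finite G] {n : ℕ} {P : Sylow 2 G} {σ τ : G} {X : Subgroup G}

theorem J_order (h : Hyp n P σ τ) : orderOf (σ ^ (2 ^ (n - 2))) = 2 ^ 1 := by
  haveI : Fact (Nat.Prime 2) := ⟨Nat.prime_two⟩
  rw [pow_one]
  exact orderOf_eq_prime (by rw [pow_two]; exact Cfsg.Agent.H24.Dih.J_sq h)
    (Cfsg.Agent.H24.Dih.J_ne_one h)

theorem J_inv (h : Hyp n P σ τ) : (σ ^ (2 ^ (n - 2)))⁻¹ = σ ^ (2 ^ (n - 2)) :=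
  inv_eq_of_mul_eq_one_left (Cfsg.Agent.H24.Dih.J_sq h)

theorem odd_of_not_dvd {k : ℕ} (hk : ¬ 2 ∣ k) : Odd k :=
  Nat.not_even_iff_odd.mp (fun he => hk (even_iff_two_dvd.mp he))

/-- SUMJ -/
theorem sum_J (h : Hyp n P σ τ) (hX : Core n P σ X) {M : Ideal AlgInt} (hM : IsPModular 2 M) :
    (Nat.card X : ℂ) * (Nat.card G : ℂ) *
        ∑ᶠ χ ∈ principalBlock M G, (χ : G → ℂ) (σ ^ (2 ^ (n - 2))) ^ 2 *
          (χ : G → ℂ) (σ ^ (2 ^ (n - 2))) / (χ : G → ℂ) 1 =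
      (Nat.card {q : G × G // ∃ ρ ∈ X, q.1 * σ ^ (2 ^ (n - 2)) * q.1⁻¹ *
        (q.2 * σ ^ (2 ^ (n - 2)) * q.2⁻¹) = σ ^ (2 ^ (n - 2)) * ρ} : ℂ) := by
  haveI : Fact (Nat.Prime 2) := ⟨Nat.prime_two⟩
  have hTI := fun g : G => Cfsg.Agent.H4.Dih.section_indicator 2 hM (σ ^ (2 ^ (n - 2))) 1
    (J_order h) X hX.le hX.norm (Nat.coprime_two_right.mpr hX.odd)
    (fun c hc hnd => hX.oddmem c hc (odd_of_not_dvd hnd)) g
  have hp := Cfsg.Agent.H75.Dih.pair_count (principalBlock M G) (σ ^ (2 ^ (n - 2)))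
    (σ ^ (2 ^ (n - 2))) X hTI
  rw [J_inv h] at hp
  exact hp

theorem σ_mem_cent (h : Hyp n P σ τ) : σ ∈ Subgroup.centralizer ({σ ^ (2 ^ (n - 2))} : Set G) :=
  Cfsg.Agent.H24.Dih.P_le h h.hσ

theorem cent_σ_le (h : Hyp n P σ τ) :
    Subgroup.centralizer ({σ} : Set G) ≤ Subgroup.centralizer ({σ ^ (2 ^ (n - 2))} : Set G) := by
  have h1 := Cfsg.Agent.H71.DihC.cent_le h 1 one_pos
    (by
      have hn := h.hn
      calc 1 < 2 ^ 1 := by norm_num
        _ ≤ 2 ^ (n - 1) := Nat.pow_le_pow_right (by norm_num) (by omega))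
  rwa [pow_one] at h1

theorem σ_inv_eq (h : Hyp n P σ τ) : σ⁻¹ = τ * σ * τ⁻¹ := h.hrel.symm

/-- SUMS -/
theorem sum_σ (h : Hyp n P σ τ) (hX : Core n P σ X) {M : Ideal AlgInt} (hM : IsPModular 2 M) :
    (Nat.card X : ℂ) * (Nat.card G : ℂ) *
        ∑ᶠ χ ∈ principalBlock M G, (χ : G → ℂ) (σ ^ (2 ^ (n - 2))) ^ 2 *
          (χ : G → ℂ) σ / (χ : G → ℂ) 1 =
      (Nat.card {q : G × G // ∃ ρ ∈ X, q.1 * σ ^ (2 ^ (n - 2)) * q.1⁻¹ *
        (q.2 * σ ^ (2 ^ (n - 2)) * q.2⁻¹) = σ * ρ} : ℂ) := by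
  haveI : Fact (Nat.Prime 2) := ⟨Nat.prime_two⟩
  have hcl := cent_σ_le h
  have hKodd : Odd (Nat.card ↥(X ⊓ Subgroup.centralizer ({σ} : Set G))) :=
    Odd.of_dvd_nat hX.odd (Subgroup.card_dvd_of_le inf_le_left)
  have hTI := fun g : G => Cfsg.Agent.H4.Dih.section_indicator 2 hM σ (n - 1) h.hσo
    (X ⊓ Subgroup.centralizer ({σ} : Set G)) inf_le_right
    (fun c hc x hx => ⟨hX.norm c (hcl hc) x hx.1,
      Subgroup.mul_mem _ (Subgroup.mul_mem _ hc hx.2) (Subgroup.inv_mem _ hc)⟩)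
    (Nat.coprime_two_right.mpr hKodd)
    (fun c hc hnd => ⟨hX.oddmem c (hcl hc) (odd_of_not_dvd hnd), hc⟩) g
  have hEnl := fun g : G => Cfsg.Agent.H11.Dih.indicator_enlarge σ (n - 1) h.hσo X hX.odd
    (fun x hx => hX.norm σ (σ_mem_cent h) x hx) (Cfsg.Agent.H11.Dih.sz h hX) g
  have hKpos : 0 < Nat.card ↥(X ⊓ Subgroup.centralizer ({σ} : Set G)) := Nat.card_pos
  have hTI' : ∀ g : G, (∑ᶠ χ ∈ principalBlock M G, (χ : G → ℂ) g * (χ : G → ℂ) σ⁻¹) *
      (Nat.card X : ℂ) = (Nat.card {w : G // ∃ ρ ∈ X, w⁻¹ * g * w = σ * ρ} : ℂ) := by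
    intro g
    have h1 := hTI g
    have h2 : ((Nat.card {w : G // ∃ ρ ∈ X, w⁻¹ * g * w = σ * ρ} : ℕ) : ℂ) *
        (Nat.card ↥(X ⊓ Subgroup.centralizer ({σ} : Set G)) : ℂ) =
        (Nat.card {w : G // ∃ ρ ∈ X ⊓ Subgroup.centralizer ({σ} : Set G),
          w⁻¹ * g * w = σ * ρ} : ℂ) * (Nat.card X : ℂ) := by
      exact_mod_cast hEnl g
    have hK0 : (Nat.card ↥(X ⊓ Subgroup.centralizer ({σ} : Set G)) : ℂ) ≠ 0 := by
      exact_mod_cast hKpos.ne'
    apply mul_right_cancel₀ hK0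
    rw [h2, ← h1]
    ring
  have hp := Cfsg.Agent.H75.Dih.pair_count (principalBlock M G) σ (σ ^ (2 ^ (n - 2))) X hTI'
  rw [← hp]
  congr 1
  apply finsum_mem_congr rfl
  intro χ _
  rw [σ_inv_eq h, Cfsg.Agent.H81.irr_conj]


/-! ### Orthogonality relations on the cyclic part -/

theorem card_twisted (g π : G) (K : Subgroup G)
    (hρ : ∀ w ρ : G, ρ ∈ K → w⁻¹ * g * w = π * ρ → ρ = 1) (w₀ : G)
    (hw₀ : w₀⁻¹ * g * w₀ = π) :
    Nat.card {w : G // ∃ ρ ∈ K, w⁻¹ * g * w = π * ρ} =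
      Nat.card (Subgroup.centralizer ({π} : Set G)) := by
  have hg : g = w₀ * π * w₀⁻¹ := by rw [← hw₀]; group
  apply Nat.card_congr
  refine ⟨fun w => ⟨w₀⁻¹ * w.1, ?_⟩, fun c => ⟨w₀ * c.1, ?_⟩, ?_, ?_⟩
  · obtain ⟨w, ρ, hρK, hw⟩ := w
    have h1 := hρ w ρ hρK hw
    rw [h1, mul_one] at hw
    rw [Subgroup.mem_centralizer_iff]
    intro x hx
    rw [Set.mem_singleton_iff] at hx
    rw [hx]
    show π * (w₀⁻¹ * w) = w₀⁻¹ * w * π
    calc π * (w₀⁻¹ * w) = (w₀⁻¹ * g * w₀) * (w₀⁻¹ * w) := by rw [hw₀]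
      _ = w₀⁻¹ * w * (w⁻¹ * g * w) := by group
      _ = w₀⁻¹ * w * π := by rw [hw]
  · have hc : π * c.1 = c.1 * π :=
      Subgroup.mem_centralizer_iff.mp c.2 π (Set.mem_singleton π)
    refine ⟨1, K.one_mem, ?_⟩
    calc (w₀ * c.1)⁻¹ * g * (w₀ * c.1) = c.1⁻¹ * (w₀⁻¹ * g * w₀) * c.1 := by group
      _ = c.1⁻¹ * (π * c.1) := by rw [hw₀, mul_assoc]
      _ = c.1⁻¹ * (c.1 * π) := by rw [hc]
      _ = π * 1 := by group
  · intro w
    apply Subtype.ext
    show w₀ * (w₀⁻¹ * w.1) = w.1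
    group
  · intro c
    apply Subtype.ext
    show w₀⁻¹ * (w₀ * c.1) = c.1
    group

theorem σ_pow_N (h : Hyp n P σ τ) (l : ℕ) : (σ ^ l) ^ (2 ^ (n - 1)) = 1 := by
  rw [← pow_mul, mul_comm, pow_mul, ← h.hσo, pow_orderOf_eq_one, one_pow]

theorem rho_one (h : Hyp n P σ τ) (hX : Core n P σ X) (l : ℕ) (g : G)
    (hg : g ^ (2 ^ (n - 1)) = 1) (w ρ : G)
    (hρ : ρ ∈ X ⊓ Subgroup.centralizer ({σ ^ l} : Set G))
    (hw : w⁻¹ * g * w = σ ^ l * ρ) : ρ = 1 := by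
  have hcomm : Commute (σ ^ l) ρ :=
    Subgroup.mem_centralizer_iff.mp hρ.2 (σ ^ l) (Set.mem_singleton _)
  have h1 : (σ ^ l * ρ) ^ (2 ^ (n - 1)) = 1 := by
    rw [← hw]
    have : w⁻¹ * g * w = w⁻¹ * g * w⁻¹⁻¹ := by rw [inv_inv]
    rw [this, conj_pow, hg]; group
  rw [hcomm.mul_pow, σ_pow_N h l, one_mul] at h1
  have h2 : orderOf ρ ∣ 2 ^ (n - 1) := orderOf_dvd_of_pow_eq_one h1
  have h3 : orderOf ρ ∣ Nat.card X := Subgroup.orderOf_dvd_natCard X hρ.1
  have h4 : Odd (orderOf ρ) := Odd.of_dvd_nat hX.odd h3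
  have h5 : orderOf ρ = 1 :=
    Nat.Coprime.eq_one_of_dvd (Nat.Coprime.pow_right _ (Nat.coprime_two_right.mpr h4)) h2
  exact orderOf_eq_one_iff.mp h5

theorem σ_pow_inv (h : Hyp n P σ τ) (l : ℕ) : (σ ^ l)⁻¹ = τ * σ ^ l * τ⁻¹ := by
  rw [← conj_pow, h.hrel, inv_pow]

theorem orth_aux (h : Hyp n P σ τ) (hX : Core n P σ X) {M : Ideal AlgInt} (hM : IsPModular 2 M)
    (l : ℕ) (hl : 0 < l) (hlm : l < 2 ^ (n - 1)) (g : G) :
    (∑ᶠ χ ∈ principalBlock M G, (χ : G → ℂ) g * (χ : G → ℂ) (σ ^ l)) *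
        (Nat.card ↥(X ⊓ Subgroup.centralizer ({σ ^ l} : Set G)) : ℂ) =
      (Nat.card {w : G // ∃ ρ ∈ X ⊓ Subgroup.centralizer ({σ ^ l} : Set G),
        w⁻¹ * g * w = σ ^ l * ρ} : ℂ) := by
  haveI : Fact (Nat.Prime 2) := ⟨Nat.prime_two⟩
  have hcl := Cfsg.Agent.H71.DihC.cent_le h l hl hlm
  obtain ⟨k, -, hk⟩ := (Nat.dvd_prime_pow Nat.prime_two).mp
    (orderOf_dvd_of_pow_eq_one (σ_pow_N h l))
  have hKodd : Odd (Nat.card ↥(X ⊓ Subgroup.centralizer ({σ ^ l} : Set G))) :=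
    Odd.of_dvd_nat hX.odd (Subgroup.card_dvd_of_le inf_le_left)
  have hTI := Cfsg.Agent.H4.Dih.section_indicator 2 hM (σ ^ l) k hk
    (X ⊓ Subgroup.centralizer ({σ ^ l} : Set G)) inf_le_right
    (fun c hc x hx => ⟨hX.norm c (hcl hc) x hx.1,
      Subgroup.mul_mem _ (Subgroup.mul_mem _ hc hx.2) (Subgroup.inv_mem _ hc)⟩)
    (Nat.coprime_two_right.mpr hKodd)
    (fun c hc hnd => ⟨hX.oddmem c (hcl hc) (odd_of_not_dvd hnd), hc⟩) g
  rw [← hTI]
  congr 1
  apply finsum_mem_congr rfl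
  intro χ _
  rw [σ_pow_inv h, Cfsg.Agent.H81.irr_conj]

/-- ORTH -/
theorem dih_orth (h : Hyp n P σ τ) (hX : Core n P σ X) {M : Ideal AlgInt} (hM : IsPModular 2 M) :
    (∀ l l' : ℕ, 0 < l → l < 2 ^ (n - 1) → 0 < l' → l' < 2 ^ (n - 1) →
      ∑ᶠ χ ∈ principalBlock M G, (χ : G → ℂ) (σ ^ l') * (χ : G → ℂ) (σ ^ l) =
        2 ^ (n - 1) * ((if l' = l then (1 : ℂ) else 0) +
          (if l' + l = 2 ^ (n - 1) then (1 : ℂ) else 0))) ∧
    (∀ l : ℕ, 0 < l → l < 2 ^ (n - 1) →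
      ∑ᶠ χ ∈ principalBlock M G, (χ : G → ℂ) 1 * (χ : G → ℂ) (σ ^ l) = 0) := by
  have hm2 := Cfsg.Agent.H24.Dih.two_pow_eq h
  have hKpos : ∀ l : ℕ, (Nat.card ↥(X ⊓ Subgroup.centralizer ({σ ^ l} : Set G)) : ℂ) ≠ 0 := by
    intro l
    have : 0 < Nat.card ↥(X ⊓ Subgroup.centralizer ({σ ^ l} : Set G)) := Nat.card_pos
    exact_mod_cast this.ne'
  constructor
  · intro l l' hl hlm hl' hlm'
    have haux := orth_aux h hX hM l hl hlm (σ ^ l')
    have hρ1 : ∀ w ρ : G, ρ ∈ X ⊓ Subgroup.centralizer ({σ ^ l} : Set G) →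
        w⁻¹ * σ ^ l' * w = σ ^ l * ρ → ρ = 1 :=
      fun w ρ hρ hw => rho_one h hX l (σ ^ l') (σ_pow_N h l') w ρ hρ hw
    by_cases hc : l' = l ∨ l' + l = 2 ^ (n - 1)
    · -- conjugate case
      have hw₀ : ∃ w₀ : G, w₀⁻¹ * σ ^ l' * w₀ = σ ^ l := by
        rcases hc with rfl | hc
        · exact ⟨1, by group⟩
        · refine ⟨τ, ?_⟩
          have h1 : σ ^ l' = (σ ^ l)⁻¹ := by
            apply eq_inv_of_mul_eq_one_left
            rw [← pow_add, hc, ← h.hσo, pow_orderOf_eq_one]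
          rw [h1, σ_pow_inv h]
          group
      obtain ⟨w₀, hw₀⟩ := hw₀
      have hcard := card_twisted (σ ^ l') (σ ^ l)
        (X ⊓ Subgroup.centralizer ({σ ^ l} : Set G)) hρ1 w₀ hw₀
      rw [hcard] at haux
      by_cases hJ : l = 2 ^ (n - 2)
      · -- the central involution
        have hl'eq : l' = l := by
          rcases hc with hc | hc
          · exact hc
          · omega
        have hif1 : (if l' = l then (1 : ℂ) else 0) = 1 := if_pos hl'eq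
        have hif2 : (if l' + l = 2 ^ (n - 1) then (1 : ℂ) else 0) = 1 := if_pos (by omega)
        rw [hif1, hif2]
        have hXc : (Nat.card X : ℂ) ≠ 0 := by
          have : 0 < Nat.card X := Nat.card_pos
          exact_mod_cast this.ne'
        subst hJ
        rw [inf_eq_left.mpr hX.le, hX.card] at haux
        apply mul_right_cancel₀ hXc
        rw [haux]
        push_cast
        have h2n : (2 : ℂ) ^ n = 2 ^ (n - 1) * 2 := by
          rw [← pow_succ]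
          congr 1
          have := h.hn
          omega
        rw [h2n]
        ring
      · have hcc := Cfsg.Agent.H75.Dih.card_cent h hX l hl hlm hJ
        rw [hcc] at haux
        have hval : ∑ᶠ χ ∈ principalBlock M G, (χ : G → ℂ) (σ ^ l') * (χ : G → ℂ) (σ ^ l) =
            2 ^ (n - 1) := by
          apply mul_right_cancel₀ (hKpos l)
          rw [haux]
          push_cast
          ring
        rw [hval]
        rcases hc with hc | hc
        · have hif1 : (if l' = l then (1 : ℂ) else 0) = 1 := if_pos hc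
          have hif2 : (if l' + l = 2 ^ (n - 1) then (1 : ℂ) else 0) = 0 := if_neg (by omega)
          rw [hif1, hif2]; ring
        · have hif1 : (if l' = l then (1 : ℂ) else 0) = 0 := if_neg (by omega)
          have hif2 : (if l' + l = 2 ^ (n - 1) then (1 : ℂ) else 0) = 1 := if_pos hc
          rw [hif1, hif2]; ring
    · -- not conjugate
      rw [not_or] at hc
      have hempty : IsEmpty {w : G // ∃ ρ ∈ X ⊓ Subgroup.centralizer ({σ ^ l} : Set G),
          w⁻¹ * σ ^ l' * w = σ ^ l * ρ} := by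
        constructor
        rintro ⟨w, ρ, hρ, hw⟩
        have h1 := hρ1 w ρ hρ hw
        rw [h1, mul_one] at hw
        have hconj : IsConj (σ ^ l) (σ ^ l') := by
          rw [isConj_iff]
          refine ⟨w, ?_⟩
          rw [← hw]; group
        rcases Cfsg.Agent.H71.DihC.fusion h hX l l' hl hlm hl' hlm' hconj with h2 | h2
        · exact hc.1 h2
        · exact hc.2 h2
      rw [@Nat.card_of_isEmpty _ hempty, Nat.cast_zero] at haux
      have hif1 : (if l' = l then (1 : ℂ) else 0) = 0 := if_neg hc.1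
      have hif2 : (if l' + l = 2 ^ (n - 1) then (1 : ℂ) else 0) = 0 := if_neg hc.2
      rw [hif1, hif2]
      rcases mul_eq_zero.mp haux with h0 | h0
      · rw [h0]; ring
      · exact absurd h0 (hKpos l)
  · intro l hl hlm
    have haux := orth_aux h hX hM l hl hlm 1
    have hempty : IsEmpty {w : G // ∃ ρ ∈ X ⊓ Subgroup.centralizer ({σ ^ l} : Set G),
        w⁻¹ * 1 * w = σ ^ l * ρ} := by
      constructor
      rintro ⟨w, ρ, hρ, hw⟩
      have h1 := rho_one h hX l 1 (one_pow _) w ρ hρ hw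
      have h2 : σ ^ l = 1 := by
        have h3 : w⁻¹ * 1 * w = (1 : G) := by group
        rw [h3, h1, mul_one] at hw
        exact hw.symm
      exact pow_ne_one_of_lt_orderOf hl.ne' (by rw [h.hσo]; exact hlm) h2
    rw [@Nat.card_of_isEmpty _ hempty, Nat.cast_zero] at haux
    rcases mul_eq_zero.mp haux with h0 | h0
    · exact h0
    · exact absurd h0 (hKpos l)

end Cfsg.Agent.H84.DihGlue
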