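/-
helper84 library: the matrix of `p`-regular inner products of a block (Brauer–Feit).

For irreducible characters `χ, ψ` put `mreg p χ ψ = ⟨χ̃, ψ⟩` where `χ̃` is `χ` on the `p`-regular
elements and `0` elsewhere.  With `e(χ) = a - ν_p(χ(1))` (`p^a` the `p`-part of `|G|`) the numbers
`A(χ, ψ) = p^{e(χ)} mreg χ ψ` are integers (`Aint`), vanish outside the block of `χ`, satisfy
`∑_ξ A(χ, ξ)² = p^{e(χ)} A(χ, χ)`, the symmetry `A(χ, ψ) = p^{e(χ) - e(ψ)} A(ψ, χ)` and the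
congruence `u(χ) A(ψ, χ) ≡ u(ψ) A(χ, χ) (mod p)` for `ψ` in the block of `χ` (`u` the `p'`-part of
the degree).  For `χ` of height zero `p ∤ A(χ, χ)`.
-/
import Mathlib
import Cfsg.Prelude.Def_Blocks
import Cfsg.Prelude.Def_BlockRank
import Cfsg.Agent.S4425
import Cfsg.Agent.H81.PRegSpan
import Cfsg.Agent.H81.Counting
import Cfsg.Agent.H82.IndDeg
import Cfsg.Agent.H82.Irr
import Cfsg.Agent.H20.CentralChar
import Cfsg.Agent.H80.Block
import Cfsg.Agent.H32.Virtual

set_option autoImplicit false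
set_option linter.style.haveILetI false
set_option linter.unusedSectionVars false
set_option linter.unusedVariables false

namespace Cfsg.Agent.H84

open Cfsg Cfsg.Agent.H4 Cfsg.Agent.H20 Cfsg.Agent.H80
open scoped ComplexConjugate

universe u

section BF

variable {G : Type u} [Group G] [Fintype G]

/-- The inner product of `χ` and `ψ` over the `p`-regular elements. -/
noncomputable def mreg (p : ℕ) (χ ψ : IrrCharacter G) : ℂ :=
  classInner (pRegularPart p (χ : G → ℂ)) (ψ : G → ℂ)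

theorem mreg_eq (p : ℕ) (χ ψ : IrrCharacter G) :
    mreg p χ ψ = (Nat.card G : ℂ)⁻¹ *
      ∑ g : G, (if p ∣ orderOf g then 0 else (χ : G → ℂ) g * conj ((ψ : G → ℂ) g)) := by
  classical
  unfold mreg classInner
  congr 1
  apply Finset.sum_congr rfl
  intro g _
  rw [Cfsg.Agent.H81.pRegularPart_apply]
  split_ifs <;> simp

theorem mreg_conj (p : ℕ) (χ ψ : IrrCharacter G) : conj (mreg p χ ψ) = mreg p ψ χ := by
  classical
  rw [mreg_eq, mreg_eq, map_mul, map_inv₀, map_natCast, map_sum]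
  congr 1
  apply Finset.sum_congr rfl
  intro g _
  split_ifs
  · simp
  · rw [map_mul, Complex.conj_conj, mul_comm]

theorem isClassFunction_pRegularPart' (p : ℕ) {f : G → ℂ} (hf : IsClassFunction G f) :
    IsClassFunction G (pRegularPart p f) := by
  classical
  intro g h
  have ho : orderOf (h * g * h⁻¹) = orderOf g :=
    orderOf_injective (MulAut.conj h).toMonoidHom (MulAut.conj h).injective g
  rw [Cfsg.Agent.H81.pRegularPart_apply, Cfsg.Agent.H81.pRegularPart_apply, ho, hf g h]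

theorem pRegularPart_expand (p : ℕ) (χ : IrrCharacter G) :
    pRegularPart p (χ : G → ℂ) = ∑ᶠ ξ : IrrCharacter G, mreg p χ ξ • (ξ : G → ℂ) :=
  classFunction_eq_finsum (isClassFunction_pRegularPart' p (irr_isClassFunction χ))

/-- The matrix `mreg` is a Hermitian idempotent. -/
theorem sum_mreg_mul_conj (p : ℕ) (χ ψ : IrrCharacter G) :
    ∑ᶠ ξ : IrrCharacter G, mreg p χ ξ * conj (mreg p ψ ξ) = mreg p χ ψ := by
  classical
  rw [← Cfsg.Agent.H32.classInner_finsum_finsum, ← pRegularPart_expand, ← pRegularPart_expand,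
    mreg_eq]
  unfold classInner
  congr 1
  apply Finset.sum_congr rfl
  intro g _
  rw [Cfsg.Agent.H81.pRegularPart_apply, Cfsg.Agent.H81.pRegularPart_apply]
  split_ifs <;> simp

variable {p : ℕ} [Fact p.Prime] {M : Ideal AlgInt}

theorem mreg_eq_zero (hM : IsPModular p M) (χ ψ : IrrCharacter G)
    (h : ψ ∉ blockOf M (χ : G → ℂ)) : mreg p χ ψ = 0 :=
  Cfsg.Agent.H81.wbo_two hM χ ψ h

/-- Integrality of `p ^ e * mreg χ ξ` for `e ≥ a - ν_p(χ(1))`. -/
theorem exists_int_mreg (hM : IsPModular p M) (χ : IrrCharacter G) (e : ℕ)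
    (he : (Nat.card G).factorization p - (charDegree (χ : G → ℂ)).factorization p ≤ e) :
    ∃ n : IrrCharacter G → ℤ, ∀ ξ : IrrCharacter G, (p ^ e : ℂ) * mreg p χ ξ = (n ξ : ℂ) := by
  obtain ⟨m, hm1, hm2⟩ := Cfsg.Agent.H81.exists_int_coeff_pReg hM χ e he
  refine ⟨m, fun ξ => ?_⟩
  have h1 : (p ^ e : ℂ) • pRegularPart p (χ : G → ℂ) =
      ∑ᶠ ξ : IrrCharacter G, ((m ξ : ℤ) : ℂ) • (ξ : G → ℂ) := by
    funext g
    rw [Pi.smul_apply, smul_eq_mul, hm2 g, finsum_irr_apply]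
  have h2 := Cfsg.Agent.H32.genChar_coeff_eq m ξ
  rw [← h1, classInner_smul_left] at h2
  exact h2

theorem mreg_real (hM : IsPModular p M) (χ ξ : IrrCharacter G) :
    conj (mreg p χ ξ) = mreg p χ ξ := by
  have hp : p.Prime := Fact.out
  obtain ⟨n, hn⟩ := exists_int_mreg hM χ _ (le_refl _)
  have hp0 : (p ^ ((Nat.card G).factorization p -
      (charDegree (χ : G → ℂ)).factorization p) : ℂ) ≠ 0 :=
    pow_ne_zero _ (Nat.cast_ne_zero.mpr hp.ne_zero)
  have h1 : mreg p χ ξ = (n ξ : ℂ) / p ^ ((Nat.card G).factorization p -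
      (charDegree (χ : G → ℂ)).factorization p) := by
    rw [← hn ξ]
    field_simp
  rw [h1]
  simp [map_div₀]

theorem mreg_symm (hM : IsPModular p M) (χ ψ : IrrCharacter G) : mreg p χ ψ = mreg p ψ χ := by
  rw [← mreg_conj, mreg_real hM]

/-- Central character congruence for the matrix `mreg`. -/
theorem mreg_central (hM : IsPModular p M) (χ ψ : IrrCharacter G)
    (hψ : ψ ∈ blockOf M (χ : G → ℂ)) :
    MemLocalIdeal M ((Nat.card G : ℂ) * mreg p ψ χ / (ψ : G → ℂ) 1 -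
      (Nat.card G : ℂ) * mreg p χ χ / (χ : G → ℂ) 1) := by
  classical
  have hMp := isPrime_of_isPModular hM
  have hcard : (Nat.card G : ℂ) ≠ 0 := by
    have : 0 < Nat.card G := Nat.card_pos
    exact_mod_cast this.ne'
  obtain ⟨z, hzdef⟩ : ∃ z : MonoidAlgebra ℂ G, z = ∑ g : G,
      MonoidAlgebra.single g (conj (pRegularPart p (χ : G → ℂ) g)) := ⟨_, rfl⟩
  have hzc : ∀ g, z.coeff g = conj (pRegularPart p (χ : G → ℂ) g) := by
    intro g
    rw [hzdef, MonoidAlgebra.coeff_sum, Finsupp.finsetSum_apply]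
    simp [MonoidAlgebra.coeff_single, Finsupp.single_apply]
  have hz : z ∈ cfSubring G (localRing M hMp) := by
    refine ⟨fun g h => ?_, fun g => ?_⟩
    · rw [hzc, hzc, isClassFunction_pRegularPart' p (irr_isClassFunction χ) g h]
    · rw [hzc, Cfsg.Agent.H81.pRegularPart_apply]
      split_ifs
      · rw [map_zero]
        exact (localRing M hMp).zero_mem
      · rw [irr_conj]
        exact memLocalRing_algInt hMp ⟨_, Cfsg.Agent.H81.irr_isIntegral χ g⁻¹⟩
  have hom : ∀ θ : IrrCharacter G, omega (θ : G → ℂ) z =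
      (Nat.card G : ℂ) * mreg p θ χ / (θ : G → ℂ) 1 := by
    intro θ
    unfold omega
    congr 1
    rw [mreg_eq, ← mul_assoc, mul_inv_cancel₀ hcard, one_mul]
    apply Finset.sum_congr rfl
    intro g _
    rw [hzc, Cfsg.Agent.H81.pRegularPart_apply]
    split_ifs <;> simp [mul_comm]
  have h1 := omega_sub_omega_memLocalIdeal hMp (ψ : G → ℂ) (χ : G → ℂ) (irr_isClassFunction ψ)
    (irr_isClassFunction χ) (sameBlock_symm hψ) hz
  rw [hom, hom] at h1
  exact h1

/-! ### The integer matrix -/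

/-- The exponent of `p` in the degree of `χ`. -/
noncomputable def bexp (p : ℕ) (χ : IrrCharacter G) : ℕ :=
  (charDegree (χ : G → ℂ)).factorization p

/-- `e(χ) = a - ν_p(χ(1))`, where `p ^ a` is the `p`-part of `|G|`. -/
noncomputable def eexp (p : ℕ) (χ : IrrCharacter G) : ℕ :=
  (Nat.card G).factorization p - bexp p χ

/-- The `p'`-part of the degree of `χ`. -/
noncomputable def upart (p : ℕ) (χ : IrrCharacter G) : ℕ :=
  charDegree (χ : G → ℂ) / p ^ bexp p χ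

omit [Fact p.Prime] in
theorem bexp_le (p : ℕ) (χ : IrrCharacter G) : bexp p χ ≤ (Nat.card G).factorization p := by
  have hd := Cfsg.Agent.H82.charDegree_dvd_card χ
  exact (Nat.factorization_le_iff_dvd (Cfsg.Agent.H82.charDegree_pos χ).ne'
    Nat.card_pos.ne').mpr hd p

omit [Fact p.Prime] in
theorem bexp_add_eexp (p : ℕ) (χ : IrrCharacter G) :
    bexp p χ + eexp p χ = (Nat.card G).factorization p := by
  unfold eexp
  have := bexp_le p χ
  omega

omit [Fact p.Prime] in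
theorem pow_bexp_mul_upart (p : ℕ) (χ : IrrCharacter G) :
    p ^ bexp p χ * upart p χ = charDegree (χ : G → ℂ) :=
  Nat.ordProj_mul_ordCompl_eq_self _ p

theorem not_dvd_upart (χ : IrrCharacter G) : ¬ p ∣ upart p χ :=
  Nat.not_dvd_ordCompl Fact.out (Cfsg.Agent.H82.charDegree_pos χ).ne'

/-- The integer `p ^ e(χ) * mreg χ ξ`. -/
noncomputable def Aint (p : ℕ) (χ ξ : IrrCharacter G) : ℤ :=
  ⌊((p ^ eexp p χ : ℂ) * mreg p χ ξ).re⌋

theorem Aint_spec (hM : IsPModular p M) (χ ξ : IrrCharacter G) :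
    ((Aint p χ ξ : ℤ) : ℂ) = (p ^ eexp p χ : ℂ) * mreg p χ ξ := by
  obtain ⟨n, hn⟩ := exists_int_mreg hM χ (eexp p χ) (le_refl _)
  unfold Aint
  rw [hn ξ]
  simp

theorem Aint_symm (hM : IsPModular p M) (χ ψ : IrrCharacter G) (h : eexp p ψ ≤ eexp p χ) :
    Aint p χ ψ = (p : ℤ) ^ (eexp p χ - eexp p ψ) * Aint p ψ χ := by
  have h1 : ((Aint p χ ψ : ℤ) : ℂ) =
      (((p : ℤ) ^ (eexp p χ - eexp p ψ) * Aint p ψ χ : ℤ) : ℂ) := by
    rw [Aint_spec hM]
    push_cast
    rw [Aint_spec hM, mreg_symm hM χ ψ, ← mul_assoc, ← pow_add, Nat.sub_add_cancel h]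
  exact_mod_cast h1

theorem Aint_eq_zero (hM : IsPModular p M) (χ ξ : IrrCharacter G)
    (h : ξ ∉ blockOf M (χ : G → ℂ)) : Aint p χ ξ = 0 := by
  have h1 : ((Aint p χ ξ : ℤ) : ℂ) = ((0 : ℤ) : ℂ) := by
    rw [Aint_spec hM, mreg_eq_zero hM χ ξ h, mul_zero, Int.cast_zero]
  exact_mod_cast h1

/-- The row of `χ` has square sum `p ^ e(χ) * A(χ, χ)`. -/
theorem sum_Aint_sq (hM : IsPModular p M) (χ : IrrCharacter G) :
    ∑ᶠ ξ : IrrCharacter G, (Aint p χ ξ) ^ 2 = (p : ℤ) ^ eexp p χ * Aint p χ χ := by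
  classical
  letI := fintypeIrr G
  have h1 : ((∑ᶠ ξ : IrrCharacter G, (Aint p χ ξ) ^ 2 : ℤ) : ℂ) =
      (((p : ℤ) ^ eexp p χ * Aint p χ χ : ℤ) : ℂ) := by
    rw [finsum_irr_eq_sum]
    push_cast
    rw [Aint_spec hM, ← sum_mreg_mul_conj p χ χ, finsum_irr_eq_sum, Finset.mul_sum, Finset.mul_sum]
    apply Finset.sum_congr rfl
    intro ξ _
    rw [Aint_spec hM, mreg_real hM]
    ring
  exact_mod_cast h1

/-- Central character congruence for the integer matrix. -/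
theorem Aint_congr (hM : IsPModular p M) (χ ψ : IrrCharacter G)
    (hψ : ψ ∈ blockOf M (χ : G → ℂ)) :
    (p : ℤ) ∣ (upart p χ : ℤ) * Aint p ψ χ - (upart p ψ : ℤ) * Aint p χ χ := by
  have hp : p.Prime := Fact.out
  have hMp := isPrime_of_isPModular hM
  have hp0 : (p : ℂ) ≠ 0 := Nat.cast_ne_zero.mpr hp.ne_zero
  obtain ⟨a, hadef⟩ : ∃ a : ℕ, a = (Nat.card G).factorization p := ⟨_, rfl⟩
  obtain ⟨g', hg'def⟩ : ∃ g' : ℕ, g' = Nat.card G / p ^ a := ⟨_, rfl⟩
  have hg' : ¬ p ∣ g' := by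
    rw [hg'def, hadef]
    exact Nat.not_dvd_ordCompl hp Nat.card_pos.ne'
  have hcard : (Nat.card G : ℂ) = (p : ℂ) ^ a * (g' : ℂ) := by
    have h1 : p ^ a * g' = Nat.card G := by
      rw [hg'def, hadef]
      exact Nat.ordProj_mul_ordCompl_eq_self _ p
    rw [← h1]
    push_cast
    ring
  have hdeg : ∀ θ : IrrCharacter G, (θ : G → ℂ) 1 = (p : ℂ) ^ bexp p θ * (upart p θ : ℂ) := by
    intro θ
    rw [Cfsg.Agent.H82.irr_one_eq_charDegree, ← pow_bexp_mul_upart p θ]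
    push_cast
    ring
  have hu0 : ∀ θ : IrrCharacter G, (upart p θ : ℂ) ≠ 0 := by
    intro θ h0
    have h1 : upart p θ = 0 := by exact_mod_cast h0
    exact not_dvd_upart (p := p) θ (h1 ▸ dvd_zero p)
  have hc : ∀ θ : IrrCharacter G, (Nat.card G : ℂ) * mreg p θ χ / (θ : G → ℂ) 1 =
      (g' : ℂ) * (Aint p θ χ : ℂ) / (upart p θ : ℂ) := by
    intro θ
    have hae : a = bexp p θ + eexp p θ := by rw [hadef, bexp_add_eexp]
    rw [hcard, hdeg θ, Aint_spec hM, hae, pow_add]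
    have h1 := hu0 θ
    have h2 : (p : ℂ) ^ bexp p θ ≠ 0 := pow_ne_zero _ hp0
    field_simp
  have h1 := mreg_central hM χ ψ hψ
  rw [hc ψ, hc χ] at h1
  have h2 := memLocalIdeal_mul_left hMp
    (memLocalRing_mul hMp (memLocalRing_natCast hMp (upart p ψ))
      (memLocalRing_natCast hMp (upart p χ))) h1
  have e : (upart p ψ : ℂ) * (upart p χ : ℂ) *
      ((g' : ℂ) * (Aint p ψ χ : ℂ) / (upart p ψ : ℂ) -
        (g' : ℂ) * (Aint p χ χ : ℂ) / (upart p χ : ℂ)) =
      (((g' : ℤ) * ((upart p χ : ℤ) * Aint p ψ χ - (upart p ψ : ℤ) * Aint p χ χ) : ℤ) : ℂ) := by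
    have h3 := hu0 ψ
    have h4 := hu0 χ
    push_cast
    field_simp
  rw [e] at h2
  have h5 := (memLocalIdeal_intCast_iff hM _).mp h2
  rcases (Nat.prime_iff_prime_int.mp hp).dvd_or_dvd h5 with h6 | h6
  · exact absurd (Int.natCast_dvd_natCast.mp h6) hg'
  · exact h6

/-- For `χ` of minimal degree exponent in its block (height zero), `p ∤ A(χ, χ)`. -/
theorem not_dvd_Aint_self (hM : IsPModular p M) (χ : IrrCharacter G)
    (hmin : ∀ ψ ∈ blockOf M (χ : G → ℂ), bexp p χ ≤ bexp p ψ) : ¬ (p : ℤ) ∣ Aint p χ χ := by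
  classical
  intro hdiv
  have hp : p.Prime := Fact.out
  have hpZ : Prime (p : ℤ) := Nat.prime_iff_prime_int.mp hp
  have hp0 : (p : ℂ) ≠ 0 := Nat.cast_ne_zero.mpr hp.ne_zero
  have hu : ¬ (p : ℤ) ∣ (upart p χ : ℤ) := fun h =>
    not_dvd_upart (p := p) χ (Int.natCast_dvd_natCast.mp h)
  have step1 : ∀ ψ ∈ blockOf M (χ : G → ℂ), (p : ℤ) ∣ Aint p ψ χ := by
    intro ψ hψ
    have h1 := Aint_congr hM χ ψ hψ
    have h2 : (p : ℤ) ∣ (upart p χ : ℤ) * Aint p ψ χ := by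
      have h3 := dvd_add h1 (dvd_mul_of_dvd_right hdiv (upart p ψ : ℤ))
      rwa [sub_add_cancel] at h3
    exact (hpZ.dvd_or_dvd h2).resolve_left hu
  have step2 : ∀ ψ : IrrCharacter G, (p : ℤ) ∣ Aint p χ ψ := by
    intro ψ
    by_cases hψ : ψ ∈ blockOf M (χ : G → ℂ)
    · have hle : eexp p ψ ≤ eexp p χ := by
        unfold eexp
        have := hmin ψ hψ
        omega
      rw [Aint_symm hM χ ψ hle]
      exact dvd_mul_of_dvd_right (step1 ψ hψ) _
    · rw [Aint_eq_zero hM χ ψ hψ]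
      exact dvd_zero _
  have hnot := (Cfsg.Agent.S4425.result p χ).2
  apply hnot
  apply Cfsg.Agent.S4425.isGeneralizedCharacter_of_int
  · intro g h
    have ho : orderOf (h * g * h⁻¹) = orderOf g :=
      orderOf_injective (MulAut.conj h).toMonoidHom (MulAut.conj h).injective g
    simp only [ho, irr_isClassFunction χ g h]
  · intro ψ
    obtain ⟨k, hk⟩ := step2 ψ
    refine ⟨k, ?_⟩
    have hf : (fun x : G => if p ∣ orderOf x then (0 : ℂ) else
        ((p ^ (Nat.card G).factorization p : ℕ) : ℂ) /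
          ((p ^ ((charDegree (χ : G → ℂ)).factorization p + 1) : ℕ) : ℂ) * (χ : G → ℂ) x) =
        (((p ^ (Nat.card G).factorization p : ℕ) : ℂ) /
          ((p ^ ((charDegree (χ : G → ℂ)).factorization p + 1) : ℕ) : ℂ)) •
          pRegularPart p (χ : G → ℂ) := by
      funext x
      rw [Pi.smul_apply, smul_eq_mul, Cfsg.Agent.H81.pRegularPart_apply]
      split_ifs <;> simp
    rw [hf, classInner_smul_left]
    have h1 : (p ^ eexp p χ : ℂ) * mreg p χ ψ = ((p : ℤ) * k : ℤ) := by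
      rw [← Aint_spec hM, hk]
    have h2 : ((p ^ (Nat.card G).factorization p : ℕ) : ℂ) =
        (p : ℂ) ^ bexp p χ * (p : ℂ) ^ eexp p χ := by
      rw [← pow_add, bexp_add_eexp]
      push_cast
      rfl
    have h3 : ((p ^ ((charDegree (χ : G → ℂ)).factorization p + 1) : ℕ) : ℂ) =
        (p : ℂ) ^ bexp p χ * (p : ℂ) := by
      unfold bexp
      push_cast
      rw [pow_succ]
    show _ / _ * mreg p χ ψ = (k : ℂ)
    rw [h2, h3]
    have h4 : (p : ℂ) ^ bexp p χ ≠ 0 := pow_ne_zero _ hp0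
    have h5 : (p : ℂ) ^ bexp p χ * (p : ℂ) ^ eexp p χ / ((p : ℂ) ^ bexp p χ * (p : ℂ)) *
        mreg p χ ψ = ((p : ℂ) ^ eexp p χ * mreg p χ ψ) / (p : ℂ) := by
      field_simp
    rw [h5, h1]
    push_cast
    field_simp

/-! ### Pivots -/

theorem not_dvd_Aint_of_min (hM : IsPModular p M) (χ ψ : IrrCharacter G)
    (hmin : ∀ ψ ∈ blockOf M (χ : G → ℂ), bexp p χ ≤ bexp p ψ)
    (hψ : ψ ∈ blockOf M (χ : G → ℂ)) : ¬ (p : ℤ) ∣ Aint p ψ χ := by
  intro h
  have hp : p.Prime := Fact.out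
  have hpZ : Prime (p : ℤ) := Nat.prime_iff_prime_int.mp hp
  have h1 := Aint_congr hM χ ψ hψ
  have h2 : (p : ℤ) ∣ (upart p ψ : ℤ) * Aint p χ χ := by
    have h3 := dvd_sub (dvd_mul_of_dvd_right h (upart p χ : ℤ)) h1
    rwa [sub_sub_cancel] at h3
  rcases hpZ.dvd_or_dvd h2 with h4 | h4
  · exact not_dvd_upart (p := p) ψ (Int.natCast_dvd_natCast.mp h4)
  · exact not_dvd_Aint_self hM χ hmin h4

/-- The row of a height-zero character: all entries in the block are nonzero, and the entry at `ξ`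
is divisible by `p` to the height of `ξ`. -/
theorem Aint_min_row (hM : IsPModular p M) (χ ξ : IrrCharacter G)
    (hmin : ∀ ψ ∈ blockOf M (χ : G → ℂ), bexp p χ ≤ bexp p ψ)
    (hξ : ξ ∈ blockOf M (χ : G → ℂ)) :
    Aint p χ ξ ≠ 0 ∧ (p : ℤ) ^ (bexp p ξ - bexp p χ) ∣ Aint p χ ξ := by
  have hp : p.Prime := Fact.out
  have hle : eexp p ξ ≤ eexp p χ := by
    unfold eexp
    have := hmin ξ hξ
    omega
  have he : eexp p χ - eexp p ξ = bexp p ξ - bexp p χ := by
    unfold eexp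
    have := hmin ξ hξ
    have := bexp_le p ξ
    omega
  rw [Aint_symm hM χ ξ hle, he]
  refine ⟨mul_ne_zero (pow_ne_zero _ (by exact_mod_cast hp.ne_zero)) (fun h0 => ?_),
    dvd_mul_right _ _⟩
  exact not_dvd_Aint_of_min hM χ ξ hmin hξ (h0 ▸ dvd_zero _)

/-- Bessel-type bound for the row of `χ`: the squares of the entries at any finite set of
characters other than `χ` sum to at most `A(χ, χ) (p ^ e(χ) - A(χ, χ))`. -/
theorem sum_Aint_sq_le (hM : IsPModular p M) (χ : IrrCharacter G)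
    (T : Finset (IrrCharacter G)) (hT : χ ∉ T) :
    ∑ ξ ∈ T, (Aint p χ ξ) ^ 2 ≤ Aint p χ χ * ((p : ℤ) ^ eexp p χ - Aint p χ χ) := by
  classical
  letI := fintypeIrr G
  have h1 := sum_Aint_sq hM χ
  rw [finsum_irr_eq_sum] at h1
  have h2 : ∑ ξ ∈ insert χ T, (Aint p χ ξ) ^ 2 ≤ ∑ ξ : IrrCharacter G, (Aint p χ ξ) ^ 2 :=
    Finset.sum_le_sum_of_subset_of_nonneg (Finset.subset_univ _) (fun ξ _ _ => sq_nonneg _)
  rw [Finset.sum_insert hT, h1] at h2
  linarith

theorem four_mul_le_sq (n P : ℤ) : 4 * (n * (P - n)) ≤ P ^ 2 := by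
  nlinarith [sq_nonneg (P - 2 * n)]

theorem exists_min_bexp {B : Set (IrrCharacter G)} (hB : IsPBlock M B) (hMp : M.IsPrime) :
    ∃ χ : IrrCharacter G, χ ∈ B ∧ B = blockOf M (χ : G → ℂ) ∧
      (∀ ψ ∈ B, bexp p χ ≤ bexp p ψ) ∧
      sInf ((fun χ : IrrCharacter G => (charDegree (χ : G → ℂ)).factorization p) '' B) =
        bexp p χ := by
  obtain ⟨χ₀, rfl⟩ := hB
  have hne : ((fun χ : IrrCharacter G => (charDegree (χ : G → ℂ)).factorization p) ''
      blockOf M (χ₀ : G → ℂ)).Nonempty := ⟨_, χ₀, mem_blockOf_self hMp χ₀, rfl⟩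
  obtain ⟨χ, hχ, hχe⟩ := Nat.sInf_mem hne
  have hχe' : (charDegree (χ : G → ℂ)).factorization p =
      sInf ((fun χ : IrrCharacter G => (charDegree (χ : G → ℂ)).factorization p) ''
        blockOf M (χ₀ : G → ℂ)) := hχe
  refine ⟨χ, hχ, (blockOf_eq_of_mem hMp hχ).symm, fun ψ hψ => ?_, hχe'.symm⟩
  unfold bexp
  rw [hχe']
  exact Nat.sInf_le ⟨ψ, hψ, rfl⟩

/-- **Brauer–Feit**: `k(B) ≤ p^{2d}/4 + 1`. -/
theorem brauer_feit (hM : IsPModular p M) (B : Set (IrrCharacter G)) (hB : IsPBlock M B) :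
    4 * Nat.card B ≤ p ^ (2 * blockDefect p B) + 4 := by
  classical
  letI := fintypeIrr G
  have hMp := isPrime_of_isPModular hM
  obtain ⟨χ, hχB, hBeq, hmin, hinf⟩ := exists_min_bexp (p := p) hB hMp
  have hd : blockDefect p B = eexp p χ := by
    unfold blockDefect eexp
    rw [hinf]
  obtain ⟨S, hSdef⟩ : ∃ S : Finset (IrrCharacter G),
      S = Finset.univ.filter (fun ξ => ξ ∈ B) := ⟨_, rfl⟩
  have hcard : Nat.card B = S.card := by
    rw [hSdef, Nat.card_eq_fintype_card, Fintype.card_subtype]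
  have hχS : χ ∈ S := by
    rw [hSdef]
    simp [hχB]
  have h1 := sum_Aint_sq_le hM χ (S.erase χ) (Finset.notMem_erase χ S)
  have h2 : ((S.erase χ).card : ℤ) ≤ ∑ ξ ∈ S.erase χ, (Aint p χ ξ) ^ 2 := by
    have h3 := Finset.card_nsmul_le_sum (S.erase χ) (fun ξ => (Aint p χ ξ) ^ 2) 1 (fun ξ hξ => by
      have hξS := Finset.mem_of_mem_erase hξ
      rw [hSdef] at hξS
      have hξB : ξ ∈ blockOf M (χ : G → ℂ) := hBeq ▸ (Finset.mem_filter.mp hξS).2
      have hne := (Aint_min_row hM χ ξ (hBeq ▸ hmin) hξB).1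
      have hpos : 0 < (Aint p χ ξ) ^ 2 := by positivity
      omega)
    simpa using h3
  have h3 : (S.erase χ).card + 1 = S.card := Finset.card_erase_add_one hχS
  have h4 := four_mul_le_sq (Aint p χ χ) ((p : ℤ) ^ eexp p χ)
  have h5 : ((4 * Nat.card B : ℕ) : ℤ) ≤ ((p ^ (2 * blockDefect p B) + 4 : ℕ) : ℤ) := by
    rw [hcard, ← h3, hd]
    push_cast
    rw [pow_mul']
    linarith
  exact_mod_cast h5

end BF

end Cfsg.Agent.H84
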