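/-
helper84 library (S4482), glue part C: the value of the lattice sum for the principal 2-block
(`main_T`), the final algebra, and the order formula `dih_order_formula_aux` with the two counts
of pairs of involutions (QJ0 / QS0) as hypotheses.
-/
import Mathlib
import Cfsg.Prelude.Def_Blocks
import Cfsg.Agent.H84.DihGlueA
import Cfsg.Agent.H84.DihGlueB
import Cfsg.Agent.H4.Irr
import Cfsg.Agent.H4.Blich1
import Cfsg.Agent.H80.Block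
import Cfsg.Agent.H80.Basic
import Cfsg.Agent.H16.RepMult
import Cfsg.Agent.H60.DihCore1
import Cfsg.Agent.H24.DihCORE2
import Cfsg.Agent.H75.DihQCONV
import Cfsg.Agent.H75.DihCARD

set_option autoImplicit false
set_option linter.style.haveILetI false
set_option linter.unusedVariables false
set_option linter.unusedSectionVars false

namespace Cfsg.Agent.H84.DihGlue

open Cfsg Cfsg.Agent.H84.Dih
open scoped ComplexConjugate

universe u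

variable {G : Type u} [Group G] [Finite G] {n : ℕ} {P : Sylow 2 G} {σ τ : G} {X : Subgroup G}

/-- MAINT -/
theorem main_T (h : Hyp n P σ τ) (hX : Core n P σ X) {M : Ideal AlgInt} (hM : IsPModular 2 M)
    (χ₁ : IrrCharacter G) (hχ₁ : χ₁ ∈ principalBlock M G) (h1 : (χ₁ : G → ℂ) ≠ (fun _ => 1))
    (δ₁ : ℤ) (hδ₁ : δ₁ = 1 ∨ δ₁ = -1)
    (hval : ∀ l : ℕ, 0 < l → l < 2 ^ (n - 1) → (χ₁ : G → ℂ) (σ ^ l) = δ₁) :
    (1 : ℤ) + δ₁ * (charDegree (χ₁ : G → ℂ) : ℤ) ≠ 0 ∧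
      ∑ᶠ χ ∈ principalBlock M G, (χ : G → ℂ) (σ ^ (2 ^ (n - 2))) ^ 2 *
          ((χ : G → ℂ) (σ ^ (2 ^ (n - 2))) + (χ : G → ℂ) σ) / (χ : G → ℂ) 1 =
        2 + 2 * (δ₁ : ℂ) / (charDegree (χ₁ : G → ℂ) : ℂ) -
          8 / (1 + (δ₁ : ℂ) * (charDegree (χ₁ : G → ℂ) : ℂ)) := by
  classical
  haveI : Finite (IrrCharacter G) := Cfsg.Agent.H80.irr_finite G
  letI : Fintype ↥(principalBlock M G) := Fintype.ofFinite _
  have hmpos : 0 < 2 ^ (n - 1) := by positivity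
  obtain ⟨ζ, hζ⟩ : ∃ ζ : ℂ, IsPrimitiveRoot ζ (2 ^ (n - 1)) :=
    ⟨_, Complex.isPrimitiveRoot_exp _ hmpos.ne'⟩
  have hσN : σ ^ (2 ^ (n - 1)) = 1 := by rw [← h.hσo]; exact pow_orderOf_eq_one σ
  have hex : ∀ i : ↥(principalBlock M G), ∃ m : ℕ → ℕ,
      (∀ j : ℕ, (i.1 : G → ℂ) (σ ^ j) =
        ∑ k ∈ Finset.range (2 ^ (n - 1)), (m k : ℂ) * ζ ^ (k * j)) :=
    fun i => by
      obtain ⟨m, hm, -⟩ := Cfsg.Agent.H16.RepMult.exists_mult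
        (Cfsg.Agent.H4.isCharacter_of_isIrrCharacter i.1.2) σ (2 ^ (n - 1)) hmpos hσN ζ hζ
      exact ⟨m, hm⟩
  choose a ha using hex
  have hdeg : ∀ i : ↥(principalBlock M G),
      (i.1 : G → ℂ) 1 = (charDegree (i.1 : G → ℂ) : ℂ) :=
    fun i => Cfsg.Agent.H4.isCharacter_one_eq (Cfsg.Agent.H4.isCharacter_of_isIrrCharacter i.1.2)
  obtain ⟨F1, F2⟩ := dih_orth h hX hM
  have hconv : ∀ f : IrrCharacter G → ℂ,
      ∑ᶠ χ ∈ principalBlock M G, f χ = ∑ i : ↥(principalBlock M G), f i.1 := by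
    intro f
    rw [← finsum_set_coe_eq_finsum_mem, finsum_eq_sum_of_fintype]
  have hFL := fourier_lattice n h.hn ζ hζ
    (fun i : ↥(principalBlock M G) => charDegree (i.1 : G → ℂ))
    (fun i => Cfsg.Agent.H4.irr_charDegree_pos i.1) a
    (fun (i : ↥(principalBlock M G)) (l : ℕ) => (i.1 : G → ℂ) (σ ^ l))
    ha
    (fun i => by
      show (i.1 : G → ℂ) (σ ^ 0) = _
      rw [pow_zero]; exact hdeg i)
    (fun l l' hl hlm hl' hlm' =>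
      (hconv (fun χ => (χ : G → ℂ) (σ ^ l') * (χ : G → ℂ) (σ ^ l))).symm.trans
        (F1 l l' hl hlm hl' hlm'))
    (fun l hl hlm => by
      have h2 := F2 l hl hlm
      rw [hconv (fun χ => (χ : G → ℂ) 1 * (χ : G → ℂ) (σ ^ l))] at h2
      rw [← h2]
      exact Finset.sum_congr rfl (fun i _ => by rw [hdeg i]))
    ⟨Cfsg.Agent.H80.trivChar G, Cfsg.Agent.H80.trivChar_mem_principalBlock hM.2.1.isPrime⟩
    ⟨χ₁, hχ₁⟩
    (by
      intro heq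
      apply h1
      have h2 : Cfsg.Agent.H80.trivChar G = χ₁ := congrArg Subtype.val heq
      rw [← h2]
      rfl)
    (fun l => rfl) δ₁ hδ₁ hval
  obtain ⟨hne, hsum⟩ := hFL
  refine ⟨hne, ?_⟩
  rw [hconv, ← hsum]
  apply Finset.sum_congr rfl
  intro i _
  show _ = (i.1 : G → ℂ) (σ ^ (2 ^ (n - 2))) ^ 2 *
    ((i.1 : G → ℂ) (σ ^ (2 ^ (n - 2))) + (i.1 : G → ℂ) (σ ^ 1)) / _
  rw [pow_one, hdeg i]

/-- The final algebra. -/
theorem final_algebra (N ξ c α β x d SJ Sσ QJ QS : ℂ) (hN : N ≠ 0) (hξ : ξ ≠ 0)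
    (hα : α ≠ 0) (hβ : β ≠ 0) (hx : x ≠ 0) (hd : d = 1 ∨ d = -1)
    (e1 : ξ * N * SJ = QJ) (e2 : ξ * N * Sσ = QS)
    (e4 : QJ * (4 * α ^ 2 * β ^ 2) = c ^ 3 * ξ * (α ^ 2 + β ^ 2))
    (e5 : QS * (2 * α * β) = c ^ 3 * ξ)
    (e6 : SJ + Sσ = 2 + 2 * d / x - 8 / (1 + d * x)) (e7 : 1 + d * x ≠ 0) :
    N * (x - d) ^ 2 = 2 * x * (x + d) * c ^ 3 * (1 / (4 * α) + 1 / (4 * β)) ^ 2 := by
  have hd2 : d ^ 2 = 1 := by rcases hd with rfl | rfl <;> norm_num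
  have hxd : x + d ≠ 0 := by
    intro h0
    apply e7
    have : 1 + d * x = d * (x + d) := by rw [mul_add, ← pow_two, hd2]; ring
    rw [this, h0, mul_zero]
  have hT : (SJ + Sσ) * (x * (x + d)) = 2 * (x - d) ^ 2 := by
    rw [e6]
    have h1 : (1 : ℂ) + d * x = d * (x + d) := by rw [mul_add, ← pow_two, hd2]; ring
    have hd0 : d ≠ 0 := by rcases hd with rfl | rfl <;> norm_num
    rw [h1]
    field_simp
    ring_nf
    have hd3 : d ^ 3 = d := by rw [pow_succ, hd2, one_mul]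
    rw [hd2, hd3]
    ring
  have hsum : ξ * N * (SJ + Sσ) * (4 * α ^ 2 * β ^ 2) = c ^ 3 * ξ * (α + β) ^ 2 := by
    have h2 : QS * (4 * α ^ 2 * β ^ 2) = c ^ 3 * ξ * (2 * α * β) := by
      have : QS * (4 * α ^ 2 * β ^ 2) = QS * (2 * α * β) * (2 * α * β) := by ring
      rw [this, e5]
    rw [mul_add, add_mul, e1, e2, e4, h2]
    ring
  have hsum' : N * (SJ + Sσ) * (4 * α ^ 2 * β ^ 2) = c ^ 3 * (α + β) ^ 2 := by
    have : ξ * (N * (SJ + Sσ) * (4 * α ^ 2 * β ^ 2)) = ξ * (c ^ 3 * (α + β) ^ 2) := by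
      calc ξ * (N * (SJ + Sσ) * (4 * α ^ 2 * β ^ 2))
          = ξ * N * (SJ + Sσ) * (4 * α ^ 2 * β ^ 2) := by ring
        _ = c ^ 3 * ξ * (α + β) ^ 2 := hsum
        _ = _ := by ring
    exact mul_left_cancel₀ hξ this
  have hgoal : N * (x - d) ^ 2 * (2 * (4 * α ^ 2 * β ^ 2)) =
      2 * x * (x + d) * c ^ 3 * (1 / (4 * α) + 1 / (4 * β)) ^ 2 * (2 * (4 * α ^ 2 * β ^ 2)) := by
    have hr : (1 / (4 * α) + 1 / (4 * β)) ^ 2 * (2 * (4 * α ^ 2 * β ^ 2)) = (α + β) ^ 2 / 2 := by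
      field_simp
      ring
    calc N * (x - d) ^ 2 * (2 * (4 * α ^ 2 * β ^ 2))
        = N * (2 * (x - d) ^ 2) * (4 * α ^ 2 * β ^ 2) := by ring
      _ = N * ((SJ + Sσ) * (x * (x + d))) * (4 * α ^ 2 * β ^ 2) := by rw [hT]
      _ = (N * (SJ + Sσ) * (4 * α ^ 2 * β ^ 2)) * (x * (x + d)) := by ring
      _ = c ^ 3 * (α + β) ^ 2 * (x * (x + d)) := by rw [hsum']
      _ = 2 * x * (x + d) * c ^ 3 * ((α + β) ^ 2 / 2) := by ring
      _ = _ := by rw [← hr]; ring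
  have hne : (2 * (4 * α ^ 2 * β ^ 2) : ℂ) ≠ 0 := by simp [hα, hβ]
  exact mul_right_cancel₀ hne hgoal


/-- derivation of the count of pairs of conjugates from QCONV + QJ0 -/
theorem card_pairs_J
    (HQJ : Nat.card {q : G × G // IsConj (σ ^ (2 ^ (n - 2))) q.1 ∧ IsConj (σ ^ (2 ^ (n - 2))) q.2 ∧
        ∃ ρ ∈ X, q.1 * q.2 = σ ^ (2 ^ (n - 2)) * ρ} *
      (4 * Nat.card ↥(X ⊓ Subgroup.centralizer ({τ} : Set G)) ^ 2 *
        Nat.card ↥(X ⊓ Subgroup.centralizer ({σ * τ} : Set G)) ^ 2) =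
    Nat.card (Subgroup.centralizer ({σ ^ (2 ^ (n - 2))} : Set G)) * Nat.card X *
      (Nat.card ↥(X ⊓ Subgroup.centralizer ({τ} : Set G)) ^ 2 +
        Nat.card ↥(X ⊓ Subgroup.centralizer ({σ * τ} : Set G)) ^ 2)) :
    Nat.card {q : G × G // ∃ ρ ∈ X, q.1 * σ ^ (2 ^ (n - 2)) * q.1⁻¹ *
        (q.2 * σ ^ (2 ^ (n - 2)) * q.2⁻¹) = σ ^ (2 ^ (n - 2)) * ρ} *
      (4 * Nat.card ↥(X ⊓ Subgroup.centralizer ({τ} : Set G)) ^ 2 *
        Nat.card ↥(X ⊓ Subgroup.centralizer ({σ * τ} : Set G)) ^ 2) =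
    Nat.card (Subgroup.centralizer ({σ ^ (2 ^ (n - 2))} : Set G)) ^ 3 * Nat.card X *
      (Nat.card ↥(X ⊓ Subgroup.centralizer ({τ} : Set G)) ^ 2 +
        Nat.card ↥(X ⊓ Subgroup.centralizer ({σ * τ} : Set G)) ^ 2) := by
  have h1 := Cfsg.Agent.H75.Dih.card_conj_pairs (σ ^ (2 ^ (n - 2)))
    (fun u v => ∃ ρ ∈ X, u * v = σ ^ (2 ^ (n - 2)) * ρ)
  rw [h1, mul_assoc, HQJ]
  ring

/-- derivation of the count of pairs of conjugates from QCONV + QS0 -/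
theorem card_pairs_σ
    (HQS : Nat.card {q : G × G // IsConj (σ ^ (2 ^ (n - 2))) q.1 ∧ IsConj (σ ^ (2 ^ (n - 2))) q.2 ∧
        ∃ ρ ∈ X, q.1 * q.2 = σ * ρ} *
      (2 * Nat.card ↥(X ⊓ Subgroup.centralizer ({τ} : Set G)) *
        Nat.card ↥(X ⊓ Subgroup.centralizer ({σ * τ} : Set G))) =
    Nat.card (Subgroup.centralizer ({σ ^ (2 ^ (n - 2))} : Set G)) * Nat.card X) :
    Nat.card {q : G × G // ∃ ρ ∈ X, q.1 * σ ^ (2 ^ (n - 2)) * q.1⁻¹ *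
        (q.2 * σ ^ (2 ^ (n - 2)) * q.2⁻¹) = σ * ρ} *
      (2 * Nat.card ↥(X ⊓ Subgroup.centralizer ({τ} : Set G)) *
        Nat.card ↥(X ⊓ Subgroup.centralizer ({σ * τ} : Set G))) =
    Nat.card (Subgroup.centralizer ({σ ^ (2 ^ (n - 2))} : Set G)) ^ 3 * Nat.card X := by
  have h1 := Cfsg.Agent.H75.Dih.card_conj_pairs (σ ^ (2 ^ (n - 2))) (fun u v => ∃ ρ ∈ X, u * v = σ * ρ)
  rw [h1, mul_assoc, HQS]
  ring

theorem dih_order_formula_aux {G : Type u} [Group G] [Finite G] (M : Ideal Cfsg.AlgInt)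
    (hM : Cfsg.IsPModular 2 M) (n : ℕ) (hn : 3 ≤ n) (P : Sylow 2 G) (σ τ : G)
    (hσ : σ ∈ (P : Subgroup G)) (hτ : τ ∈ (P : Subgroup G)) (hσo : orderOf σ = 2 ^ (n - 1))
    (hτo : orderOf τ = 2) (hrel : τ * σ * τ⁻¹ = σ⁻¹)
    (hgen : Subgroup.closure ({σ, τ} : Set G) = (P : Subgroup G))
    (hconj : IsConj (σ ^ (2 ^ (n - 2))) τ ∧ IsConj (σ ^ (2 ^ (n - 2))) (σ * τ))
    (χ₁ : Cfsg.IrrCharacter G) (hχ₁ : χ₁ ∈ Cfsg.principalBlock M G)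
    (h1 : (χ₁ : G → ℂ) ≠ (fun _ => 1)) (δ₁ : ℤ) (hδ₁ : δ₁ = 1 ∨ δ₁ = -1)
    (hval : ∀ l : ℕ, 0 < l → l < 2 ^ (n - 1) → (χ₁ : G → ℂ) (σ ^ l) = δ₁)
    (HQJ : ∀ X : Subgroup G, Core n P σ X →
      Nat.card {q : G × G // IsConj (σ ^ (2 ^ (n - 2))) q.1 ∧ IsConj (σ ^ (2 ^ (n - 2))) q.2 ∧
          ∃ ρ ∈ X, q.1 * q.2 = σ ^ (2 ^ (n - 2)) * ρ} *
        (4 * Nat.card ↥(X ⊓ Subgroup.centralizer ({τ} : Set G)) ^ 2 *
          Nat.card ↥(X ⊓ Subgroup.centralizer ({σ * τ} : Set G)) ^ 2) =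
      Nat.card (Subgroup.centralizer ({σ ^ (2 ^ (n - 2))} : Set G)) * Nat.card X *
        (Nat.card ↥(X ⊓ Subgroup.centralizer ({τ} : Set G)) ^ 2 +
          Nat.card ↥(X ⊓ Subgroup.centralizer ({σ * τ} : Set G)) ^ 2))
    (HQS : ∀ X : Subgroup G, Core n P σ X →
      Nat.card {q : G × G // IsConj (σ ^ (2 ^ (n - 2))) q.1 ∧ IsConj (σ ^ (2 ^ (n - 2))) q.2 ∧
          ∃ ρ ∈ X, q.1 * q.2 = σ * ρ} *
        (2 * Nat.card ↥(X ⊓ Subgroup.centralizer ({τ} : Set G)) *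
          Nat.card ↥(X ⊓ Subgroup.centralizer ({σ * τ} : Set G))) =
      Nat.card (Subgroup.centralizer ({σ ^ (2 ^ (n - 2))} : Set G)) * Nat.card X) :
    (Cfsg.charDegree (χ₁ : G → ℂ) : ℤ) ≠ δ₁ ∧
      (Nat.card G : ℚ) * ((Cfsg.charDegree (χ₁ : G → ℂ) : ℚ) - δ₁) ^ 2 =
        2 * (Cfsg.charDegree (χ₁ : G → ℂ) : ℚ) * ((Cfsg.charDegree (χ₁ : G → ℂ) : ℚ) + δ₁) *
          (Nat.card (Subgroup.centralizer ({σ ^ (2 ^ (n - 2))} : Set G)) : ℚ) ^ 3 *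
          (1 / (Nat.card (Subgroup.centralizer ({σ ^ (2 ^ (n - 2)), τ} : Set G)) : ℚ) +
            1 / (Nat.card (Subgroup.centralizer ({σ ^ (2 ^ (n - 2)), σ * τ} : Set G)) : ℚ)) ^ 2 := by
  classical
  have h : Hyp n P σ τ := ⟨hn, hσ, hτ, hσo, hτo, hrel, hgen⟩
  obtain ⟨X, hle, hnorm, hodd, hcard⟩ := Cfsg.Agent.H60.Dih.exists_core₁ h
  have hX : Core n P σ X := Cfsg.Agent.H24.Dih.core_of h X hle hnorm hodd hcard
  obtain ⟨hne, hT⟩ := main_T h hX hM χ₁ hχ₁ h1 δ₁ hδ₁ hval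
  have hJ := sum_J h hX hM
  have hS := sum_σ h hX hM
  have hQJ := card_pairs_J (HQJ X hX)
  have hQS := card_pairs_σ (HQS X hX)
  have ha := Cfsg.Agent.H75.Dih.card_cent_τ h hX
  have hb := Cfsg.Agent.H75.Dih.card_cent_στ h hX
  have hxpos : 0 < charDegree (χ₁ : G → ℂ) := Cfsg.Agent.H4.irr_charDegree_pos χ₁
  have hXpos : 0 < Nat.card X := Nat.card_pos
  have hαpos : 0 < Nat.card ↥(X ⊓ Subgroup.centralizer ({τ} : Set G)) := Nat.card_pos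
  have hβpos : 0 < Nat.card ↥(X ⊓ Subgroup.centralizer ({σ * τ} : Set G)) := Nat.card_pos
  have hcpos : 0 < Nat.card (Subgroup.centralizer ({σ ^ (2 ^ (n - 2))} : Set G)) := Nat.card_pos
  have hGpos : 0 < Nat.card G := Nat.card_pos
  -- the sum splits
  have hsplit : (∑ᶠ χ ∈ principalBlock M G, (χ : G → ℂ) (σ ^ (2 ^ (n - 2))) ^ 2 *
        (χ : G → ℂ) (σ ^ (2 ^ (n - 2))) / (χ : G → ℂ) 1) +
      (∑ᶠ χ ∈ principalBlock M G, (χ : G → ℂ) (σ ^ (2 ^ (n - 2))) ^ 2 *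
        (χ : G → ℂ) σ / (χ : G → ℂ) 1) =
      ∑ᶠ χ ∈ principalBlock M G, (χ : G → ℂ) (σ ^ (2 ^ (n - 2))) ^ 2 *
          ((χ : G → ℂ) (σ ^ (2 ^ (n - 2))) + (χ : G → ℂ) σ) / (χ : G → ℂ) 1 := by
    haveI := Cfsg.Agent.H4.finite_irr G
    rw [← finsum_mem_add_distrib (Set.toFinite _)]
    apply finsum_mem_congr rfl
    intro χ _
    ring
  have key := final_algebra (Nat.card G : ℂ) (Nat.card X : ℂ)
    (Nat.card (Subgroup.centralizer ({σ ^ (2 ^ (n - 2))} : Set G)) : ℂ)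
    (Nat.card ↥(X ⊓ Subgroup.centralizer ({τ} : Set G)) : ℂ)
    (Nat.card ↥(X ⊓ Subgroup.centralizer ({σ * τ} : Set G)) : ℂ)
    (charDegree (χ₁ : G → ℂ) : ℂ) (δ₁ : ℂ) _ _ _ _
    (by exact_mod_cast hGpos.ne') (by exact_mod_cast hXpos.ne') (by exact_mod_cast hαpos.ne')
    (by exact_mod_cast hβpos.ne') (by exact_mod_cast hxpos.ne')
    (by rcases hδ₁ with rfl | rfl <;> simp) hJ hS (by exact_mod_cast hQJ) (by exact_mod_cast hQS)
    (by rw [hsplit, hT]) (by exact_mod_cast hne)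
  constructor
  · intro heq
    -- then the left side of `key` vanishes
    have h0 : ((charDegree (χ₁ : G → ℂ) : ℂ) - (δ₁ : ℂ)) = 0 := by
      rw [← heq]; push_cast; ring
    rw [h0] at key
    have hδx : (charDegree (χ₁ : G → ℂ) : ℂ) + (δ₁ : ℂ) ≠ 0 := by
      rw [← heq]; push_cast
      have : (0 : ℝ) < (charDegree (χ₁ : G → ℂ) : ℝ) + (charDegree (χ₁ : G → ℂ) : ℝ) := by
        have : (0 : ℝ) < (charDegree (χ₁ : G → ℂ) : ℝ) := by exact_mod_cast hxpos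
        linarith
      intro h0
      have h1 : ((charDegree (χ₁ : G → ℂ) : ℝ) + (charDegree (χ₁ : G → ℂ) : ℝ) : ℂ) = 0 := by
        push_cast; exact h0
      have h2 : ((charDegree (χ₁ : G → ℂ) : ℝ) + (charDegree (χ₁ : G → ℂ) : ℝ)) = 0 := by
        exact_mod_cast h1
      linarith
    have hzero : (2 * (charDegree (χ₁ : G → ℂ) : ℂ) *
        (Nat.card (Subgroup.centralizer ({σ ^ (2 ^ (n - 2))} : Set G)) : ℂ) ^ 3 *
        (1 / (4 * (Nat.card ↥(X ⊓ Subgroup.centralizer ({τ} : Set G)) : ℂ)) +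
          1 / (4 * (Nat.card ↥(X ⊓ Subgroup.centralizer ({σ * τ} : Set G)) : ℂ))) ^ 2) = 0 := by
      have hk : (0 : ℂ) = ((charDegree (χ₁ : G → ℂ) : ℂ) + (δ₁ : ℂ)) *
          (2 * (charDegree (χ₁ : G → ℂ) : ℂ) *
          (Nat.card (Subgroup.centralizer ({σ ^ (2 ^ (n - 2))} : Set G)) : ℂ) ^ 3 *
          (1 / (4 * (Nat.card ↥(X ⊓ Subgroup.centralizer ({τ} : Set G)) : ℂ)) +
            1 / (4 * (Nat.card ↥(X ⊓ Subgroup.centralizer ({σ * τ} : Set G)) : ℂ))) ^ 2) := by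
        have : (Nat.card G : ℂ) * (0 : ℂ) ^ 2 = 0 := by ring
        rw [this] at key
        rw [key]; ring
      rcases mul_eq_zero.mp hk.symm with h0' | h0'
      · exact absurd h0' hδx
      · exact h0'
    have hxc : (charDegree (χ₁ : G → ℂ) : ℂ) ≠ 0 := by exact_mod_cast hxpos.ne'
    have hcc : (Nat.card (Subgroup.centralizer ({σ ^ (2 ^ (n - 2))} : Set G)) : ℂ) ≠ 0 := by
      exact_mod_cast hcpos.ne'
    have hαc : (Nat.card ↥(X ⊓ Subgroup.centralizer ({τ} : Set G)) : ℂ) ≠ 0 := by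
      exact_mod_cast hαpos.ne'
    have hβc : (Nat.card ↥(X ⊓ Subgroup.centralizer ({σ * τ} : Set G)) : ℂ) ≠ 0 := by
      exact_mod_cast hβpos.ne'
    have hsum0 : (1 / (4 * (Nat.card ↥(X ⊓ Subgroup.centralizer ({τ} : Set G)) : ℂ)) +
          1 / (4 * (Nat.card ↥(X ⊓ Subgroup.centralizer ({σ * τ} : Set G)) : ℂ))) ≠ 0 := by
      intro h0
      have h2 : (Nat.card ↥(X ⊓ Subgroup.centralizer ({σ * τ} : Set G)) : ℂ) +
          (Nat.card ↥(X ⊓ Subgroup.centralizer ({τ} : Set G)) : ℂ) = 0 := by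
        field_simp at h0
        linear_combination h0
      have h3 : ((Nat.card ↥(X ⊓ Subgroup.centralizer ({σ * τ} : Set G)) +
          Nat.card ↥(X ⊓ Subgroup.centralizer ({τ} : Set G)) : ℕ) : ℂ) = 0 := by
        push_cast; exact h2
      have h4 : Nat.card ↥(X ⊓ Subgroup.centralizer ({σ * τ} : Set G)) +
          Nat.card ↥(X ⊓ Subgroup.centralizer ({τ} : Set G)) = 0 := by exact_mod_cast h3
      omega
    exact (mul_ne_zero (mul_ne_zero (mul_ne_zero two_ne_zero hxc) (pow_ne_zero 3 hcc))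
      (pow_ne_zero 2 hsum0)) hzero
  · apply Rat.cast_injective (α := ℂ)
    push_cast
    rw [ha, hb]
    push_cast
    exact key

end Cfsg.Agent.H84.DihGlue
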