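import Mathlib
import Cfsg.Agent.H1.BTDefs
import Cfsg.Agent.H21.BRSplit
import Cfsg.Agent.H4.Irr
import Cfsg.Agent.H4.Chars
import Cfsg.Agent.H81.Reg

/-!
# S0997 type B, piece DEG1 (helper84)

`t = 2`: the degrees of the non-exceptional characters.  The relation at `1` gives
`Σ_{X⁻} χ(1) = Σ_{X⁺} χ(1) + e + 2`; the character `θ₁ θ₂` of degree `(e + 1) ^ 2` does not
contain the trivial character (`θ₂` is real) and contains every `χ ∈ X⁻` (identity `Star`), and a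
remainder of degree `1` would be the trivial character.  The arithmetic piece DEGA concludes.
-/

set_option autoImplicit false

namespace Cfsg.Agent.H84.BT

open Cfsg Cfsg.Agent.H21.BR Cfsg.Agent.H1.BT Cfsg.Agent.H4
open scoped ComplexConjugate

universe u

/-- The data extracted from the characters for the arithmetic piece DEGA. -/
theorem deg1_data {G : Type u} [Group G] [Finite G] (p e b : ℕ) (P : Sylow p G)
    (X Y : Finset (IrrCharacter G)) (δ : IrrCharacter G → ℤ) (τ x : G) (θ₁ θ₂ : IrrCharacter G)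
    (hT : T2 p e b P X Y δ τ x θ₁ θ₂) (hStar : Star X δ θ₁ θ₂)
    (hreal : ∀ g : G, conj ((θ₂ : G → ℂ) g) = (θ₂ : G → ℂ) g) :
    (∀ χ ∈ plusSet X δ, Even (charDegree (χ : G → ℂ)) ∧ 2 ≤ charDegree (χ : G → ℂ) ∧
      (charDegree (χ : G → ℂ) : ℤ) ≡ 1 [ZMOD p]) ∧
    (∀ χ ∈ minusSet X δ, Even (charDegree (χ : G → ℂ)) ∧ 2 ≤ charDegree (χ : G → ℂ) ∧
      (charDegree (χ : G → ℂ) : ℤ) ≡ -1 [ZMOD p]) ∧
    ∑ χ ∈ minusSet X δ, charDegree (χ : G → ℂ) =
      ∑ χ ∈ plusSet X δ, charDegree (χ : G → ℂ) + e + 2 ∧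
    ∑ χ ∈ minusSet X δ, charDegree (χ : G → ℂ) ≤ (e + 1) ^ 2 ∧
    ∑ χ ∈ minusSet X δ, charDegree (χ : G → ℂ) + 1 ≠ (e + 1) ^ 2 := by
  classical
  haveI : Fintype G := Fintype.ofFinite G
  letI := fintypeIrr G
  have ctx := hT.ctx
  have hB := ctx.hB0
  have hp := ctx.hp
  have hpe : 2 * e + 1 = p := hT.ht
  have he4 : 4 ≤ e := hT.he4
  have hθ₁Y : θ₁ ∈ Y := (hT.hY θ₁).mpr (Or.inl rfl)
  have hθ₂Y : θ₂ ∈ Y := (hT.hY θ₂).mpr (Or.inr rfl)
  -- degrees
  obtain ⟨D, hD⟩ : ∃ D : IrrCharacter G → ℕ, ∀ ψ, D ψ = charDegree (ψ : G → ℂ) :=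
    ⟨fun ψ => charDegree (ψ : G → ℂ), fun _ => rfl⟩
  simp only [← hD]
  have hD1 : ∀ ψ : IrrCharacter G, (ψ : G → ℂ) 1 = (D ψ : ℂ) := fun ψ => by
    rw [hD]; exact (Cfsg.Agent.H81.irr_charDegree ψ).1
  have hDY : ∀ θ ∈ Y, D θ = e + 1 := by
    intro θ hθ
    rw [hD, ctx.degY θ hθ]
    omega
  have hone_not_minus : one G ∉ minusSet X δ := by
    rw [mem_minusSet]
    rintro ⟨-, h⟩
    rw [hB.δ_one] at h
    norm_num at h
  have hDminus : ∀ χ ∈ minusSet X δ, Even (D χ) ∧ 2 ≤ D χ ∧ (D χ : ℤ) ≡ -1 [ZMOD p] := by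
    intro χ hχ
    obtain ⟨hχX, hδ⟩ := mem_minusSet.mp hχ
    have hne : χ ≠ one G := fun h => hone_not_minus (h ▸ hχ)
    refine ⟨?_, ?_, ?_⟩
    · rw [hD]; exact ctx.evenX χ hχX hne
    · rw [hD]; exact hB.two_le_X χ hχX hne
    · have h1 := hB.deg_X χ hχX
      rw [hδ] at h1
      rw [hD]
      exact h1
  have hDplus : ∀ χ ∈ plusSet X δ, Even (D χ) ∧ 2 ≤ D χ ∧ (D χ : ℤ) ≡ 1 [ZMOD p] := by
    intro χ hχ
    obtain ⟨hχX, hne, hδ⟩ := mem_plusSet.mp hχ
    refine ⟨?_, ?_, ?_⟩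
    · rw [hD]; exact ctx.evenX χ hχX hne
    · rw [hD]; exact hB.two_le_X χ hχX hne
    · have h1 := hB.deg_X χ hχX
      rw [hδ] at h1
      rw [hD]
      exact h1
  -- (a) the relation at `1`
  have ha : ∑ χ ∈ minusSet X δ, D χ = ∑ χ ∈ plusSet X δ, D χ + e + 2 := by
    have hrel := hB.rel θ₁ hθ₁Y 1 (by rw [orderOf_one, Nat.dvd_one]; exact hp.ne_one)
    have hsplit := sum_X_split hB (fun χ => (δ χ : ℂ) * (χ : G → ℂ) 1)
    rw [hsplit, hB.δ_one, hD1 θ₁, hDY θ₁ hθ₁Y] at hrel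
    have h1 : ∑ χ ∈ plusSet X δ, (δ χ : ℂ) * (χ : G → ℂ) 1 = ∑ χ ∈ plusSet X δ, (D χ : ℂ) := by
      refine Finset.sum_congr rfl fun χ hχ => ?_
      rw [(mem_plusSet.mp hχ).2.2, hD1]
      push_cast
      ring
    have h2 : ∑ χ ∈ minusSet X δ, (δ χ : ℂ) * (χ : G → ℂ) 1 =
        -∑ χ ∈ minusSet X δ, (D χ : ℂ) := by
      rw [← Finset.sum_neg_distrib]
      refine Finset.sum_congr rfl fun χ hχ => ?_
      rw [(mem_minusSet.mp hχ).2, hD1]
      push_cast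
      ring
    rw [h1, h2] at hrel
    have h3 : (one G : G → ℂ) 1 = 1 := rfl
    rw [h3] at hrel
    have h4 : ((∑ χ ∈ minusSet X δ, D χ : ℕ) : ℂ) = ((∑ χ ∈ plusSet X δ, D χ + e + 2 : ℕ) : ℂ) := by
      push_cast
      push_cast at hrel
      linear_combination hrel
    exact_mod_cast h4
  -- (b) the character `θ₁ θ₂`
  obtain ⟨Ξ, hΞ⟩ : ∃ Ξ : G → ℂ, Ξ = (θ₁ : G → ℂ) * (θ₂ : G → ℂ) := ⟨_, rfl⟩
  have hΞch : IsCharacter G Ξ := by
    rw [hΞ]
    exact isCharacter_mul (isCharacter_of_isIrrCharacter θ₁.2) (isCharacter_of_isIrrCharacter θ₂.2)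
  have hΘch : IsCharacter G ((θ₁ : G → ℂ) * (θ₁ : G → ℂ)) :=
    isCharacter_mul (isCharacter_of_isIrrCharacter θ₁.2) (isCharacter_of_isIrrCharacter θ₁.2)
  choose m hm using fun ψ : IrrCharacter G =>
    classInner_isCharacter_nat hΞch (isCharacter_of_isIrrCharacter ψ.2)
  have hdecomp := classFunction_eq_finsum (isClassFunction_of_isCharacter hΞch)
  have hsum1 : ∑ ψ : IrrCharacter G, m ψ * D ψ = (e + 1) ^ 2 := by
    have h1 := congrFun hdecomp 1
    rw [finsum_irr_eq_sum, Finset.sum_apply] at h1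
    have h2 : Ξ 1 = ((e : ℂ) + 1) ^ 2 := by
      rw [hΞ, Pi.mul_apply, hD1, hD1, hDY θ₁ hθ₁Y, hDY θ₂ hθ₂Y]
      push_cast
      ring
    rw [h2] at h1
    have h3 : ((∑ ψ : IrrCharacter G, m ψ * D ψ : ℕ) : ℂ) = (((e + 1) ^ 2 : ℕ) : ℂ) := by
      push_cast
      rw [h1]
      refine Finset.sum_congr rfl fun ψ _ => ?_
      rw [Pi.smul_apply, smul_eq_mul, hm, hD1]
    exact_mod_cast h3
  have hm_one : m (one G) = 0 := by
    have h1 : classInner Ξ (one G : IrrCharacter G).1 =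
        classInner (θ₁ : G → ℂ) (θ₂ : G → ℂ) := by
      unfold classInner
      congr 1
      refine Finset.sum_congr rfl fun g _ => ?_
      have h3 : (one G : G → ℂ) g = 1 := rfl
      rw [hΞ, Pi.mul_apply, hreal g, h3, map_one, mul_one]
    rw [hm, irr_inner_ne hT.hne] at h1
    exact_mod_cast h1
  have hm_minus : ∀ χ ∈ minusSet X δ, 1 ≤ m χ := by
    intro χ hχ
    obtain ⟨hχX, hδ⟩ := mem_minusSet.mp hχ
    obtain ⟨n, hn⟩ := classInner_isCharacter_nat hΘch (isCharacter_of_isIrrCharacter χ.2)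
    have hΞeq : Ξ = (θ₁ : G → ℂ) * (θ₁ : G → ℂ) - (θ₁ : G → ℂ)
        - ∑ χ' ∈ X, (δ χ' : ℂ) • (χ' : G → ℂ) := by
      funext g
      rw [hΞ]
      simp only [Pi.sub_apply, Pi.mul_apply, Finset.sum_apply, Pi.smul_apply, smul_eq_mul]
      have h1 := hStar g
      linear_combination -h1
    have h1 : classInner Ξ χ.1 = (n : ℂ) + 1 := by
      have hne : θ₁ ≠ χ := by
        intro h
        rw [h] at hθ₁Y
        exact Finset.disjoint_left.mp hB.disj hχX hθ₁Y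
      rw [hΞeq, classInner_sub_left, classInner_sub_left, classInner_sum_left, hn,
        irr_inner_ne hne, Finset.sum_eq_single χ]
      · rw [classInner_smul_left, irr_inner_self, hδ]
        push_cast
        ring
      · intro χ' _ hne'
        rw [classInner_smul_left, irr_inner_ne hne', mul_zero]
      · intro h
        exact absurd hχX h
    rw [hm] at h1
    have h2 : m χ = n + 1 := by exact_mod_cast h1
    omega
  -- the remainder
  obtain ⟨t, ht⟩ : ∃ t : IrrCharacter G → ℕ,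
      ∀ ψ, t ψ = (if ψ ∈ minusSet X δ then m ψ - 1 else m ψ) * D ψ := ⟨_, fun _ => rfl⟩
  have hsplit : ∑ ψ : IrrCharacter G, m ψ * D ψ =
      ∑ ψ : IrrCharacter G, t ψ + ∑ χ ∈ minusSet X δ, D χ := by
    have h1 : ∑ χ ∈ minusSet X δ, D χ =
        ∑ ψ : IrrCharacter G, if ψ ∈ minusSet X δ then D ψ else 0 := by
      rw [Finset.sum_ite_mem, Finset.univ_inter]
    rw [h1, ← Finset.sum_add_distrib]
    refine Finset.sum_congr rfl fun ψ _ => ?_
    rw [ht]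
    by_cases hψ : ψ ∈ minusSet X δ
    · rw [if_pos hψ, if_pos hψ]
      obtain ⟨k, hk⟩ := Nat.exists_eq_add_of_le (hm_minus ψ hψ)
      rw [hk, Nat.add_sub_cancel_left]
      ring
    · rw [if_neg hψ, if_neg hψ, add_zero]
  have ht1 : ∀ ψ : IrrCharacter G, t ψ ≠ 1 := by
    intro ψ h1
    rw [ht] at h1
    have hDψ : D ψ = 1 := Nat.eq_one_of_mul_eq_one_left h1
    have hc : (if ψ ∈ minusSet X δ then m ψ - 1 else m ψ) = 1 := Nat.eq_one_of_mul_eq_one_right h1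
    have hψ : ψ = one G := by
      by_contra hne
      by_cases hX : ψ ∈ X
      · have h2 := hB.two_le_X ψ hX hne
        rw [← hD] at h2
        omega
      · by_cases hY : ψ ∈ Y
        · have h2 := hDY ψ hY
          omega
        · have h2 := hB.out_dvd ψ hX hY
          rw [← hD, hDψ, Nat.dvd_one] at h2
          exact hp.ne_one h2
    rw [hψ, if_neg hone_not_minus, hm_one] at hc
    exact zero_ne_one hc
  have hle : ∑ χ ∈ minusSet X δ, D χ ≤ (e + 1) ^ 2 := by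
    rw [← hsum1, hsplit]
    exact Nat.le_add_left _ _
  have hne : ∑ χ ∈ minusSet X δ, D χ + 1 ≠ (e + 1) ^ 2 := by
    intro h
    have h1 : ∑ ψ : IrrCharacter G, t ψ = 1 := by
      have h2 := hsum1
      rw [hsplit] at h2
      omega
    obtain ⟨ψ, -, hψ⟩ := Finset.exists_ne_zero_of_sum_ne_zero (by rw [h1]; exact one_ne_zero)
    have h2 : t ψ ≤ 1 := by
      rw [← h1]
      exact Finset.single_le_sum (fun _ _ => Nat.zero_le _) (Finset.mem_univ ψ)
    exact ht1 ψ (by omega)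
  exact ⟨hDplus, hDminus, ha, hle, hne⟩

/-- DEG1. -/
theorem deg1 (hA : StDegA.{u}) : StDeg1.{u} := by
  intro G _ _ p e b P X Y δ τ x θ₁ θ₂ hT hStar hreal
  obtain ⟨h1, h2, h3, h4, h5⟩ := deg1_data p e b P X Y δ τ x θ₁ θ₂ hT hStar hreal
  have hcard := card_X_split hT.ctx.hB0
  exact hA (plusSet X δ) (minusSet X δ) (fun χ => charDegree (χ : G → ℂ)) p e hT.ht hT.he4
    hT.ctx.hev (by omega) h1 h2 h3 h4 h5

example (hA : StDegA.{u}) : StDeg1.{u} := deg1 hA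

end Cfsg.Agent.H84.BT
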