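import Mathlib
import Cfsg.Agent.H1.BTDefs
import Cfsg.Agent.H21.BRSplit
import Cfsg.Agent.H4.Irr
import Cfsg.Agent.H4.Chars
import Cfsg.Agent.H81.Reg

/-!
# S0997 type B, piece DEGR (helper84)

`t = 2`: with the degrees of `X⁺`, `X⁻` known, the character `θ₁ θ₂` of degree `(e + 1) ^ 2`
contains every `χ ∈ X⁻` exactly once, and the remainder of degree `p` is a single irreducible
character `R` of degree `p` outside the principal block.
-/

set_option autoImplicit false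

namespace Cfsg.Agent.H84.BT

open Cfsg Cfsg.Agent.H21.BR Cfsg.Agent.H1.BT Cfsg.Agent.H4
open scoped ComplexConjugate

universe u

/-- The decomposition of `θ₁ θ₂`: multiplicities, no trivial constituent, every `χ ∈ X⁻`
occurs. -/
theorem prod_core {G : Type u} [Group G] [Finite G] (p e b : ℕ) (P : Sylow p G)
    (X Y : Finset (IrrCharacter G)) (δ : IrrCharacter G → ℤ) (τ x : G) (θ₁ θ₂ : IrrCharacter G)
    (hT : T2 p e b P X Y δ τ x θ₁ θ₂) (hStar : Star X δ θ₁ θ₂)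
    (hreal : ∀ g : G, conj ((θ₂ : G → ℂ) g) = (θ₂ : G → ℂ) g) :
    ∃ m : IrrCharacter G → ℕ,
      ((θ₁ : G → ℂ) * (θ₂ : G → ℂ) = ∑ᶠ ψ : IrrCharacter G, (m ψ : ℂ) • (ψ : G → ℂ)) ∧
      m (one G) = 0 ∧ ∀ χ ∈ minusSet X δ, 1 ≤ m χ := by
  classical
  haveI : Fintype G := Fintype.ofFinite G
  have ctx := hT.ctx
  have hB := ctx.hB0
  have hθ₁Y : θ₁ ∈ Y := (hT.hY θ₁).mpr (Or.inl rfl)
  obtain ⟨Ξ, hΞ⟩ : ∃ Ξ : G → ℂ, Ξ = (θ₁ : G → ℂ) * (θ₂ : G → ℂ) := ⟨_, rfl⟩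
  have hΞch : IsCharacter G Ξ := by
    rw [hΞ]
    exact isCharacter_mul (isCharacter_of_isIrrCharacter θ₁.2) (isCharacter_of_isIrrCharacter θ₂.2)
  have hΘch : IsCharacter G ((θ₁ : G → ℂ) * (θ₁ : G → ℂ)) :=
    isCharacter_mul (isCharacter_of_isIrrCharacter θ₁.2) (isCharacter_of_isIrrCharacter θ₁.2)
  choose m hm using fun ψ : IrrCharacter G =>
    classInner_isCharacter_nat hΞch (isCharacter_of_isIrrCharacter ψ.2)
  have hdecomp := classFunction_eq_finsum (isClassFunction_of_isCharacter hΞch)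
  simp only [hm] at hdecomp
  refine ⟨m, ?_, ?_, ?_⟩
  · rw [← hΞ]
    exact hdecomp
  · have h1 : classInner Ξ (one G : IrrCharacter G).1 =
        classInner (θ₁ : G → ℂ) (θ₂ : G → ℂ) := by
      unfold classInner
      congr 1
      refine Finset.sum_congr rfl fun g _ => ?_
      have h3 : (one G : G → ℂ) g = 1 := rfl
      rw [hΞ, Pi.mul_apply, hreal g, h3, map_one, mul_one]
    rw [hm, irr_inner_ne hT.hne] at h1
    exact_mod_cast h1
  · intro χ hχ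
    obtain ⟨hχX, hδ⟩ := mem_minusSet.mp hχ
    obtain ⟨n, hn⟩ := classInner_isCharacter_nat hΘch (isCharacter_of_isIrrCharacter χ.2)
    have hΞeq : Ξ = (θ₁ : G → ℂ) * (θ₁ : G → ℂ) - (θ₁ : G → ℂ)
        - ∑ χ' ∈ X, (δ χ' : ℂ) • (χ' : G → ℂ) := by
      funext g
      rw [hΞ]
      simp only [Pi.sub_apply, Pi.mul_apply, Finset.sum_apply, Pi.smul_apply, smul_eq_mul]
      have h1 := hStar g
      linear_combination -h1
    have h1 : classInner Ξ χ.1 = (n : ℂ) + 1 := by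
      have hne : θ₁ ≠ χ := by
        intro h
        rw [h] at hθ₁Y
        exact Finset.disjoint_left.mp hB.disj hχX hθ₁Y
      rw [hΞeq, classInner_sub_left, classInner_sub_left, classInner_sum_left, hn,
        irr_inner_ne hne, Finset.sum_eq_single χ]
      · rw [classInner_smul_left, irr_inner_self, hδ]
        push_cast
        ring
      · intro χ' _ hne'
        rw [classInner_smul_left, irr_inner_ne hne', mul_zero]
      · intro h
        exact absurd hχX h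
    rw [hm] at h1
    have h2 : m χ = n + 1 := by exact_mod_cast h1
    omega

/-- The arithmetic of the remainder. -/
theorem degR_arith (p e A B C K : ℕ) (hp : 2 * e + 1 = p) (he : 4 ≤ e)
    (h : A * (p + 1) + B * (p - 1) + C * (e + 1) + p * K = p) :
    A = 0 ∧ B = 0 ∧ C = 0 ∧ K = 1 := by
  subst hp
  have hK : K ≤ 1 := by
    by_contra hK
    have := Nat.mul_le_mul_left (2 * e + 1) (by omega : 2 ≤ K)
    omega
  have hA : A = 0 := by
    by_contra hA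
    have := Nat.mul_le_mul_right (2 * e + 1 + 1) (by omega : 1 ≤ A)
    omega
  subst hA
  have hB : B ≤ 1 := by
    by_contra hB
    have := Nat.mul_le_mul_right (2 * e + 1 - 1) (by omega : 2 ≤ B)
    omega
  have hC : C ≤ 2 := by
    by_contra hC
    have := Nat.mul_le_mul_right (e + 1) (by omega : 3 ≤ C)
    omega
  interval_cases K <;> interval_cases B <;> interval_cases C <;> omega

/-- DEGR. -/
theorem degR : StDegR.{u} := by
  intro G _ _ p e b P X Y δ τ x θ₁ θ₂ hT hStar hreal hDegs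
  classical
  haveI : Fintype G := Fintype.ofFinite G
  have ctx := hT.ctx
  have hB := ctx.hB0
  have hp := ctx.hp
  have hpe : 2 * e + 1 = p := hT.ht
  have he4 : 4 ≤ e := hT.he4
  have hθ₁Y : θ₁ ∈ Y := (hT.hY θ₁).mpr (Or.inl rfl)
  have hθ₂Y : θ₂ ∈ Y := (hT.hY θ₂).mpr (Or.inr rfl)
  obtain ⟨hdm, hdp, hcm, hcp⟩ := hDegs
  obtain ⟨m, hdecomp, hm_one, hm_minus⟩ := prod_core p e b P X Y δ τ x θ₁ θ₂ hT hStar hreal
  obtain ⟨Z, hZ⟩ := exists_out X Y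
  obtain ⟨D, hD⟩ : ∃ D : IrrCharacter G → ℕ, ∀ ψ, D ψ = charDegree (ψ : G → ℂ) :=
    ⟨fun ψ => charDegree (ψ : G → ℂ), fun _ => rfl⟩
  have hD1 : ∀ ψ : IrrCharacter G, (ψ : G → ℂ) 1 = (D ψ : ℂ) := fun ψ => by
    rw [hD]; exact (Cfsg.Agent.H81.irr_charDegree ψ).1
  have hDpos : ∀ ψ : IrrCharacter G, 0 < D ψ := fun ψ => by
    rw [hD]; exact (Cfsg.Agent.H81.irr_charDegree ψ).2
  have hDY : ∀ θ ∈ Y, D θ = e + 1 := by
    intro θ hθ
    rw [hD, ctx.degY θ hθ]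
    omega
  have hDZ : ∀ ψ ∈ Z, p ∣ D ψ := by
    intro ψ hψ
    rw [hD]
    exact hB.out_dvd ψ ((hZ ψ).mp hψ).1 ((hZ ψ).mp hψ).2
  have hYpair : Y = {θ₁, θ₂} := by
    ext θ
    rw [hT.hY, Finset.mem_insert, Finset.mem_singleton]
  -- the degree equation
  have hdeg : (e + 1) ^ 2 = m (one G) * D (one G) + ∑ χ ∈ plusSet X δ, m χ * D χ +
      ∑ χ ∈ minusSet X δ, m χ * D χ + ∑ θ ∈ Y, m θ * D θ + ∑ ψ ∈ Z, m ψ * D ψ := by
    have h1 := congrFun hdecomp 1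
    rw [sum_split hB Z hZ (fun ψ => (m ψ : ℂ) • (ψ : G → ℂ))] at h1
    simp only [Pi.add_apply, Finset.sum_apply, Pi.smul_apply, smul_eq_mul, Pi.mul_apply,
      hD1] at h1
    rw [hDY θ₁ hθ₁Y, hDY θ₂ hθ₂Y] at h1
    have h2 : (((e + 1) ^ 2 : ℕ) : ℂ) = ((m (one G) * D (one G) +
        ∑ χ ∈ plusSet X δ, m χ * D χ + ∑ χ ∈ minusSet X δ, m χ * D χ + ∑ θ ∈ Y, m θ * D θ +
        ∑ ψ ∈ Z, m ψ * D ψ : ℕ) : ℂ) := by
      push_cast
      push_cast at h1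
      linear_combination h1
    exact_mod_cast h2
  have hplus : ∑ χ ∈ plusSet X δ, m χ * D χ = (∑ χ ∈ plusSet X δ, m χ) * (p + 1) := by
    rw [Finset.sum_mul]
    exact Finset.sum_congr rfl fun χ hχ => by rw [hD, hdp χ hχ]
  have hminus : ∑ χ ∈ minusSet X δ, m χ * D χ =
      (∑ χ ∈ minusSet X δ, (m χ - 1)) * (p - 1) + e * e := by
    have h1 : ∑ χ ∈ minusSet X δ, m χ * D χ = (∑ χ ∈ minusSet X δ, m χ) * (p - 1) := by
      rw [Finset.sum_mul]
      exact Finset.sum_congr rfl fun χ hχ => by rw [hD, hdm χ hχ]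
    have h2 : ∑ χ ∈ minusSet X δ, m χ =
        ∑ χ ∈ minusSet X δ, (m χ - 1) + (minusSet X δ).card := by
      rw [Finset.card_eq_sum_ones, ← Finset.sum_add_distrib]
      exact Finset.sum_congr rfl fun χ hχ => by
        have := hm_minus χ hχ
        omega
    have h3 : (minusSet X δ).card * (p - 1) = e * e := by
      have hp1 : p - 1 = 2 * e := by omega
      rw [hp1, ← mul_assoc, mul_comm _ 2, hcm]
    rw [h1, h2, add_mul, h3]
  have hYsum : ∑ θ ∈ Y, m θ * D θ = (m θ₁ + m θ₂) * (e + 1) := by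
    rw [hYpair, Finset.sum_pair hT.hne, hDY θ₁ hθ₁Y, hDY θ₂ hθ₂Y]
    ring
  have hZsum : ∑ ψ ∈ Z, m ψ * D ψ = p * ∑ ψ ∈ Z, m ψ * (D ψ / p) := by
    rw [Finset.mul_sum]
    refine Finset.sum_congr rfl fun ψ hψ => ?_
    obtain ⟨d, hd⟩ := hDZ ψ hψ
    rw [hd, Nat.mul_div_cancel_left d hp.pos]
    ring
  obtain ⟨A, hA⟩ : ∃ A, A = ∑ χ ∈ plusSet X δ, m χ := ⟨_, rfl⟩
  obtain ⟨Bm, hBm⟩ : ∃ Bm, Bm = ∑ χ ∈ minusSet X δ, (m χ - 1) := ⟨_, rfl⟩
  obtain ⟨K, hK⟩ : ∃ K, K = ∑ ψ ∈ Z, m ψ * (D ψ / p) := ⟨_, rfl⟩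
  rw [hplus, hminus, hYsum, hZsum, hm_one, ← hA, ← hBm, ← hK] at hdeg
  have hsq : (e + 1) ^ 2 = e * e + 2 * e + 1 := by ring
  obtain ⟨hA0, hB0, hC0, hK1⟩ := degR_arith p e A Bm (m θ₁ + m θ₂) K hpe he4 (by omega)
  have hmplus : ∀ χ ∈ plusSet X δ, m χ = 0 := by
    rw [hA] at hA0
    exact fun χ hχ => (Finset.sum_eq_zero_iff.mp hA0) χ hχ
  have hmminus : ∀ χ ∈ minusSet X δ, m χ = 1 := by
    intro χ hχ
    rw [hBm] at hB0
    have h1 := (Finset.sum_eq_zero_iff.mp hB0) χ hχ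
    have h2 := hm_minus χ hχ
    omega
  have hmθ₁ : m θ₁ = 0 := by omega
  have hmθ₂ : m θ₂ = 0 := by omega
  -- the outside character
  rw [hK] at hK1
  obtain ⟨R, hRZ, hR⟩ := Finset.exists_ne_zero_of_sum_ne_zero (by rw [hK1]; exact one_ne_zero)
  have hRle : m R * (D R / p) ≤ 1 := by
    rw [← hK1]
    exact Finset.single_le_sum (f := fun ψ => m ψ * (D ψ / p)) (fun _ _ => Nat.zero_le _) hRZ
  have hR1 : m R * (D R / p) = 1 := by omega
  have hmR : m R = 1 := Nat.eq_one_of_mul_eq_one_right hR1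
  have hdR : D R / p = 1 := Nat.eq_one_of_mul_eq_one_left hR1
  have hDR : D R = p := by
    obtain ⟨d, hd⟩ := hDZ R hRZ
    rw [hd, Nat.mul_div_cancel_left d hp.pos] at hdR
    rw [hd, hdR, mul_one]
  have hmZ : ∀ ψ ∈ Z, ψ ≠ R → m ψ = 0 := by
    intro ψ hψ hne
    have h1 : ∑ ψ ∈ Z.erase R, m ψ * (D ψ / p) = 0 := by
      have h2 := Finset.add_sum_erase Z (fun ψ => m ψ * (D ψ / p)) hRZ
      rw [hK1, hR1] at h2
      omega
    have h3 := (Finset.sum_eq_zero_iff.mp h1) ψ (Finset.mem_erase.mpr ⟨hne, hψ⟩)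
    obtain ⟨d, hd⟩ := hDZ ψ hψ
    have hd0 : 0 < d := by
      have h4 := hDpos ψ
      rw [hd] at h4
      exact Nat.pos_of_mul_pos_left h4
    rw [hd, Nat.mul_div_cancel_left d hp.pos] at h3
    rcases mul_eq_zero.mp h3 with h5 | h5
    · exact h5
    · omega
  refine ⟨R, ((hZ R).mp hRZ).1, ((hZ R).mp hRZ).2, by rw [← hD]; exact hDR, ?_⟩
  intro g
  have e1 : ∑ χ ∈ plusSet X δ, (m χ : ℂ) • (χ : G → ℂ) = 0 :=
    Finset.sum_eq_zero fun χ hχ => by rw [hmplus χ hχ, Nat.cast_zero, zero_smul]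
  have e2 : ∑ χ ∈ minusSet X δ, (m χ : ℂ) • (χ : G → ℂ) = ∑ χ ∈ minusSet X δ, (χ : G → ℂ) :=
    Finset.sum_congr rfl fun χ hχ => by rw [hmminus χ hχ, Nat.cast_one, one_smul]
  have e3 : ∑ θ ∈ Y, (m θ : ℂ) • (θ : G → ℂ) = 0 := by
    refine Finset.sum_eq_zero fun θ hθ => ?_
    rcases (hT.hY θ).mp hθ with h | h
    · rw [h, hmθ₁, Nat.cast_zero, zero_smul]
    · rw [h, hmθ₂, Nat.cast_zero, zero_smul]
  have e4 : ∑ ψ ∈ Z, (m ψ : ℂ) • (ψ : G → ℂ) = (R : G → ℂ) := by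
    rw [Finset.sum_eq_single R]
    · rw [hmR, Nat.cast_one, one_smul]
    · intro ψ hψ hne
      rw [hmZ ψ hψ hne, Nat.cast_zero, zero_smul]
    · intro h
      exact absurd hRZ h
  have h1 := congrFun hdecomp g
  rw [sum_split hB Z hZ (fun ψ => (m ψ : ℂ) • (ψ : G → ℂ)), e1, e2, e3, e4, hm_one,
    Nat.cast_zero, zero_smul, zero_add, add_zero, zero_add] at h1
  rw [Pi.mul_apply, Pi.add_apply, Finset.sum_apply] at h1
  rw [h1]
  ring

example : StDegR.{u} := degR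

end Cfsg.Agent.H84.BT
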