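import Mathlib
import Cfsg.Agent.H1.BTDefs
import Cfsg.Agent.H21.BRSplit
import Cfsg.Agent.H4.Irr
import Cfsg.Agent.H4.Chars
import Cfsg.Agent.H81.Reg
import Cfsg.Agent.H62.BRTBDih
import Cfsg.Agent.H16.BRCol

/-!
# S0997 type B, piece E2 (helper84)

The case `e = 2`: `X = {1, χ₂}` with `δ χ₂ = -1`, `χ₂(1) = p - 1`, `χ₂(τ) = 0` (dihedral bound),
`θ(τ) = -1` for the exceptional characters, whence `Psi τ u x = 1 - θ(u) / (p - 2)` for every
involution `u`; it vanishes only if `θ(u) = θ(1)`, impossible in a simple group.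
-/

set_option autoImplicit false

namespace Cfsg.Agent.H84.BT

open Cfsg Cfsg.Agent.H21.BR Cfsg.Agent.H1.BT Cfsg.Agent.H4
open scoped ComplexConjugate

universe u

/-- E2. -/
theorem e2 (hK : StKer.{u}) : StE2.{u} := by
  intro G _ _ _ hnc p e b P X Y δ τ x ctx he
  classical
  haveI : Fintype G := Fintype.ofFinite G
  subst he
  have hB := ctx.hB0
  have hp := ctx.hp
  haveI : Fact p.Prime := ⟨hp⟩
  have hp5 : 5 ≤ p := by
    have := ctx.h2e
    omega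
  have hpC : (p : ℂ) - 2 ≠ 0 := by
    have h : ((p - 2 : ℕ) : ℂ) ≠ 0 := Nat.cast_ne_zero.mpr (by omega)
    push_cast [Nat.cast_sub (by omega : 2 ≤ p)] at h
    exact h
  have hord2 : ∀ u : G, orderOf u = 2 → ¬ p ∣ orderOf u := by
    intro u hu h
    rw [hu] at h
    have := Nat.le_of_dvd (by norm_num) h
    omega
  obtain ⟨Z, hZ⟩ := exists_out X Y
  have hdeg1 : ∀ ψ : IrrCharacter G, (ψ : G → ℂ) 1 = (charDegree (ψ : G → ℂ) : ℂ) :=
    fun ψ => (Cfsg.Agent.H81.irr_charDegree ψ).1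
  have hY1 : ∀ θ ∈ Y, (θ : G → ℂ) 1 = (p : ℂ) - 2 := by
    intro θ hθ
    rw [hdeg1, ctx.degY θ hθ]
    push_cast [Nat.cast_sub (by omega : 2 ≤ p)]
    rfl
  have hYne : Y.Nonempty := by
    rw [← Finset.card_pos]
    have := hB.cardY
    omega
  obtain ⟨θ0, hθ0⟩ := hYne
  have hone1 : ∀ g : G, (one G : G → ℂ) g = 1 := fun g => rfl
  obtain ⟨f0, -, -, hcol, -⟩ := Cfsg.Agent.H16.BR.col_facts p P ctx.hP ctx.hC 2 X Y δ (-1) hB
  -- the relation at `1`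
  have hrel1 := hB.rel θ0 hθ0 1 (by rw [orderOf_one, Nat.dvd_one]; exact hp.ne_one)
  rw [sum_X_split hB (fun χ => (δ χ : ℂ) * (χ : G → ℂ) 1), hB.δ_one, hone1, hY1 θ0 hθ0] at hrel1
  have hcard := card_X_split hB
  have hplus0 : plusSet X δ = ∅ := by
    by_contra hne
    have h1 : (plusSet X δ).card = 1 := by
      have := Finset.card_pos.mpr (Finset.nonempty_iff_ne_empty.mpr hne)
      omega
    have h2 : minusSet X δ = ∅ := Finset.card_eq_zero.mp (by omega)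
    obtain ⟨χ, hχ⟩ := Finset.card_eq_one.mp h1
    have hχm : χ ∈ plusSet X δ := by
      rw [hχ]
      exact Finset.mem_singleton_self χ
    rw [hχ, h2, Finset.sum_singleton, Finset.sum_empty, (mem_plusSet.mp hχm).2.2, hdeg1 χ] at hrel1
    have h3 : ((charDegree (χ : G → ℂ) + p : ℕ) : ℂ) = ((1 : ℕ) : ℂ) := by
      push_cast
      push_cast at hrel1
      linear_combination -hrel1
    have h4 : charDegree (χ : G → ℂ) + p = 1 := by exact_mod_cast h3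
    omega
  have hminus1 : (minusSet X δ).card = 1 := by
    rw [hplus0, Finset.card_empty] at hcard
    omega
  obtain ⟨χ₂, hχ₂⟩ := Finset.card_eq_one.mp hminus1
  have hχ₂m : χ₂ ∈ minusSet X δ := by
    rw [hχ₂]
    exact Finset.mem_singleton_self χ₂
  obtain ⟨hχ₂X, hδ₂⟩ := mem_minusSet.mp hχ₂m
  rw [hplus0, hχ₂, Finset.sum_empty, Finset.sum_singleton, hδ₂] at hrel1
  have hD₂ : (χ₂ : G → ℂ) 1 = (p : ℂ) - 1 := by
    push_cast at hrel1
    linear_combination hrel1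
  -- the value of `χ₂` at `τ`
  have hχ₂τ : (χ₂ : G → ℂ) τ = 0 := by
    obtain ⟨w, s, hs, hsum, hsw⟩ := Cfsg.Agent.H62.BR.dihedral_bound p ctx.hp2 (P : Subgroup G)
      ctx.hP τ ctx.hτ ctx.hinv (χ₂ : G → ℂ) (isCharacter_of_isIrrCharacter χ₂.2)
    have h1 := psum_const (P : Subgroup G) p hp.pos ctx.hP (χ₂ : G → ℂ) (-1) (fun y hy hy1 => by
      rw [hB.val_X χ₂ hχ₂X y hy hy1, hδ₂]
      push_cast
      rfl)
    rw [h1, hD₂] at hsum
    have hw : w = 0 := by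
      have h2 : (p : ℂ) * (w : ℂ) = 0 := by
        rw [← hsum]
        ring
      rcases mul_eq_zero.mp h2 with h3 | h3
      · exact absurd h3 (Nat.cast_ne_zero.mpr hp.ne_zero)
      · exact_mod_cast h3
    rw [hw] at hsw
    have hs0 : s = 0 := abs_eq_zero.mp (le_antisymm (by exact_mod_cast hsw) (abs_nonneg s))
    rw [hs, hs0, Int.cast_zero]
  -- the exceptional characters at `τ`
  have hYτ : ∀ θ ∈ Y, (θ : G → ℂ) τ = -1 := by
    intro θ hθ
    have h1 := hB.rel θ hθ τ (hord2 τ ctx.hτ)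
    rw [sum_X_split hB (fun χ => (δ χ : ℂ) * (χ : G → ℂ) τ), hplus0, hχ₂, Finset.sum_empty,
      Finset.sum_singleton, hB.δ_one, hone1, hχ₂τ] at h1
    push_cast at h1
    linear_combination -h1
  -- the character sum
  have hPsi : ∀ u : G, orderOf u = 2 →
      Psi τ u x = 1 - (θ0 : G → ℂ) u / ((p : ℂ) - 2) := by
    intro u hu
    have hZ0 : ∑ ψ ∈ Z, (ψ : G → ℂ) τ * (ψ : G → ℂ) u * (ψ : G → ℂ) x⁻¹ / (ψ : G → ℂ) 1
        = 0 := by
      refine Finset.sum_eq_zero fun ψ hψ => ?_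
      rw [hB.out_van ψ ((hZ ψ).mp hψ).1 ((hZ ψ).mp hψ).2 x⁻¹ (inv_mem ctx.hx)
        (inv_ne_one.mpr ctx.hx1), mul_zero, zero_div]
    have hYs : ∑ θ ∈ Y, (θ : G → ℂ) τ * (θ : G → ℂ) u * (θ : G → ℂ) x⁻¹ / (θ : G → ℂ) 1
        = -((θ0 : G → ℂ) u / ((p : ℂ) - 2)) := by
      have h1 : ∀ θ ∈ Y, (θ : G → ℂ) τ * (θ : G → ℂ) u * (θ : G → ℂ) x⁻¹ / (θ : G → ℂ) 1
          = -((θ0 : G → ℂ) u / ((p : ℂ) - 2)) * (θ : G → ℂ) x⁻¹ := by
        intro θ hθ
        rw [hYτ θ hθ, hB.agree_Y θ hθ θ0 hθ0 u (hord2 u hu), hY1 θ hθ]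
        field_simp
      rw [Finset.sum_congr rfl h1, ← Finset.mul_sum,
        hcol x⁻¹ (inv_mem ctx.hx) (inv_ne_one.mpr ctx.hx1)]
      push_cast
      ring
    unfold Psi
    rw [sum_split hB Z hZ (fun χ => (χ : G → ℂ) τ * (χ : G → ℂ) u * (χ : G → ℂ) x⁻¹ /
      (χ : G → ℂ) 1), hplus0, hχ₂, Finset.sum_empty, Finset.sum_singleton, hχ₂τ, hZ0, hYs,
      hone1, hone1, hone1, hone1]
    ring
  refine ⟨?_, ?_⟩
  · intro u hu h0
    rw [hPsi u hu] at h0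
    have h1' : (θ0 : G → ℂ) u / ((p : ℂ) - 2) = 1 := by linear_combination -h0
    have h1 : (θ0 : G → ℂ) u = (θ0 : G → ℂ) 1 := by
      rw [hY1 θ0 hθ0]
      exact (div_eq_one_iff_eq hpC).mp h1'
    have h2 : 2 ≤ charDegree (θ0 : G → ℂ) := by
      rw [ctx.degY θ0 hθ0]
      omega
    have h3 := hK hnc θ0 h2 u h1
    rw [h3, orderOf_one] at hu
    omega
  · rw [hPsi τ ctx.hτ, hYτ θ0 hθ0]
    push_cast
    field_simp
    ring

example (hK : StKer.{u}) : StE2.{u} := e2 hK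

end Cfsg.Agent.H84.BT
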