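import Mathlib
import Cfsg.Agent.H59.Fx2Defs

/-!
# S3390 (team project, helper59): piece FX-TRANSFER — the normal subgroup of index 2.

`P` a Sylow 2-subgroup, `T = P ⊓ G_α` of index 2 in `P`, `P` free off `{α, β}`.  The
character `ϕ : P → ℤˣ` with kernel `T` takes the same value on two elements of `P` that are
conjugate in `G` (an element of `P` lies in `T` iff it has a fixed point), so the transfer
`V : G → ℤˣ` of `ϕ` restricts to `ϕ ^ [G : P] = ϕ` on `P`; `N := ker V`.
-/

set_option autoImplicit false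

open scoped Pointwise

namespace Cfsg.Agent.H84.Fx2

open Cfsg.Agent.H59.Fx2

universe u v

/-- the transfer of `ϕ` at an element `x` of `H`, when `ϕ` takes the value `ϕ x ^ k` at every
conjugate of `x ^ k` lying in `H` -/
theorem transfer_eq_pow_of_conj {G : Type u} [Group G] {H : Subgroup G} {A : Type v}
    [CommGroup A] (ϕ : H →* A) [H.FiniteIndex] (x : H)
    (key : ∀ (k : ℕ) (g₀ : G) (hk : g₀⁻¹ * (x : G) ^ k * g₀ ∈ H),
      ϕ ⟨g₀⁻¹ * (x : G) ^ k * g₀, hk⟩ = ϕ x ^ k) :
    MonoidHom.transfer ϕ (x : G) = ϕ x ^ H.index := by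
  classical
  have : Fintype (Quotient (MulAction.orbitRel (Subgroup.zpowers (x : G)) (G ⧸ H))) :=
    Fintype.ofFinite _
  rw [Subgroup.index_eq_sum_minimalPeriod H (x : G), ← Finset.prod_pow_eq_pow_sum,
    MonoidHom.transfer_eq_prod_quotient_orbitRel_zpowers_quot]
  apply Finset.prod_congr rfl
  intro q _
  exact key _ _ _

section

variable {G : Type u} [Group G] {Ω : Type v} [MulAction G Ω] {S : Subgroup G} {α β : Ω}

open Classical in
/-- the character of `S` with kernel `S ⊓ G_α` -/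
noncomputable def phiT (hC : Cfg S α β) (hI : Idx2 S α β) : ↥S →* ℤˣ where
  toFun y := if (y : G) • α = α then 1 else -1
  map_one' := by
    rw [if_pos]
    exact one_smul G α
  map_mul' x y := by
    show (if ((x : G) * (y : G)) • α = α then (1 : ℤˣ) else -1) =
      (if (x : G) • α = α then 1 else -1) * (if (y : G) • α = α then 1 else -1)
    by_cases hx : (x : G) • α = α
    · by_cases hy : (y : G) • α = α
      · rw [if_pos hx, if_pos hy, if_pos (by rw [mul_smul, hy, hx]), one_mul]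
      · have hy' : (y : G) • α = β := (hI y y.2).resolve_left hy
        have h1 : ((x : G) * (y : G)) • α = β := by
          rw [mul_smul, hy', hC.fixβ x.2 hx]
        rw [if_pos hx, if_neg hy, if_neg (by rw [h1]; exact hC.ne), one_mul]
    · have hx' : (x : G) • α = β := (hI x x.2).resolve_left hx
      by_cases hy : (y : G) • α = α
      · have h1 : ((x : G) * (y : G)) • α = β := by
          rw [mul_smul, hy, hx']
        rw [if_neg hx, if_pos hy, if_neg (by rw [h1]; exact hC.ne), mul_one]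
      · have hy' : (y : G) • α = β := (hI y y.2).resolve_left hy
        have h1 : ((x : G) * (y : G)) • α = α := by
          rw [mul_smul, hy', hC.swapβ x.2 hx']
        rw [if_neg hx, if_neg hy, if_pos h1, neg_mul_neg, one_mul]

theorem phiT_eq_one_iff (hC : Cfg S α β) (hI : Idx2 S α β) (y : ↥S) :
    phiT hC hI y = 1 ↔ (y : G) • α = α := by
  classical
  show (if (y : G) • α = α then (1 : ℤˣ) else -1) = 1 ↔ _
  by_cases hy : (y : G) • α = α
  · rw [if_pos hy]
    exact ⟨fun _ => hy, fun _ => rfl⟩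
  · rw [if_neg hy]
    constructor
    · intro h
      exact absurd h (by decide)
    · intro h
      exact absurd h hy

theorem phiT_eq_neg_one (hC : Cfg S α β) (hI : Idx2 S α β) (y : ↥S) (hy : (y : G) • α ≠ α) :
    phiT hC hI y = -1 := by
  classical
  show (if (y : G) • α = α then (1 : ℤˣ) else -1) = -1
  rw [if_neg hy]

/-- an element of `S` fixes `α` iff it has a fixed point -/
theorem fix_iff (hC : Cfg S α β) (hF : Free S α β) (y : G) (hy : y ∈ S) :
    y • α = α ↔ ∃ ω : Ω, y • ω = ω := by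
  constructor
  · intro h
    exact ⟨α, h⟩
  · rintro ⟨ω, hω⟩
    by_cases h1 : ω = α
    · rw [h1] at hω
      exact hω
    · by_cases h2 : ω = β
      · rw [h2] at hω
        exact hC.fixα hy hω
      · rw [hF ω h1 h2 y hy hω]
        exact one_smul G α

/-- `ϕ` is constant on the `G`-conjugates inside `S` -/
theorem phiT_conj (hC : Cfg S α β) (hI : Idx2 S α β) (hF : Free S α β) (x : ↥S) (k : ℕ) (g₀ : G)
    (hk : g₀⁻¹ * (x : G) ^ k * g₀ ∈ S) :
    phiT hC hI ⟨g₀⁻¹ * (x : G) ^ k * g₀, hk⟩ = phiT hC hI x ^ k := by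
  rw [← map_pow]
  have hxk : (x : G) ^ k ∈ S := S.pow_mem x.2 k
  have hiff : (g₀⁻¹ * (x : G) ^ k * g₀) • α = α ↔ ((x : G) ^ k) • α = α := by
    rw [fix_iff hC hF _ hk, fix_iff hC hF _ hxk]
    constructor
    · rintro ⟨ω, hω⟩
      refine ⟨g₀ • ω, ?_⟩
      have : g₀ • ((g₀⁻¹ * (x : G) ^ k * g₀) • ω) = g₀ • ω := by rw [hω]
      rw [mul_smul, mul_smul, smul_inv_smul] at this
      exact this
    · rintro ⟨ω, hω⟩
      refine ⟨g₀⁻¹ • ω, ?_⟩
      rw [mul_smul, mul_smul, smul_inv_smul, hω]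
  by_cases h : ((x : G) ^ k) • α = α
  · have h1 : phiT hC hI (x ^ k) = 1 := (phiT_eq_one_iff hC hI _).mpr (by
      rw [Subgroup.coe_pow]; exact h)
    have h2 : phiT hC hI ⟨g₀⁻¹ * (x : G) ^ k * g₀, hk⟩ = 1 :=
      (phiT_eq_one_iff hC hI _).mpr (hiff.mpr h)
    rw [h1, h2]
  · have h1 : phiT hC hI (x ^ k) = -1 := phiT_eq_neg_one hC hI _ (by
      rw [Subgroup.coe_pow]; exact h)
    have h2 : phiT hC hI ⟨g₀⁻¹ * (x : G) ^ k * g₀, hk⟩ = -1 :=
      phiT_eq_neg_one hC hI _ (fun h' => h (hiff.mp h'))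
    rw [h1, h2]

end

/-- (FX-TRANSFER) -/
theorem transfer : StTransfer.{u, v} := by
  intro G _ _ Ω _ _ P α β hC hI hF
  have h2 : Fact (Nat.Prime 2) := ⟨Nat.prime_two⟩
  set ϕ := phiT hC hI with hϕ
  set V : G →* ℤˣ := MonoidHom.transfer ϕ with hV
  have hodd : Odd (P : Subgroup G).index := by
    rw [← Nat.not_even_iff_odd, even_iff_two_dvd]
    exact P.not_dvd_index
  have hVP : ∀ x : ↥(P : Subgroup G), V (x : G) = ϕ x := by
    intro x
    rw [hV, transfer_eq_pow_of_conj ϕ x (fun k g₀ hk => phiT_conj hC hI hF x k g₀ hk)]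
    rcases Int.units_eq_one_or (ϕ x) with h | h
    · rw [h, one_pow]
    · rw [h, hodd.neg_one_pow]
  have hsurj : Function.Surjective V := by
    intro u
    rcases Int.units_eq_one_or u with h | h
    · exact ⟨1, by rw [map_one, h]⟩
    · obtain ⟨s, hs, hsα⟩ := hC.swap
      refine ⟨s, ?_⟩
      have := hVP ⟨s, hs⟩
      rw [h]
      rw [show ((⟨s, hs⟩ : ↥(P : Subgroup G)) : G) = s from rfl] at this
      rw [this]
      apply phiT_eq_neg_one
      show s • α ≠ α
      rw [hsα]
      exact hC.ne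
  refine ⟨V.ker, inferInstance, ?_, ?_⟩
  · have e := QuotientGroup.quotientKerEquivOfSurjective V hsurj
    rw [Subgroup.index_eq_card, Nat.card_congr e.toEquiv, Nat.card_eq_fintype_card,
      Fintype.card_units_int]
  · ext g
    constructor
    · rintro ⟨hN, hP⟩
      refine ⟨hP, ?_⟩
      have h1 : V g = 1 := hN
      have h3 := hVP ⟨g, hP⟩
      rw [show ((⟨g, hP⟩ : ↥(P : Subgroup G)) : G) = g from rfl, h1] at h3
      exact (phiT_eq_one_iff hC hI ⟨g, hP⟩).mp h3.symm
    · rintro ⟨hP, hα⟩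
      refine ⟨?_, hP⟩
      show V g = 1
      have h3 := hVP ⟨g, hP⟩
      rw [show ((⟨g, hP⟩ : ↥(P : Subgroup G)) : G) = g from rfl] at h3
      rw [h3]
      exact (phiT_eq_one_iff hC hI ⟨g, hP⟩).mpr hα

example : StTransfer.{u, v} =
    (∀ {G : Type u} [Group G] [Finite G] {Ω : Type v} [Finite Ω] [MulAction G Ω]
    (P : Sylow 2 G) (α β : Ω), Cfg (P : Subgroup G) α β → Idx2 (P : Subgroup G) α β →
    Free (P : Subgroup G) α β →
    ∃ N : Subgroup G, N.Normal ∧ N.index = 2 ∧
      N ⊓ (P : Subgroup G) = (P : Subgroup G) ⊓ MulAction.stabilizer G α) :=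
  rfl

end Cfsg.Agent.H84.Fx2
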