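import Cfsg.Agent.H59.GagDefs
import Cfsg.Agent.H6.SLGen

/-! S4840 piece MATSL (helper59's project): a transitive linear group in dimension 2 over `𝔽_p`
with an element of order `p` contains `SL₂(p)`. -/

set_option autoImplicit false
open Cfsg Cfsg.Agent.H59.Gag

namespace Cfsg.Agent.H84.Gag

universe u

open Matrix

theorem pow_tv {R : Type*} [CommRing R] (i j : Fin 2) (hij : i ≠ j) (b : R) (k : ℕ) :
    (1 + Matrix.single i j b : Matrix (Fin 2) (Fin 2) R) ^ k =
      1 + Matrix.single i j ((k : R) * b) := by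
  induction k with
  | zero => simp
  | succ k ih =>
    rw [pow_succ, ih, mul_add, add_mul, add_mul, mul_one, one_mul, mul_one,
      Matrix.single_mul_single_of_ne _ _ _ _ hij.symm, add_zero, add_assoc, ← Matrix.single_add]
    congr 2
    push_cast
    ring

theorem tv_form {R : Type*} [CommRing R] (i j : Fin 2) (hij : i ≠ j)
    (S : Matrix (Fin 2) (Fin 2) R) (hfix : S *ᵥ Pi.single i 1 = Pi.single i 1)
    (hdet : S.det = 1) : S = 1 + Matrix.single i j (S i j) := by
  rw [Matrix.mulVec_single_one] at hfix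
  have h0 := congrFun hfix 0
  have h1 := congrFun hfix 1
  rw [Matrix.det_fin_two] at hdet
  fin_cases i <;> fin_cases j <;> simp at hij <;> simp at h0 h1
  · rw [h0, h1] at hdet
    ext k l
    fin_cases k <;> fin_cases l <;> simp [h0, h1]
    linear_combination hdet
  · rw [h0, h1] at hdet
    ext k l
    fin_cases k <;> fin_cases l <;> simp [h0, h1]
    linear_combination hdet

theorem matsl : MatSLStmt.{u} := by
  intro X _ _ p _ ψ hψ ⟨u, hu1, hup⟩ A
  classical
  have hp : p.Prime := Fact.out
  -- a fixed vector of `u`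
  obtain ⟨v₀, hv₀, hfix₀⟩ : ∃ v₀ : Fin 2 → ZMod p, v₀ ≠ 0 ∧ (ψ u).val *ᵥ v₀ = v₀ := by
    have hMp : (ψ u).val ^ p = 1 := by
      rw [← Units.val_pow_eq_pow_val, ← map_pow, hup, map_one, Units.val_one]
    have h1 : ((ψ u).val - 1) ^ p = 0 := by
      rw [sub_pow_char_of_commute (p := p) (Commute.one_right _), hMp, one_pow, sub_self]
    have h2 : ((ψ u).val - 1).det = 0 := by
      have := congrArg Matrix.det h1
      rw [Matrix.det_pow, Matrix.det_zero] at this
      exact pow_eq_zero_iff hp.ne_zero |>.mp this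
    obtain ⟨v, hv, hv0⟩ := Matrix.exists_mulVec_eq_zero_iff.mpr h2
    refine ⟨v, hv, ?_⟩
    rw [Matrix.sub_mulVec, Matrix.one_mulVec, sub_eq_zero] at hv0
    exact hv0
  -- every nonzero vector is fixed by an element of order `p`
  have hfix : ∀ w : Fin 2 → ZMod p, w ≠ 0 →
      ∃ s : X, s ≠ 1 ∧ s ^ p = 1 ∧ (ψ s).val *ᵥ w = w := by
    intro w hw
    obtain ⟨g, hg⟩ := hψ.trans v₀ w hv₀ hw
    refine ⟨g * u * g⁻¹, ?_, ?_, ?_⟩
    · intro h
      apply hu1
      have : u = g⁻¹ * (g * u * g⁻¹) * g := by group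
      rw [this, h]; group
    · rw [conj_pow, hup]; group
    · have hinv : (ψ g⁻¹).val *ᵥ w = v₀ := by
        rw [← hg, Matrix.mulVec_mulVec, ← Units.val_mul, ← map_mul, inv_mul_cancel, map_one,
          Units.val_one, Matrix.one_mulVec]
      rw [map_mul, map_mul, Units.val_mul, Units.val_mul, ← Matrix.mulVec_mulVec,
        ← Matrix.mulVec_mulVec, hinv, hfix₀, hg]
  -- all transvections are in the image
  have htv : ∀ (i j : Fin 2) (hij : i ≠ j) (a : ZMod p),
      ∃ g : X, (ψ g).val = 1 + Matrix.single i j a := by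
    intro i j hij a
    have hw : (Pi.single i 1 : Fin 2 → ZMod p) ≠ 0 := by
      intro h
      have := congrFun h i
      simp at this
    obtain ⟨s, hs1, hsp, hs⟩ := hfix _ hw
    have hSp : (ψ s).val ^ p = 1 := by
      rw [← Units.val_pow_eq_pow_val, ← map_pow, hsp, map_one, Units.val_one]
    have hdet : (ψ s).val.det = 1 := by
      have := congrArg Matrix.det hSp
      rw [Matrix.det_pow, Matrix.det_one, ZMod.pow_card] at this
      exact this
    have hS := tv_form i j hij (ψ s).val hs hdet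
    set b := (ψ s).val i j with hb
    have hb0 : b ≠ 0 := by
      intro h0
      apply hs1
      apply hψ.inj
      apply Units.ext
      rw [hS, h0, map_one, Units.val_one]
      simp
    refine ⟨s ^ (a / b).val, ?_⟩
    rw [map_pow, Units.val_pow_eq_pow_val, hS, pow_tv i j hij, ZMod.natCast_zmod_val,
      div_mul_cancel₀ a hb0]
  -- transvection induction
  refine Cfsg.Agent.H6.sl_transvection_induction
    (fun A : Matrix.SpecialLinearGroup (Fin 2) (ZMod p) => ∃ g : X, (ψ g).val = A.val) ?_ ?_ A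
  · intro i j hij a
    obtain ⟨g, hg⟩ := htv i j hij a
    exact ⟨g, by rw [hg, Matrix.SpecialLinearGroup.transvection_coe]⟩
  · rintro A B ⟨g, hg⟩ ⟨h, hh⟩
    exact ⟨g * h, by rw [map_mul, Units.val_mul, hg, hh, Matrix.SpecialLinearGroup.coe_mul]⟩

example : MatSLStmt.{u} := matsl

end Cfsg.Agent.H84.Gag
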