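import Cfsg.Agent.H59.GagDefs

/-! S4840 piece SEMI (helper59's project): a semilinear group over a finite field has a normal
`p'`-subgroup containing all commutators. -/

set_option autoImplicit false
open Cfsg Cfsg.Agent.H59.Gag

namespace Cfsg.Agent.H84.Gag

universe u

/-- Ring automorphisms of a finite field commute. -/
theorem ringAut_comm (F : Type) [Field F] [Fintype F] (σ τ : F ≃+* F) : σ * τ = τ * σ := by
  obtain ⟨m, hm⟩ := MonoidHom.map_cyclic (Units.map (σ : F →* F))
  obtain ⟨n, hn⟩ := MonoidHom.map_cyclic (Units.map (τ : F →* F))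
  have h1 : ∀ u : Fˣ, σ (u : F) = ((u ^ m : Fˣ) : F) := fun u => by rw [← hm u]; rfl
  have h2 : ∀ u : Fˣ, τ (u : F) = ((u ^ n : Fˣ) : F) := fun u => by rw [← hn u]; rfl
  ext w
  rw [RingAut.mul_apply, RingAut.mul_apply]
  by_cases hw : w = 0
  · subst hw; simp
  · obtain ⟨u, rfl⟩ : ∃ u : Fˣ, (u : F) = w := ⟨Units.mk0 w hw, rfl⟩
    rw [h2, h1, h1, h2, ← zpow_mul, ← zpow_mul, mul_comm]

theorem semi : SemiStmt.{u} := by
  intro X _ _ p _ V _ _ _ _ ρ hinj ⟨F, _, _, e, hsemi⟩
  classical
  choose a σ haσ using hsemi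
  have hF : ∀ g w, e (ρ g (e.symm w)) = a g * σ g w := by
    intro g w; rw [haσ]; simp
  have ha0 : ∀ g, a g ≠ 0 := by
    intro g h0
    have h := hF g (e ((ρ g).symm (e.symm 1)))
    simp [h0] at h
  have hmul : ∀ g h, σ (g * h) = σ g * σ h := by
    intro g h
    have key : ∀ w, a (g * h) * σ (g * h) w = a g * σ g (a h) * σ g (σ h w) := by
      intro w
      rw [← hF (g * h) w, map_mul, LinearEquiv.mul_apply, haσ g, hF h w, map_mul, mul_assoc]
    have hagh : a (g * h) = a g * σ g (a h) := by
      have := key 1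
      simpa using this
    ext w
    have hw := key w
    rw [hagh] at hw
    have hne : a g * σ g (a h) ≠ 0 := by rw [← hagh]; exact ha0 _
    rw [RingAut.mul_apply]
    exact mul_left_cancel₀ hne hw
  let Φ : X →* (F ≃+* F) := MonoidHom.mk' σ hmul
  have hΦ : ∀ g, Φ g = σ g := fun g => rfl
  refine ⟨Φ.ker, inferInstance, ?_, ?_⟩
  · have hchar : (p : F) = 0 := by
      have h0 : p • e.symm (1 : F) = 0 := by
        rw [← Nat.cast_smul_eq_nsmul (ZMod p)]; simp
      have h2 : e (p • e.symm (1 : F)) = 0 := by rw [h0, map_zero]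
      rw [map_nsmul] at h2
      simpa using h2
    haveI : CharP F p := (CharP.charP_iff_prime_eq_zero (Fact.out : p.Prime)).mpr hchar
    have hno : ∀ g ∈ Φ.ker, g ^ p = 1 → g = 1 := by
      intro g hg hgp
      have hσ : ∀ w, σ g w = w := by
        intro w
        have h1 : σ g = 1 := hg
        rw [h1]; rfl
      have hpow : ∀ k : ℕ, ∀ v, e (ρ (g ^ k) v) = a g ^ k * e v := by
        intro k
        induction k with
        | zero => intro v; simp
        | succ k ih =>
          intro v
          rw [pow_succ, map_mul, LinearEquiv.mul_apply, ih, haσ, hσ, pow_succ, mul_assoc]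
      have h1 := hpow p (e.symm 1)
      rw [hgp] at h1
      simp at h1
      have ha : a g = 1 := by
        have h3 : (a g - 1) ^ p = 0 := by rw [sub_pow_char, ← h1]; simp
        exact sub_eq_zero.mp (pow_eq_zero_iff (Fact.out : p.Prime).ne_zero |>.mp h3)
      apply hinj
      ext v
      apply e.injective
      rw [haσ, hσ, ha, one_mul]; simp
    rw [Nat.coprime_comm, Nat.Prime.coprime_iff_not_dvd (Fact.out : p.Prime)]
    intro hdvd
    obtain ⟨x, hx⟩ := exists_prime_orderOf_dvd_card' p hdvd
    have hxp : x ^ p = 1 := by rw [← hx]; exact pow_orderOf_eq_one x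
    have hx1 : (x : X) = 1 := hno x x.2 (by exact_mod_cast congrArg Subtype.val hxp)
    have : x = 1 := Subtype.ext hx1
    rw [this, orderOf_one] at hx
    exact (Fact.out : p.Prime).one_lt.ne hx
  · intro g h
    rw [MonoidHom.mem_ker, map_mul, map_mul, map_mul, map_inv, map_inv,
      ringAut_comm F (Φ g) (Φ h)]
    group

example : SemiStmt.{u} := semi

end Cfsg.Agent.H84.Gag
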