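/-
helper84 library (S4588): principal blocks of groups with a normal `p`-complement, and rank
bounds.

* `blockRank_le_card_of_span`: `l(b) ≤ |s|` if the `p`-regular parts of the characters of `b` lie
  in the span of a family indexed by the finset `s`.
* `blockRank_le_one_of_const`: `l(b) ≤ 1` if all characters of `b` are constant on the
  `p`-regular elements.
* `principal_const_of_normal`: if the `p`-regular elements of `K` form a normal subgroup, then
  the characters of the principal block are constant on them.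
* `card_le_of_rank_one`: the Héthelyi–Külshammer–Sambale bound for `l(b) ≤ 1`, `d(b) ≤ 2`.
-/
import Mathlib
import Cfsg.Prelude.Def_Blocks
import Cfsg.Prelude.Def_BlockRank
import Cfsg.Agent.H82.Normal
import Cfsg.Agent.H84.PrincipalPairs
import Cfsg.Agent.H84.Contrib4

set_option autoImplicit false
set_option linter.style.haveILetI false
set_option linter.unusedSectionVars false
set_option linter.unusedVariables false

namespace Cfsg.Agent.H84

open Cfsg Cfsg.Agent.H4 Cfsg.Agent.H20
open scoped ComplexConjugate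

universe u

section K0A

/-- `l(b) ≤ |s|` if the `p`-regular parts of the characters of `b` lie in the span of a family
indexed by the finset `s`. -/
theorem blockRank_le_card_of_span {H : Type u} [Group H] (p : ℕ) (b : Set (IrrCharacter H))
    {ι : Type*} (s : Finset ι) (f : ι → H → ℂ)
    (h : ∀ ξ ∈ b, pRegularPart p (ξ : H → ℂ) ∈ Submodule.span ℂ (f '' (s : Set ι))) :
    blockRank p b ≤ s.card := by
  classical
  unfold blockRank
  have hle : Submodule.span ℂ ((fun χ : IrrCharacter H => pRegularPart p (χ : H → ℂ)) '' b) ≤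
      Submodule.span ℂ (f '' (s : Set ι)) := by
    rw [Submodule.span_le]
    rintro _ ⟨ξ, hξ, rfl⟩
    exact h ξ hξ
  have hfin : (f '' (s : Set ι)).Finite := (Finset.finite_toSet s).image f
  haveI : Module.Finite ℂ ↥(Submodule.span ℂ (f '' (s : Set ι))) :=
    FiniteDimensional.span_of_finite ℂ hfin
  have h1 := Submodule.finrank_mono hle
  have h2 : Module.finrank ℂ ↥(Submodule.span ℂ (f '' (s : Set ι))) ≤ s.card := by
    have h3 : f '' (s : Set ι) = ((s.image f : Finset (H → ℂ)) : Set (H → ℂ)) := by
      rw [Finset.coe_image]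
    rw [h3]
    exact (finrank_span_finset_le_card (R := ℂ) (s.image f)).trans Finset.card_image_le
  exact h1.trans h2

/-- `l(b) ≤ 1` if all characters of `b` are constant on the `p`-regular elements. -/
theorem blockRank_le_one_of_const {H : Type u} [Group H] (p : ℕ) (b : Set (IrrCharacter H))
    (h : ∀ ξ ∈ b, ∀ y : H, ¬ p ∣ orderOf y → (ξ : H → ℂ) y = (ξ : H → ℂ) 1) :
    blockRank p b ≤ 1 := by
  classical
  have h1 := blockRank_le_card_of_span p b ({()} : Finset Unit)
    (fun _ => pRegularPart p (fun _ : H => (1 : ℂ))) (by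
      intro ξ hξ
      have h2 : pRegularPart p (ξ : H → ℂ) =
          (ξ : H → ℂ) 1 • pRegularPart p (fun _ : H => (1 : ℂ)) := by
        funext y
        by_cases hy : p ∣ orderOf y
        · rw [Pi.smul_apply, Cfsg.Agent.H81.pRegularPart_of_dvd p _ hy,
            Cfsg.Agent.H81.pRegularPart_of_dvd p _ hy, smul_zero]
        · rw [Pi.smul_apply, Cfsg.Agent.H81.pRegularPart_of_not_dvd p _ hy,
            Cfsg.Agent.H81.pRegularPart_of_not_dvd p _ hy, smul_eq_mul, mul_one]
          exact h ξ hξ y hy
      rw [h2]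
      apply Submodule.smul_mem
      apply Submodule.subset_span
      exact ⟨(), by simp, rfl⟩)
  simpa using h1

/-- If the `p`-regular elements of `K` form a normal subgroup, then the characters of the
principal block are constant on them. -/
theorem principal_const_of_normal {K : Type u} [Group K] [Fintype K] {p : ℕ} [Fact p.Prime]
    {M : Ideal AlgInt} (hM : IsPModular p M) (N : Subgroup K) [N.Normal]
    (hN : ∀ y : K, ¬ p ∣ orderOf y ↔ y ∈ N) (ψ : IrrCharacter K)
    (hψ : ψ ∈ principalBlock M K) (y : K) (hy : ¬ p ∣ orderOf y) :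
    (ψ : K → ℂ) y = (ψ : K → ℂ) 1 := by
  classical
  by_contra hne
  have h0 := Cfsg.Agent.H82.irr_sum_normal_eq_zero ψ N ⟨y, (hN y).mp hy, hne⟩
  have h1 := (mem_principalBlock_iff_regSum hM ψ).mp hψ
  apply h1
  unfold regSum
  rw [← h0, Finset.sum_filter]
  apply Finset.sum_congr rfl
  intro g _
  by_cases hg : g ∈ N
  · rw [if_pos hg, Cfsg.Agent.H81.pRegularPart_of_not_dvd p _ ((hN g).mpr hg)]
  · rw [if_neg hg]
    have : p ∣ orderOf g := by
      by_contra h
      exact hg ((hN g).mp h)
    exact Cfsg.Agent.H81.pRegularPart_of_dvd p _ this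

variable {G : Type u} [Group G] [Fintype G] {p : ℕ} [Fact p.Prime] {M : Ideal AlgInt}

/-- The Héthelyi–Külshammer–Sambale bound for a subsection `(x, b)` with `l(b) ≤ 1` and
`d(b) ≤ 2`: at most `p²` characters of height zero. -/
theorem card_le_of_rank_one (hM : IsPModular p M) (h2 : SecondMain p M G) (x : G)
    (hx : ∃ k : ℕ, orderOf x = p ^ k) (C : Subgroup G) [Fintype C]
    (hxC : ∀ c ∈ C, x * c = c * x) (hCx : ∀ g : G, g * x = x * g → g ∈ C)
    (ψ₀ : IrrCharacter C) (B : Set (IrrCharacter G))
    (hind : IsInducedBlock M C (blockOf M (ψ₀ : C → ℂ)) B)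
    (hrank : blockRank p (blockOf M (ψ₀ : C → ℂ)) ≤ 1)
    (hdef : blockDefect p (blockOf M (ψ₀ : C → ℂ)) ≤ 2)
    (S : Finset (IrrCharacter G))
    (hS : ∀ χ ∈ S, χ ∈ B ∧ blockHeight p B (χ : G → ℂ) = 0) :
    S.card ≤ p ^ 2 := by
  have hp : p.Prime := hM.1
  have h := card_sq_le_of_height_zero hM h2 x hx C hxC hCx ψ₀ B hind S hS
  have h1 : p ^ (2 * blockDefect p (blockOf M (ψ₀ : C → ℂ))) *
      blockRank p (blockOf M (ψ₀ : C → ℂ)) ≤ p ^ 4 * 1 :=
    Nat.mul_le_mul (Nat.pow_le_pow_right hp.pos (by omega)) hrank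
  have h3 : S.card ^ 2 ≤ (p ^ 2) ^ 2 := by
    rw [← pow_mul]
    exact h.trans (by simpa using h1)
  exact (Nat.pow_le_pow_iff_left (by norm_num)).mp h3

end K0A

end Cfsg.Agent.H84
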