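/-
helper84 library (S4588): the lattice bound for a subsection `(x, b)` with `x` of order `p`.

* `card_mul_le_of_lattice`: if every nonzero integral combination `F` of the `p`-regular parts of
  the characters of `b` has `∑_c |F(c)|² ≥ α`, then the number `k₀` of height zero characters of
  `B = b^G` satisfies `k₀ α ≤ |C| l(b)`.
-/
import Mathlib
import Cfsg.Prelude.Def_Blocks
import Cfsg.Prelude.Def_BlockRank
import Cfsg.Agent.H84.Major4
import Cfsg.Agent.H84.Contrib4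
import Cfsg.Agent.H40.K0TR

set_option autoImplicit false
set_option linter.style.haveILetI false
set_option linter.unusedSectionVars false
set_option linter.unusedVariables false

namespace Cfsg.Agent.H84

open Cfsg Cfsg.Agent.H4 Cfsg.Agent.H20
open scoped ComplexConjugate

universe u

section K0B

variable {G : Type u} [Group G] [Fintype G] {p : ℕ} [Fact p.Prime] {M : Ideal AlgInt}

/-- The lattice bound for a subsection `(x, b)` with `x` of order `p`. -/
theorem card_mul_le_of_lattice (hM : IsPModular p M) (h2 : SecondMain p M G) (x : G)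
    (hx : orderOf x = p) (C : Subgroup G) [Fintype C]
    (hxC : ∀ c ∈ C, x * c = c * x) (hCx : ∀ g : G, g * x = x * g → g ∈ C)
    (ψ₀ : IrrCharacter C) (B : Set (IrrCharacter G))
    (hind : IsInducedBlock M C (blockOf M (ψ₀ : C → ℂ)) B)
    (α : ℝ) (hα : 0 ≤ α)
    (hlat : ∀ u : IrrCharacter C → ℤ,
      (∑ ξ ∈ irrFinset (blockOf M (ψ₀ : C → ℂ)), (u ξ : ℂ) • pRegularPart p (ξ : C → ℂ)) ≠ 0 →
      α ≤ ∑ c : C, ‖(∑ ξ ∈ irrFinset (blockOf M (ψ₀ : C → ℂ)),
        (u ξ : ℂ) • pRegularPart p (ξ : C → ℂ)) c‖ ^ 2)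
    (S : Finset (IrrCharacter G))
    (hS : ∀ χ ∈ S, χ ∈ B ∧ blockHeight p B (χ : G → ℂ) = 0) :
    (S.card : ℝ) * α ≤ (Nat.card C : ℝ) * blockRank p (blockOf M (ψ₀ : C → ℂ)) := by
  classical
  have hp : p.Prime := hM.1
  have hMp := isPrime_of_isPModular hM
  have hp0 : 0 < p := hp.pos
  have hxp : x ^ p = 1 := by rw [← hx]; exact pow_orderOf_eq_one x
  have hxmem : x ∈ C := hCx x rfl
  have hxk : ∃ k : ℕ, orderOf x = p ^ k := ⟨1, by rw [hx, pow_one]⟩
  obtain ⟨ζ, hζ⟩ : ∃ ζ : ℂ, IsPrimitiveRoot ζ p := ⟨_, Complex.isPrimitiveRoot_exp p hp0.ne'⟩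
  obtain ⟨n, e, Q, -, -, -, hsec, -⟩ := exists_contrib_data2 hM x p hp0 hxp C hxmem hxC ψ₀ ζ hζ
  set b : Set (IrrCharacter C) := blockOf M (ψ₀ : C → ℂ) with hb
  have hB : IsPBlock M B := hind.2.1
  have hSB : S ⊆ irrFinset B := by
    intro χ hχ
    rw [mem_irrFinset]
    exact (hS χ hχ).1
  have hCpos : (0 : ℝ) < (Nat.card C : ℝ) := by exact_mod_cast Nat.card_pos
  -- the section part in coordinates
  have hsec' : ∀ (χ : IrrCharacter G) (γ : ℕ), secPart p C b (x ^ γ) χ =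
      ∑ ξ ∈ irrFinset b, ((n χ ξ : ℂ) * (ζ ^ γ) ^ e ξ) • pRegularPart p (ξ : C → ℂ) := by
    intro χ γ
    rw [hsec χ γ]
    rfl
  -- norms
  have hnorm : ∀ (χ : IrrCharacter G) (γ : ℕ),
      ∑ c : C, ‖secPart p C b (x ^ γ) χ c‖ ^ 2 =
        (Nat.card C : ℝ) * (contrib p C b (x ^ γ) χ χ).re := by
    intro χ γ
    unfold contrib
    rw [classInner_self_eq, Complex.ofReal_re, ← mul_assoc, mul_inv_cancel₀ hCpos.ne', one_mul]
  have hnn : ∀ (χ : IrrCharacter G) (γ : ℕ), 0 ≤ (contrib p C b (x ^ γ) χ χ).re := by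
    intro χ γ
    unfold contrib
    rw [classInner_self_eq, Complex.ofReal_re]
    exact classInner_self_nonneg _
  -- lower bound for each height zero character
  have hlow : ∀ χ ∈ S, ((p : ℝ) - 1) * α ≤
      ∑ γ ∈ Finset.Ico 1 p, (Nat.card C : ℝ) * (contrib p C b (x ^ γ) χ χ).re := by
    intro χ hχ
    have hne : (∑ ξ ∈ irrFinset b, ((n χ ξ : ℂ) * ζ ^ e ξ) • pRegularPart p (ξ : C → ℂ)) ≠ 0 := by
      intro h0
      have h1 := hsec' χ 1
      rw [pow_one, pow_one, h0] at h1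
      have h3 := not_memLocalIdeal_contrib hM x (k := 1) (by rw [pow_one]; exact hxp) C hxmem hxC
        ψ₀ B hind χ χ (hS χ hχ).1 (hS χ hχ).1 (hS χ hχ).2 (hS χ hχ).2
      apply h3
      have h4 : contrib p C b x χ χ = 0 := by
        unfold contrib
        rw [h1]
        unfold classInner
        simp
      rw [← hb, h4, mul_zero]
      exact memLocalIdeal_zero hMp
    have h := Cfsg.Agent.H40.K0.trace_lattice_bound (irrFinset b)
      (fun ξ : IrrCharacter C => pRegularPart p (ξ : C → ℂ)) (n χ) e p hp ζ hζ α hα hlat hne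
    calc ((p : ℝ) - 1) * α ≤ _ := h
      _ = ∑ γ ∈ Finset.Ico 1 p, (Nat.card C : ℝ) * (contrib p C b (x ^ γ) χ χ).re := by
          apply Finset.sum_congr rfl
          intro γ _
          rw [← hnorm χ γ, hsec' χ γ]
  -- upper bound for each exponent
  have hup : ∀ γ ∈ Finset.Ico 1 p, ∑ χ ∈ S, (contrib p C b (x ^ γ) χ χ).re ≤
      (blockRank p b : ℝ) := by
    intro γ hγ
    rw [Finset.mem_Ico] at hγ
    have hγ' : γ.Coprime (orderOf x) := by
      rw [hx]
      apply Nat.Coprime.symm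
      rw [Nat.Prime.coprime_iff_not_dvd hp]
      intro hdvd
      have := Nat.le_of_dvd (by omega) hdvd
      omega
    obtain ⟨hxγ, hxCγ, hCxγ⟩ := subsection_pow x hxk C hxC hCx γ hγ'
    have hCγ : C = Subgroup.centralizer ({x ^ γ} : Set G) := by
      ext g
      rw [Subgroup.mem_centralizer_singleton_iff]
      exact ⟨fun hg => (hxCγ g hg).symm, fun hg => hCxγ g hg⟩
    have h0 : ∀ χ : IrrCharacter G, χ ∉ B → ∀ y : C, ¬ p ∣ orderOf y →
        blockPart b (fun c : C => (χ : G → ℂ) (x ^ γ * (c : G))) y = 0 :=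
      fun χ hχ y hy =>
        (secondMain_both' hM h2 (x ^ γ) hxγ C hCγ B hB χ _ ⟨ψ₀, rfl⟩).2 hχ hind y hy
    have htot := sum_contrib_self hM (x ^ γ) hxγ C hxCγ hCxγ B ψ₀ h0
    have htot' : ∑ χ ∈ irrFinset B, (contrib p C b (x ^ γ) χ χ).re = (blockRank p b : ℝ) := by
      have := congrArg Complex.re htot
      rw [Complex.re_sum, Complex.natCast_re] at this
      exact this
    rw [← htot']
    exact Finset.sum_le_sum_of_subset_of_nonneg hSB (fun χ _ _ => hnn χ γ)
  -- combine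
  have hp1 : (0 : ℝ) < (p : ℝ) - 1 := by
    have : (1 : ℝ) < (p : ℝ) := by exact_mod_cast hp.one_lt
    linarith
  have hIco : ((Finset.Ico 1 p).card : ℝ) = (p : ℝ) - 1 := by
    rw [Nat.card_Ico, Nat.cast_sub hp.one_lt.le, Nat.cast_one]
  have hmain : ((p : ℝ) - 1) * ((S.card : ℝ) * α) ≤
      ((p : ℝ) - 1) * ((Nat.card C : ℝ) * (blockRank p b : ℝ)) := by
    calc ((p : ℝ) - 1) * ((S.card : ℝ) * α)
        = ∑ χ ∈ S, ((p : ℝ) - 1) * α := by
          rw [Finset.sum_const, nsmul_eq_mul]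
          ring
      _ ≤ ∑ χ ∈ S, ∑ γ ∈ Finset.Ico 1 p, (Nat.card C : ℝ) * (contrib p C b (x ^ γ) χ χ).re :=
          Finset.sum_le_sum hlow
      _ = ∑ γ ∈ Finset.Ico 1 p, (Nat.card C : ℝ) * ∑ χ ∈ S, (contrib p C b (x ^ γ) χ χ).re := by
          rw [Finset.sum_comm]
          apply Finset.sum_congr rfl
          intro γ _
          rw [Finset.mul_sum]
      _ ≤ ∑ γ ∈ Finset.Ico 1 p, (Nat.card C : ℝ) * (blockRank p b : ℝ) :=
          Finset.sum_le_sum (fun γ hγ => mul_le_mul_of_nonneg_left (hup γ hγ) hCpos.le)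
      _ = _ := by rw [Finset.sum_const, nsmul_eq_mul, hIco]
  exact le_of_mul_le_mul_left hmain hp1

end K0B

end Cfsg.Agent.H84
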