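/-
helper84 library (S4588): the lattice of the principal block of a central extension, by a
subgroup of order `p`, of a group with Sylow `p`-subgroups of order `p` (`p` odd).

* `lattice_of_quotient`: there is `e ≥ 1` with `l(B₀(H)) ≤ e` such that every nonzero integral
  combination `F` of the `p`-regular parts of the characters of `B₀(H)` has
  `∑_c |F(c)|² ≥ |H| e / p²`.
-/
import Mathlib
import Cfsg.Prelude.Def_Blocks
import Cfsg.Prelude.Def_BlockRank
import Cfsg.Agent.H79.QuotientRank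
import Cfsg.Agent.H84.K0A
import Cfsg.Agent.H40.K0QF
import Cfsg.Agent.H81.K0GR

set_option autoImplicit false
set_option linter.style.haveILetI false
set_option linter.unusedSectionVars false
set_option linter.unusedVariables false

namespace Cfsg.Agent.H84

open Cfsg Cfsg.Agent.H4 Cfsg.Agent.H20
open scoped ComplexConjugate

universe u

section K0C

/-- The lattice of the principal block of `H`, for `Z ≤ Z(H)` of order `p` and `H / Z` with
Sylow `p`-subgroups of order `p`. -/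
theorem lattice_of_quotient {H : Type u} [Group H] [Fintype H] {p : ℕ} [Fact p.Prime]
    {M : Ideal AlgInt} (hM : IsPModular p M) (hodd : p ≠ 2)
    (Z : Subgroup H) [Z.Normal] [Fintype (H ⧸ Z)] (hZ : Nat.card Z = p)
    (hZc : Z ≤ Subgroup.center H) (Q : Sylow p (H ⧸ Z)) (hQ : Nat.card Q = p)
    (hdom : ∀ ξ ∈ principalBlock M H, ∃ ψ : IrrCharacter (H ⧸ Z),
      ψ ∈ principalBlock M (H ⧸ Z) ∧
      ∀ y : H, ¬ p ∣ orderOf y → (ξ : H → ℂ) y = (ψ : H ⧸ Z → ℂ) (QuotientGroup.mk y)) :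
    ∃ e : ℕ, 1 ≤ e ∧ blockRank p (principalBlock M H) ≤ e ∧
      ∀ u : IrrCharacter H → ℤ,
        (∑ ξ ∈ irrFinset (principalBlock M H), (u ξ : ℂ) • pRegularPart p (ξ : H → ℂ)) ≠ 0 →
        (Nat.card H : ℝ) * e / p ^ 2 ≤ ∑ c : H, ‖(∑ ξ ∈ irrFinset (principalBlock M H),
          (u ξ : ℂ) • pRegularPart p (ξ : H → ℂ)) c‖ ^ 2 := by
  classical
  have hp : p.Prime := hM.1
  obtain ⟨w, X, e, t, σ, het, ht, hXcard, hw, hσ, hblk, hgram⟩ :=
    Cfsg.Agent.H81.K0.gram_sylow_p p M hM hodd Q hQ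
  have hσσ : σ * σ = 1 := by rcases hσ with h | h <;> rw [h] <;> norm_num
  have hZp : IsPGroup p Z := IsPGroup.of_card (n := 1) (by rw [hZ, pow_one])
  have hsup : Z ⊔ Subgroup.centralizer (Z : Set H) = ⊤ := by
    have : Subgroup.centralizer (Z : Set H) = ⊤ :=
      Subgroup.centralizer_eq_top_iff_subset.mpr hZc
    rw [this, sup_top_eq]
  -- coefficients of the characters of the principal block of the quotient
  have hcf : ∀ ψ : IrrCharacter (H ⧸ Z), ψ ∈ principalBlock M (H ⧸ Z) →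
      ∃ cf : IrrCharacter (H ⧸ Z) → ℤ, ∀ g : H ⧸ Z, ¬ p ∣ orderOf g →
        (ψ : H ⧸ Z → ℂ) g = ∑ χ ∈ X, (cf χ : ℂ) * (χ : H ⧸ Z → ℂ) g := by
    intro ψ hψ
    rcases hblk ψ hψ with h | h
    · refine ⟨fun χ => if χ = ψ then 1 else 0, fun g _ => ?_⟩
      rw [Finset.sum_eq_single ψ]
      · simp
      · intro χ _ hne
        simp [hne]
      · intro hn
        exact absurd h hn
    · refine ⟨fun χ => σ * w χ, fun g hg => ?_⟩
      have h1 := h g hg
      have h2 : (ψ : H ⧸ Z → ℂ) g = (σ : ℂ) * ((σ : ℂ) * (ψ : H ⧸ Z → ℂ) g) := by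
        rw [← mul_assoc, ← Int.cast_mul, hσσ, Int.cast_one, one_mul]
      rw [h2, h1, Finset.mul_sum]
      apply Finset.sum_congr rfl
      intro χ _
      push_cast
      ring
  -- coefficients of the characters of the principal block of `H`
  have ha : ∀ ξ : IrrCharacter H, ∃ a : IrrCharacter (H ⧸ Z) → ℤ, ξ ∈ principalBlock M H →
      ∀ y : H, ¬ p ∣ orderOf y → (ξ : H → ℂ) y =
        ∑ χ ∈ X, (a χ : ℂ) * (χ : H ⧸ Z → ℂ) (QuotientGroup.mk y) := by
    intro ξ
    by_cases hξ : ξ ∈ principalBlock M H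
    · obtain ⟨ψ, hψ, hval⟩ := hdom ξ hξ
      obtain ⟨cf, hcfv⟩ := hcf ψ hψ
      refine ⟨cf, fun _ y hy => ?_⟩
      rw [hval y hy]
      apply hcfv
      intro hdvd
      exact hy (hdvd.trans (orderOf_map_dvd (QuotientGroup.mk' Z) y))
    · exact ⟨fun _ => 0, fun h => absurd h hξ⟩
  choose a ha using ha
  have he1 : 1 ≤ e := by
    rcases Nat.eq_zero_or_pos e with h0 | h0
    · rw [h0, zero_mul, zero_add] at het
      exact absurd het.symm hp.one_lt.ne'
    · exact h0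
  refine ⟨e, he1, ?_, ?_⟩
  · -- the rank
    rw [← hXcard]
    apply blockRank_le_card_of_span p _ X (fun χ : IrrCharacter (H ⧸ Z) =>
      pRegularPart p (fun y : H => (χ : H ⧸ Z → ℂ) (QuotientGroup.mk y)))
    intro ξ hξ
    have h1 : pRegularPart p (ξ : H → ℂ) = ∑ χ ∈ X, (a ξ χ : ℂ) •
        pRegularPart p (fun y : H => (χ : H ⧸ Z → ℂ) (QuotientGroup.mk y)) := by
      funext y
      rw [Finset.sum_apply]
      by_cases hy : p ∣ orderOf y
      · rw [Cfsg.Agent.H81.pRegularPart_of_dvd p _ hy]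
        symm
        apply Finset.sum_eq_zero
        intro χ _
        rw [Pi.smul_apply, Cfsg.Agent.H81.pRegularPart_of_dvd p _ hy, smul_zero]
      · rw [Cfsg.Agent.H81.pRegularPart_of_not_dvd p _ hy, ha ξ hξ y hy]
        apply Finset.sum_congr rfl
        intro χ _
        rw [Pi.smul_apply, Cfsg.Agent.H81.pRegularPart_of_not_dvd p _ hy, smul_eq_mul]
    rw [h1]
    apply Submodule.sum_mem
    intro χ hχ
    apply Submodule.smul_mem
    apply Submodule.subset_span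
    exact ⟨χ, hχ, rfl⟩
  · intro u hne
    obtain ⟨v, hv⟩ : ∃ v : IrrCharacter (H ⧸ Z) → ℤ,
        v = fun χ => ∑ ξ ∈ irrFinset (principalBlock M H), u ξ * a ξ χ := ⟨_, rfl⟩
    obtain ⟨Φ, hΦ⟩ : ∃ Φ : H ⧸ Z → ℂ,
        Φ = fun k => ∑ χ ∈ X, (v χ : ℂ) * (χ : H ⧸ Z → ℂ) k := ⟨_, rfl⟩
    obtain ⟨F, hF⟩ : ∃ F : H → ℂ, F = ∑ ξ ∈ irrFinset (principalBlock M H),
        (u ξ : ℂ) • pRegularPart p (ξ : H → ℂ) := ⟨_, rfl⟩
    rw [← hF] at hne ⊢
    have hFreg : ∀ y : H, ¬ p ∣ orderOf y → F y = Φ (QuotientGroup.mk y) := by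
      intro y hy
      rw [hF, Finset.sum_apply, hΦ]
      simp only [Pi.smul_apply, smul_eq_mul]
      rw [Finset.sum_congr rfl (fun ξ hξ => by
        rw [Cfsg.Agent.H81.pRegularPart_of_not_dvd p _ hy, ha ξ (mem_irrFinset.mp hξ) y hy,
          Finset.mul_sum])]
      rw [Finset.sum_comm]
      apply Finset.sum_congr rfl
      intro χ _
      rw [hv]
      push_cast
      rw [Finset.sum_mul]
      apply Finset.sum_congr rfl
      intro ξ _
      ring
    have hFsing : ∀ y : H, p ∣ orderOf y → F y = 0 := by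
      intro y hy
      rw [hF, Finset.sum_apply]
      apply Finset.sum_eq_zero
      intro ξ _
      rw [Pi.smul_apply, Cfsg.Agent.H81.pRegularPart_of_dvd p _ hy, smul_zero]
    have hvne : ∃ χ ∈ X, v χ ≠ 0 := by
      by_contra hall
      push_neg at hall
      apply hne
      funext y
      by_cases hy : p ∣ orderOf y
      · exact hFsing y hy
      · rw [hFreg y hy, hΦ]
        apply Finset.sum_eq_zero
        intro χ hχ
        rw [hall χ hχ]
        simp
    have hqf := Cfsg.Agent.H40.K0.quad_form_bound X p e t het ht hXcard w hw v hvne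
    obtain ⟨qv, hqv⟩ : ∃ qv : ℤ,
        qv = p * ∑ χ ∈ X, v χ ^ 2 - t * (∑ χ ∈ X, w χ * v χ) ^ 2 := ⟨_, rfl⟩
    rw [← hqv] at hqf
    have hK0 : (Nat.card (H ⧸ Z) : ℂ) ≠ 0 := by
      exact_mod_cast (Nat.card_pos (α := H ⧸ Z)).ne'
    -- the sum as a sum over the quotient
    have hsum1 : ((∑ c : H, ‖F c‖ ^ 2 : ℝ) : ℂ) =
        regSum p (fun k : H ⧸ Z => Φ k * conj (Φ k)) := by
      rw [← Cfsg.Agent.H79.regSum_comp_mk Z hZp hsup (fun k : H ⧸ Z => Φ k * conj (Φ k))]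
      unfold regSum
      push_cast
      apply Finset.sum_congr rfl
      intro c _
      by_cases hc : p ∣ orderOf c
      · rw [Cfsg.Agent.H81.pRegularPart_of_dvd p _ hc, hFsing c hc]
        simp
      · rw [Cfsg.Agent.H81.pRegularPart_of_not_dvd p _ hc, hFreg c hc, Complex.mul_conj']
    have hsum2 : regSum p (fun k : H ⧸ Z => Φ k * conj (Φ k)) =
        ∑ χ ∈ X, ∑ χ' ∈ X, (v χ : ℂ) * (v χ' : ℂ) * ((Nat.card (H ⧸ Z) : ℂ) *
          classInner (pRegularPart p (χ : H ⧸ Z → ℂ)) (χ' : H ⧸ Z → ℂ)) := by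
      have h1 : ∀ χ χ' : IrrCharacter (H ⧸ Z), (Nat.card (H ⧸ Z) : ℂ) *
          classInner (pRegularPart p (χ : H ⧸ Z → ℂ)) (χ' : H ⧸ Z → ℂ) =
          ∑ k : H ⧸ Z, pRegularPart p (χ : H ⧸ Z → ℂ) k * conj ((χ' : H ⧸ Z → ℂ) k) := by
        intro χ χ'
        unfold classInner
        rw [← mul_assoc, mul_inv_cancel₀ hK0, one_mul]
      simp only [h1]
      unfold regSum
      simp only [Finset.mul_sum]
      rw [Finset.sum_congr rfl (fun χ _ => Finset.sum_comm)]
      rw [Finset.sum_comm]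
      apply Finset.sum_congr rfl
      intro k _
      by_cases hk : p ∣ orderOf k
      · rw [Cfsg.Agent.H81.pRegularPart_of_dvd p _ hk]
        symm
        apply Finset.sum_eq_zero
        intro χ _
        apply Finset.sum_eq_zero
        intro χ' _
        rw [Cfsg.Agent.H81.pRegularPart_of_dvd p _ hk]
        ring
      · rw [Cfsg.Agent.H81.pRegularPart_of_not_dvd p _ hk, hΦ]
        simp only [map_sum, map_mul, map_intCast]
        rw [Finset.sum_mul_sum]
        apply Finset.sum_congr rfl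
        intro χ _
        apply Finset.sum_congr rfl
        intro χ' _
        rw [Cfsg.Agent.H81.pRegularPart_of_not_dvd p _ hk]
        ring
    have hsum3 : (p : ℂ) * regSum p (fun k : H ⧸ Z => Φ k * conj (Φ k)) =
        (Nat.card (H ⧸ Z) : ℂ) * (qv : ℂ) := by
      rw [hsum2, Finset.mul_sum]
      have h1 : ∀ χ ∈ X, (p : ℂ) * ∑ χ' ∈ X, (v χ : ℂ) * (v χ' : ℂ) * ((Nat.card (H ⧸ Z) : ℂ) *
          classInner (pRegularPart p (χ : H ⧸ Z → ℂ)) (χ' : H ⧸ Z → ℂ)) =
          (Nat.card (H ⧸ Z) : ℂ) * ((p : ℂ) * (v χ : ℂ) ^ 2 -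
            (t : ℂ) * ((w χ : ℂ) * (v χ : ℂ)) * ∑ χ' ∈ X, (w χ' : ℂ) * (v χ' : ℂ)) := by
        intro χ hχ
        rw [Finset.mul_sum]
        have h2 : ∀ χ' ∈ X, (p : ℂ) * ((v χ : ℂ) * (v χ' : ℂ) * ((Nat.card (H ⧸ Z) : ℂ) *
            classInner (pRegularPart p (χ : H ⧸ Z → ℂ)) (χ' : H ⧸ Z → ℂ))) =
            (Nat.card (H ⧸ Z) : ℂ) * ((if χ = χ' then (p : ℂ) * (v χ : ℂ) ^ 2 else 0) -
              (t : ℂ) * ((w χ : ℂ) * (v χ : ℂ)) * ((w χ' : ℂ) * (v χ' : ℂ))) := by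
          intro χ' hχ'
          have h3 := hgram χ hχ χ' hχ'
          calc (p : ℂ) * ((v χ : ℂ) * (v χ' : ℂ) * ((Nat.card (H ⧸ Z) : ℂ) *
                classInner (pRegularPart p (χ : H ⧸ Z → ℂ)) (χ' : H ⧸ Z → ℂ)))
              = (v χ : ℂ) * (v χ' : ℂ) * (Nat.card (H ⧸ Z) : ℂ) * ((p : ℂ) *
                classInner (pRegularPart p (χ : H ⧸ Z → ℂ)) (χ' : H ⧸ Z → ℂ)) := by ring
            _ = _ := by
                rw [h3]
                by_cases hχχ : χ = χ'
                · rw [if_pos hχχ, if_pos hχχ, ← hχχ]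
                  ring
                · rw [if_neg hχχ, if_neg hχχ]
                  ring
        rw [Finset.sum_congr rfl h2, ← Finset.mul_sum, Finset.sum_sub_distrib,
          Finset.sum_ite_eq X χ, if_pos hχ, ← Finset.mul_sum]
      rw [Finset.sum_congr rfl h1, ← Finset.mul_sum, hqv]
      congr 1
      push_cast
      rw [Finset.sum_sub_distrib, ← Finset.mul_sum, ← Finset.sum_mul, ← Finset.mul_sum]
      ring
    -- conclusion
    have hreal : (∑ c : H, ‖F c‖ ^ 2) * (p : ℝ) = (Nat.card (H ⧸ Z) : ℝ) * (qv : ℝ) := by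
      apply Complex.ofReal_injective
      push_cast
      have := hsum3
      rw [← hsum1] at this
      push_cast at this
      rw [mul_comm]
      exact this
    have hcard : (Nat.card H : ℝ) = (Nat.card (H ⧸ Z) : ℝ) * (p : ℝ) := by
      have h1 := Subgroup.card_eq_card_quotient_mul_card_subgroup Z
      rw [hZ] at h1
      exact_mod_cast h1
    have hp0 : (0 : ℝ) < (p : ℝ) := by exact_mod_cast hp.pos
    have hKpos : (0 : ℝ) < (Nat.card (H ⧸ Z) : ℝ) := by
      exact_mod_cast (Nat.card_pos (α := H ⧸ Z))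
    have hqf' : (e : ℝ) ≤ (qv : ℝ) := by exact_mod_cast hqf
    rw [hcard, div_le_iff₀ (by positivity)]
    calc (Nat.card (H ⧸ Z) : ℝ) * (p : ℝ) * (e : ℝ)
        ≤ (Nat.card (H ⧸ Z) : ℝ) * (p : ℝ) * (qv : ℝ) :=
          mul_le_mul_of_nonneg_left hqf' (by positivity)
      _ = ((∑ c : H, ‖F c‖ ^ 2) * (p : ℝ)) * (p : ℝ) := by rw [hreal]; ring
      _ = (∑ c : H, ‖F c‖ ^ 2) * (p : ℝ) ^ 2 := by ring

end K0C

end Cfsg.Agent.H84
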