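/-
helper84 library (S4588): the number of characters of `p'`-degree in the principal block, when a
`p`-element has a centralizer with small Sylow `p`-subgroups.

* `card_le_sq_of_small_centralizer`: if `x` has order `p^k`, `C = C_G(x)` has `|C|_p ≤ p²` and
  `|C|_p ≤ p^{k+1}`, then the principal block of `G` has at most `p²` characters of degree prime
  to `p`.
-/
import Mathlib
import Cfsg.Prelude.Def_Blocks
import Cfsg.Prelude.Def_BlockRank
import Cfsg.Agent.H84.K0A
import Cfsg.Agent.H84.K0B
import Cfsg.Agent.H84.K0C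
import Cfsg.Agent.H90.K0TW
import Cfsg.Agent.H90.K0NC
import Cfsg.Agent.H12.K0DOM

set_option autoImplicit false
set_option linter.style.haveILetI false
set_option linter.unusedSectionVars false
set_option linter.unusedVariables false

namespace Cfsg.Agent.H84

open Cfsg Cfsg.Agent.H4 Cfsg.Agent.H20
open scoped ComplexConjugate

universe u

section K0D

variable {G : Type u} [Group G] [Fintype G] {p : ℕ} [Fact p.Prime] {M : Ideal AlgInt}

/-- If `x` has order `p^k`, `C = C_G(x)` has `|C|_p ≤ p²` and `|C|_p ≤ p^{k+1}` (and `k ≥ 1`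
unless `p ∤ |C|`), then the principal block of `G` has at most `p²` characters of degree prime
to `p`. -/
theorem card_le_sq_of_small_centralizer (hM : IsPModular p M) (h2 : SecondMain p M G) (x : G)
    (k : ℕ) (hxk : orderOf x = p ^ k) (C : Subgroup G) [Fintype C]
    (hxC : ∀ c ∈ C, x * c = c * x) (hCx : ∀ g : G, g * x = x * g → g ∈ C)
    (hC2 : (Nat.card C).factorization p ≤ 2)
    (hCk : (Nat.card C).factorization p ≤ k + 1)
    (hk1 : 1 ≤ k ∨ (Nat.card C).factorization p = 0)
    (hind : IsInducedBlock M C (principalBlock M ↥C) (principalBlock M G))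
    (S : Finset (IrrCharacter G))
    (hS : ∀ χ ∈ S, χ ∈ principalBlock M G ∧ ¬ p ∣ charDegree (χ : G → ℂ)) :
    S.card ≤ p ^ 2 := by
  classical
  have hp : p.Prime := hM.1
  have hxmem : x ∈ C := hCx x rfl
  -- heights and defects
  have hS' : ∀ χ ∈ S, χ ∈ principalBlock M G ∧
      blockHeight p (principalBlock M G) (χ : G → ℂ) = 0 := by
    intro χ hχ
    refine ⟨(hS χ hχ).1, ?_⟩
    unfold blockHeight
    rw [Nat.factorization_eq_zero_of_not_dvd (hS χ hχ).2, Nat.zero_sub]
  have hdef : blockDefect p (principalBlock M ↥C) ≤ 2 := by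
    unfold blockDefect
    exact (Nat.sub_le _ _).trans hC2
  -- the central element
  obtain ⟨z, hzdef⟩ : ∃ z : C, z = ⟨x, hxmem⟩ := ⟨_, rfl⟩
  have hz : z ∈ Subgroup.center C := by
    rw [Subgroup.mem_center_iff]
    intro c
    apply Subtype.ext
    rw [hzdef]
    exact (hxC c c.2).symm
  have hzo : orderOf z = p ^ k := by
    rw [← hxk, hzdef, ← Subgroup.orderOf_coe]
  haveI hZn : (Subgroup.zpowers z).Normal := by
    constructor
    intro n hn g
    have hn' : n ∈ Subgroup.center C := (Subgroup.zpowers_le.mpr hz) hn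
    have h1 : g * n * g⁻¹ = n := by
      have h2 := Subgroup.mem_center_iff.mp hn' g
      rw [h2, mul_inv_cancel_right]
    rw [h1]
    exact hn
  letI : Fintype (C ⧸ Subgroup.zpowers z) := Fintype.ofFinite _
  -- the Sylow subgroups of `C` are abelian
  obtain ⟨P⟩ : Nonempty (Sylow p C) := inferInstance
  have hPcomm : ∀ a ∈ (P : Subgroup C), ∀ b ∈ (P : Subgroup C), a * b = b * a := by
    have hcard := P.card_eq_multiplicity
    obtain ⟨δ, hδ⟩ : ∃ δ, δ = (Nat.card C).factorization p := ⟨_, rfl⟩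
    rw [← hδ] at hcard hC2
    have hcomm : ∀ a b : (P : Subgroup C), a * b = b * a := by
      interval_cases δ
      · rw [pow_zero] at hcard
        haveI : Subsingleton (P : Subgroup C) := (Nat.card_eq_one_iff_unique.mp hcard).1
        intro a b
        rw [Subsingleton.elim a b]
      · rw [pow_one] at hcard
        haveI := isCyclic_of_prime_card hcard
        intro a b
        exact IsMulCommutative.is_comm.comm a b
      · haveI := IsPGroup.isMulCommutative_of_card_eq_prime_sq hcard
        intro a b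
        exact IsMulCommutative.is_comm.comm a b
    intro a ha b hb
    exact congrArg Subtype.val (hcomm ⟨a, ha⟩ ⟨b, hb⟩)
  have htw : ∀ ω : ℂˣ, ω ^ orderOf z = 1 →
      ∃ τ : C →* ℂˣ, τ z = ω ∧ ∀ y : C, ¬ p ∣ orderOf y → τ y = 1 :=
    fun ω hω => Cfsg.Agent.H90.K0.exists_twist p P hPcomm z hz ⟨k, hzo⟩ ω hω
  have hdom : ∀ ξ ∈ principalBlock M C, ∃ ψ : IrrCharacter (C ⧸ Subgroup.zpowers z),
      ψ ∈ principalBlock M (C ⧸ Subgroup.zpowers z) ∧
      ∀ y : C, ¬ p ∣ orderOf y →
        (ξ : C → ℂ) y = (ψ : C ⧸ Subgroup.zpowers z → ℂ) (QuotientGroup.mk y) :=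
    fun ξ hξ => Cfsg.Agent.H12.K0.exists_quot_char p M hM z hz ⟨k, hzo⟩ htw ξ hξ
  -- the Sylow subgroups of the quotient
  obtain ⟨Q⟩ : Nonempty (Sylow p (C ⧸ Subgroup.zpowers z)) := inferInstance
  have hQcard := Q.card_eq_multiplicity
  have hfac : (Nat.card C).factorization p =
      (Nat.card (C ⧸ Subgroup.zpowers z)).factorization p + k := by
    have h1 := Subgroup.card_eq_card_quotient_mul_card_subgroup (Subgroup.zpowers z)
    rw [Nat.card_zpowers, hzo] at h1
    rw [h1, Nat.factorization_mul Nat.card_pos.ne' (pow_pos hp.pos k).ne', Finsupp.add_apply,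
      hp.factorization_pow, Finsupp.single_eq_same]
  have hind' : IsInducedBlock M C
      (blockOf M ((Cfsg.Agent.H80.trivChar C : IrrCharacter C) : C → ℂ)) (principalBlock M G) :=
    hind
  by_cases hcase : Nat.card Q = 1 ∨ (p = 2 ∧ Nat.card Q = 2)
  · -- the quotient has a normal `p`-complement
    obtain ⟨N, hNn, hN⟩ := Cfsg.Agent.H90.K0.exists_normal_regular p Q hcase
    haveI := hNn
    have hconst : ∀ ξ ∈ principalBlock M C, ∀ y : C, ¬ p ∣ orderOf y →
        (ξ : C → ℂ) y = (ξ : C → ℂ) 1 := by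
      intro ξ hξ y hy
      obtain ⟨ψ, hψ, hval⟩ := hdom ξ hξ
      have hy' : ¬ p ∣ orderOf (QuotientGroup.mk y : C ⧸ Subgroup.zpowers z) := fun hdvd =>
        hy (hdvd.trans (orderOf_map_dvd (QuotientGroup.mk' (Subgroup.zpowers z)) y))
      have h1 : ¬ p ∣ orderOf (1 : C) := by
        rw [orderOf_one]
        exact fun h => hp.one_lt.ne' (Nat.dvd_one.mp h)
      rw [hval y hy, hval 1 h1, principal_const_of_normal hM N hN ψ hψ _ hy',
        QuotientGroup.mk_one]
    have hrank := blockRank_le_one_of_const p (principalBlock M C) hconst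
    exact card_le_of_rank_one hM h2 x ⟨k, hxk⟩ C hxC hCx (Cfsg.Agent.H80.trivChar C)
      (principalBlock M G) hind' hrank hdef S hS'
  · -- the quotient has Sylow subgroups of order `p`, `p` odd
    have hQp : Nat.card Q = p ∧ p ≠ 2 ∧ k = 1 := by
      obtain ⟨ν, hν⟩ : ∃ ν, ν = (Nat.card (C ⧸ Subgroup.zpowers z)).factorization p := ⟨_, rfl⟩
      rw [← hν] at hQcard hfac
      have hν1 : ν = 1 := by
        have h1 : ν ≤ 1 := by omega
        interval_cases ν
        · exfalso
          apply hcase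
          left
          rw [hQcard, pow_zero]
        · rfl
      rw [hν1, pow_one] at hQcard
      refine ⟨hQcard, ?_, ?_⟩
      · intro h2
        apply hcase
        right
        exact ⟨h2, by rw [hQcard, h2]⟩
      · omega
    obtain ⟨hQp, hodd, hk⟩ := hQp
    have hZcard : Nat.card (Subgroup.zpowers z) = p := by
      rw [Nat.card_zpowers, hzo, hk, pow_one]
    obtain ⟨e, he1, hrank, hlat⟩ := lattice_of_quotient hM hodd (Subgroup.zpowers z) hZcard
      (Subgroup.zpowers_le.mpr hz) Q hQp hdom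
    have hxp : orderOf x = p := by rw [hxk, hk, pow_one]
    have hCpos : (0 : ℝ) < (Nat.card C : ℝ) := by exact_mod_cast Nat.card_pos
    have he : (0 : ℝ) < (e : ℝ) := by exact_mod_cast he1
    have hp0 : (0 : ℝ) < (p : ℝ) := by exact_mod_cast hp.pos
    have hα : (0 : ℝ) ≤ (Nat.card C : ℝ) * e / p ^ 2 := by positivity
    have hmain := card_mul_le_of_lattice hM h2 x hxp C hxC hCx (Cfsg.Agent.H80.trivChar C)
      (principalBlock M G) hind' _ hα hlat S hS'
    have hrank' : (blockRank p
        (blockOf M ((Cfsg.Agent.H80.trivChar C : IrrCharacter C) : C → ℂ)) : ℝ) ≤ e := by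
      exact_mod_cast hrank
    have h3 : (S.card : ℝ) * ((Nat.card C : ℝ) * e / p ^ 2) ≤ (Nat.card C : ℝ) * e :=
      hmain.trans (mul_le_mul_of_nonneg_left hrank' hCpos.le)
    have h4 : (S.card : ℝ) ≤ (p : ℝ) ^ 2 := by
      have h5 : (S.card : ℝ) * ((Nat.card C : ℝ) * e) ≤ (p : ℝ) ^ 2 * ((Nat.card C : ℝ) * e) := by
        have h6 := mul_le_mul_of_nonneg_right h3 (by positivity : (0 : ℝ) ≤ (p : ℝ) ^ 2)
        have h7 : (S.card : ℝ) * ((Nat.card C : ℝ) * e / p ^ 2) * (p : ℝ) ^ 2 =
            (S.card : ℝ) * ((Nat.card C : ℝ) * e) := by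
          rw [mul_assoc, div_mul_cancel₀ _ (pow_pos hp0 2).ne']
        rw [h7] at h6
        linarith
      exact le_of_mul_le_mul_right h5 (by positivity)
    exact_mod_cast h4

end K0D

end Cfsg.Agent.H84
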