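import Mathlib
import Cfsg.Agent.H83.PCDefs
import Cfsg.Agent.H6.SpCenter

/-!
# S3366 (team project, helper83): piece PC-CENT — the centralizer in `PSp(4,3)` of the image
`c0` of the transvection `t0` is the isomorphic image of the stabilizer `Stab3` of `e0` in
`Sp(4,3)`, and `c0` has order 3.

`t0 = 1 + e0 ⊗ f0`, `f0 = J e0`.  An element `g` of `Stab3` fixes `e0` and (being symplectic)
`f0 ᵥ* g = f0`, so it commutes with `t0`.  Conversely if the class of `g` centralizes `c0`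
then `g t0 = ± t0 g`; the sign `-` is impossible (cubes), so `g e0 = λ e0`, `λ = ± 1`, and `g`
or `-g` lies in `Stab3`.
-/

set_option autoImplicit false

namespace Cfsg.Agent.H84.PC

open Matrix Cfsg.Agent.H83.PC Cfsg.Agent.H6

/-- the vector `f0 = J e0` -/
def f0 : Fin 2 ⊕ Fin 2 → ZMod 3 := Pi.single (Sum.inr 0) 1

theorem t0_val : (t0 : Matrix.symplecticGroup (Fin 2) (ZMod 3)).1 = 1 + vecMulVec e0 f0 := by
  decide

theorem J_e0 : J (Fin 2) (ZMod 3) *ᵥ e0 = f0 := by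
  decide

theorem t0_cube : t0 * t0 * t0 = 1 := by
  apply Subtype.ext
  decide

theorem t0_neg_cube : (t0 * spNegOne (Fin 2) (ZMod 3)) * (t0 * spNegOne (Fin 2) (ZMod 3)) *
    (t0 * spNegOne (Fin 2) (ZMod 3)) ≠ 1 := by
  intro h
  have h1 := congrArg Subtype.val h
  revert h1
  decide

theorem t0_ne_one : t0 ≠ 1 := by
  intro h
  have h1 := congrArg Subtype.val h
  revert h1
  decide

theorem t0_ne_neg : t0 ≠ spNegOne (Fin 2) (ZMod 3) := by
  intro h
  have h1 := congrArg Subtype.val h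
  revert h1
  decide

theorem neg_e0_ne : -e0 ≠ e0 := by
  decide

theorem mem_center_iff (z : Matrix.symplecticGroup (Fin 2) (ZMod 3)) :
    z ∈ Subgroup.center (Matrix.symplecticGroup (Fin 2) (ZMod 3)) ↔
      z = 1 ∨ z = spNegOne (Fin 2) (ZMod 3) := by
  rw [← SetLike.mem_coe, center_symplectic_eq]
  simp only [Set.mem_insert_iff, Set.mem_singleton_iff]

theorem negOne_mem_center :
    spNegOne (Fin 2) (ZMod 3) ∈ Subgroup.center (Matrix.symplecticGroup (Fin 2) (ZMod 3)) :=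
  (mem_center_iff _).mpr (Or.inr rfl)

/-- the row `inr 0` of an element of the stabilizer -/
theorem stab_row (g : Matrix.symplecticGroup (Fin 2) (ZMod 3)) (hg : g.1 *ᵥ e0 = e0) :
    f0 ᵥ* g.1 = f0 := by
  have h1 : g.1ᵀ * J (Fin 2) (ZMod 3) * g.1 = J (Fin 2) (ZMod 3) := SymplecticGroup.mem_iff'.mp g.2
  have h2 : (g.1ᵀ * J (Fin 2) (ZMod 3) * g.1) *ᵥ e0 = J (Fin 2) (ZMod 3) *ᵥ e0 := by rw [h1]
  rw [← Matrix.mulVec_mulVec, hg, ← Matrix.mulVec_mulVec, J_e0, Matrix.mulVec_transpose] at h2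
  exact h2

/-- elements of the stabilizer commute with `t0` -/
theorem stab_comm (g : Matrix.symplecticGroup (Fin 2) (ZMod 3)) (hg : g ∈ Stab3) :
    t0 * g = g * t0 := by
  have hg' : g.1 *ᵥ e0 = e0 := hg
  apply Subtype.ext
  show t0.1 * g.1 = g.1 * t0.1
  rw [t0_val, mul_add, add_mul, mul_one, one_mul, Matrix.mul_vecMulVec, Matrix.vecMulVec_mul, hg',
    stab_row g hg']

/-- an element commuting with `t0` has `e0` as an eigenvector -/
theorem comm_eig (g : Matrix.symplecticGroup (Fin 2) (ZMod 3)) (h : t0 * g = g * t0) :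
    g.1 *ᵥ e0 = g.1 (Sum.inr 0) (Sum.inr 0) • e0 := by
  have h1 : t0.1 * g.1 = g.1 * t0.1 := congrArg Subtype.val h
  rw [t0_val, mul_add, add_mul, mul_one, one_mul, Matrix.mul_vecMulVec, Matrix.vecMulVec_mul] at h1
  have h2 : vecMulVec e0 (f0 ᵥ* g.1) = vecMulVec (g.1 *ᵥ e0) f0 := add_left_cancel h1
  funext i
  have h3 := congrFun (congrFun h2 i) (Sum.inr 0)
  rw [vecMulVec_apply, vecMulVec_apply] at h3
  have h4 : f0 (Sum.inr 0) = 1 := by decide
  have h5 : (f0 ᵥ* g.1) (Sum.inr 0) = g.1 (Sum.inr 0) (Sum.inr 0) := by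
    show (Pi.single (Sum.inr 0) 1 ᵥ* g.1) (Sum.inr 0) = _
    rw [Matrix.single_one_vecMul]
    rfl
  rw [h4, h5, mul_one] at h3
  rw [← h3, Pi.smul_apply, smul_eq_mul, mul_comm]

/-- the homomorphism `Stab3 → C(c0)` -/
def phiC : ↥Stab3 →* ↥(Subgroup.centralizer ({c0} : Set (Cfsg.PSp 2 (ZMod 3)))) where
  toFun g := ⟨QuotientGroup.mk g.1, by
    rw [Subgroup.mem_centralizer_iff]
    intro h hh
    rw [Set.mem_singleton_iff] at hh
    rw [hh]
    show (QuotientGroup.mk t0 : Cfsg.PSp 2 (ZMod 3)) * QuotientGroup.mk g.1 =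
      QuotientGroup.mk g.1 * QuotientGroup.mk t0
    rw [← QuotientGroup.mk_mul, ← QuotientGroup.mk_mul, stab_comm g.1 g.2]⟩
  map_one' := rfl
  map_mul' _ _ := rfl

theorem phiC_inj : Function.Injective phiC := by
  rw [injective_iff_map_eq_one]
  intro g hg
  have h1 : (QuotientGroup.mk g.1 : Cfsg.PSp 2 (ZMod 3)) = 1 := congrArg Subtype.val hg
  rw [QuotientGroup.eq_one_iff, mem_center_iff] at h1
  rcases h1 with h1 | h1
  · exact Subtype.ext h1
  · exfalso
    have h2 : g.1.1 *ᵥ e0 = e0 := g.2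
    rw [h1] at h2
    have h3 : (spNegOne (Fin 2) (ZMod 3)).1 = -1 := rfl
    rw [h3, Matrix.neg_mulVec, Matrix.one_mulVec] at h2
    exact neg_e0_ne h2

theorem phiC_surj : Function.Surjective phiC := by
  rintro ⟨x, hx⟩
  obtain ⟨g, rfl⟩ := QuotientGroup.mk_surjective x
  rw [Subgroup.mem_centralizer_iff] at hx
  have h1 : (QuotientGroup.mk t0 : Cfsg.PSp 2 (ZMod 3)) * QuotientGroup.mk g =
      QuotientGroup.mk g * QuotientGroup.mk t0 := hx c0 rfl
  rw [← QuotientGroup.mk_mul, ← QuotientGroup.mk_mul, eq_comm, QuotientGroup.eq,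
    mem_center_iff] at h1
  have hcomm : t0 * g = g * t0 := by
    rcases h1 with h1 | h1
    · have := inv_mul_eq_one.mp h1
      exact this.symm
    · exfalso
      -- `t0 * g = g * t0 * (-1)`
      have h2 : t0 * g = g * (t0 * spNegOne (Fin 2) (ZMod 3)) := by
        have := inv_mul_eq_iff_eq_mul.mp h1
        rw [this, mul_assoc]
      have h3 : g⁻¹ * t0 * g = t0 * spNegOne (Fin 2) (ZMod 3) := by
        rw [mul_assoc, h2, inv_mul_cancel_left]
      apply t0_neg_cube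
      rw [← h3]
      have h4 : g⁻¹ * t0 * g * (g⁻¹ * t0 * g) * (g⁻¹ * t0 * g) = g⁻¹ * (t0 * t0 * t0) * g := by
        group
      rw [h4, t0_cube, mul_one, inv_mul_cancel]
  have heig := comm_eig g hcomm
  set c : ZMod 3 := g.1 (Sum.inr 0) (Sum.inr 0) with hc
  have hc0 : c ≠ 0 := by
    intro h0
    rw [h0, zero_smul] at heig
    have h5 : (g⁻¹ * g).1 *ᵥ e0 = 0 := by
      have : (g⁻¹ * g).1 = (g⁻¹).1 * g.1 := rfl
      rw [this, ← Matrix.mulVec_mulVec, heig, Matrix.mulVec_zero]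
    rw [inv_mul_cancel] at h5
    have h6 : (1 : Matrix.symplecticGroup (Fin 2) (ZMod 3)).1 = 1 := rfl
    rw [h6, Matrix.one_mulVec] at h5
    revert h5
    decide
  have hc1 : c = 1 ∨ c = -1 := by
    revert hc0
    generalize c = d
    revert d
    decide
  rcases hc1 with hc1 | hc1
  · rw [hc1, one_smul] at heig
    exact ⟨⟨g, heig⟩, rfl⟩
  · rw [hc1, neg_smul, one_smul] at heig
    have hmem : spNegOne (Fin 2) (ZMod 3) * g ∈ Stab3 := by
      show (spNegOne (Fin 2) (ZMod 3) * g).1 *ᵥ e0 = e0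
      have : (spNegOne (Fin 2) (ZMod 3) * g).1 = (-1 : Matrix _ _ (ZMod 3)) * g.1 := rfl
      rw [this, ← Matrix.mulVec_mulVec, heig, Matrix.neg_mulVec, Matrix.one_mulVec, neg_neg]
    refine ⟨⟨spNegOne (Fin 2) (ZMod 3) * g, hmem⟩, ?_⟩
    apply Subtype.ext
    show (QuotientGroup.mk (spNegOne (Fin 2) (ZMod 3) * g) : Cfsg.PSp 2 (ZMod 3)) =
      QuotientGroup.mk g
    rw [QuotientGroup.mk_mul, (QuotientGroup.eq_one_iff _).mpr negOne_mem_center, one_mul]

theorem c0_order : orderOf c0 = 3 := by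
  have : Fact (Nat.Prime 3) := ⟨by norm_num⟩
  apply orderOf_eq_prime
  · show (QuotientGroup.mk t0 : Cfsg.PSp 2 (ZMod 3)) ^ 3 = 1
    rw [← QuotientGroup.mk_pow, pow_succ, pow_two, t0_cube]
    rfl
  · intro h
    have h1 : (QuotientGroup.mk t0 : Cfsg.PSp 2 (ZMod 3)) = 1 := h
    rw [QuotientGroup.eq_one_iff, mem_center_iff] at h1
    rcases h1 with h1 | h1
    · exact t0_ne_one h1
    · exact t0_ne_neg h1

/-- (PC-CENT) -/
theorem cent : StCent :=
  ⟨c0_order, ⟨MulEquiv.ofBijective phiC ⟨phiC_inj, phiC_surj⟩⟩⟩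

example : StCent =
    (orderOf c0 = 3 ∧
    Nonempty (↥Stab3 ≃* ↥(Subgroup.centralizer ({c0} : Set (Cfsg.PSp 2 (ZMod 3)))))) :=
  rfl

end Cfsg.Agent.H84.PC
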