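/-
helper84 library: sums of class functions over conjugation- and inversion-closed sets, pairing a
class with its inverse class.
-/
import Mathlib
import Cfsg.Agent.H20.ClassSum

set_option autoImplicit false
set_option linter.style.haveILetI false
set_option linter.unusedSectionVars false
set_option linter.unusedVariables false

namespace Cfsg.Agent.H84

open Cfsg Cfsg.Agent.H20

variable {G : Type*} [Group G]

theorem isConj_inv_inv {a b : G} (h : IsConj a b) : IsConj a⁻¹ b⁻¹ := by
  obtain ⟨c, hc⟩ := isConj_iff.mp h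
  exact isConj_iff.mpr ⟨c, by rw [← hc]; group⟩

theorem centralizer_inv (h : G) :
    Subgroup.centralizer ({h⁻¹} : Set G) = Subgroup.centralizer ({h} : Set G) := by
  ext x
  simp only [Subgroup.mem_centralizer_iff, Set.mem_singleton_iff, forall_eq]
  constructor
  · intro hx
    have : h * x = h * (x * h⁻¹) * h := by group
    rw [this, ← hx]; group
  · intro hx
    have : h⁻¹ * x = h⁻¹ * (x * h) * h⁻¹ := by group
    rw [this, ← hx]; group

/-- If `f` is a class function such that `|class of h| * f h ∈ I` for real `h` and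
`|class of h| * (f h + f h⁻¹) ∈ I` for non-real `h`, then the sum of `f` over any conjugation-
and inversion-closed finite set lies in the additive subgroup `I`. -/
theorem sum_mem_of_conj_inv_closed [Fintype G] (I : AddSubgroup ℂ) (f : G → ℂ)
    (hf : ∀ h x : G, f (x * h * x⁻¹) = f h)
    (hreal : ∀ h : G, IsConj h h⁻¹ →
      ((Subgroup.centralizer ({h} : Set G)).index : ℂ) * f h ∈ I)
    (hpair : ∀ h : G, ¬ IsConj h h⁻¹ →
      ((Subgroup.centralizer ({h} : Set G)).index : ℂ) * (f h + f h⁻¹) ∈ I) :
    ∀ S : Finset G, (∀ h ∈ S, ∀ x : G, x * h * x⁻¹ ∈ S) → (∀ h ∈ S, h⁻¹ ∈ S) →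
      ∑ h ∈ S, f h ∈ I := by
  classical
  intro S
  induction S using Finset.strongInduction with
  | H S ih =>
    intro hS hSinv
    rcases S.eq_empty_or_nonempty with hempty | ⟨h, hh⟩
    · rw [hempty, Finset.sum_empty]; exact I.zero_mem
    · obtain ⟨L₁, hL₁⟩ : ∃ L₁ : Finset G, L₁ = Finset.univ.filter (fun y => IsConj h y) := ⟨_, rfl⟩
      obtain ⟨L₂, hL₂⟩ : ∃ L₂ : Finset G, L₂ = Finset.univ.filter (fun y => IsConj h⁻¹ y) :=
        ⟨_, rfl⟩
      have hmem₁ : ∀ y, y ∈ L₁ ↔ IsConj h y := by intro y; rw [hL₁]; simp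
      have hmem₂ : ∀ y, y ∈ L₂ ↔ IsConj h⁻¹ y := by intro y; rw [hL₂]; simp
      have hsum₁ : ∑ y ∈ L₁, f y = ((Subgroup.centralizer ({h} : Set G)).index : ℂ) * f h := by
        have : ∀ y ∈ L₁, f y = f h := by
          intro y hy
          obtain ⟨c, hc⟩ := isConj_iff.mp ((hmem₁ y).mp hy)
          rw [← hc, hf]
        rw [Finset.sum_congr rfl this, Finset.sum_const, nsmul_eq_mul, hL₁, card_conj_eq_index]
      have hsum₂ : ∑ y ∈ L₂, f y = ((Subgroup.centralizer ({h} : Set G)).index : ℂ) * f h⁻¹ := by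
        have : ∀ y ∈ L₂, f y = f h⁻¹ := by
          intro y hy
          obtain ⟨c, hc⟩ := isConj_iff.mp ((hmem₂ y).mp hy)
          rw [← hc, hf]
        rw [Finset.sum_congr rfl this, Finset.sum_const, nsmul_eq_mul, hL₂, card_conj_eq_index,
          centralizer_inv]
      have hL₁S : L₁ ⊆ S := by
        intro y hy
        obtain ⟨c, hc⟩ := isConj_iff.mp ((hmem₁ y).mp hy)
        rw [← hc]
        exact hS h hh c
      have hL₂S : L₂ ⊆ S := by
        intro y hy
        obtain ⟨c, hc⟩ := isConj_iff.mp ((hmem₂ y).mp hy)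
        rw [← hc]
        exact hS h⁻¹ (hSinv h hh) c
      have hLS : L₁ ∪ L₂ ⊆ S := Finset.union_subset hL₁S hL₂S
      have hhL : h ∈ L₁ ∪ L₂ := Finset.mem_union_left _ ((hmem₁ h).mpr (IsConj.refl h))
      have hsub : S \ (L₁ ∪ L₂) ⊂ S := by
        refine Finset.ssubset_iff_subset_ne.mpr ⟨Finset.sdiff_subset, ?_⟩
        intro heq
        have : h ∈ S \ (L₁ ∪ L₂) := by rw [heq]; exact hh
        exact (Finset.mem_sdiff.mp this).2 hhL
      have hclosed : ∀ y ∈ S \ (L₁ ∪ L₂), ∀ x : G, x * y * x⁻¹ ∈ S \ (L₁ ∪ L₂) := by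
        intro y hy x
        rw [Finset.mem_sdiff] at hy ⊢
        refine ⟨hS y hy.1 x, ?_⟩
        intro hxy
        apply hy.2
        have hback : IsConj (x * y * x⁻¹) y := isConj_iff.mpr ⟨x⁻¹, by group⟩
        rcases Finset.mem_union.mp hxy with h1 | h1
        · exact Finset.mem_union_left _ ((hmem₁ y).mpr (((hmem₁ _).mp h1).trans hback))
        · exact Finset.mem_union_right _ ((hmem₂ y).mpr (((hmem₂ _).mp h1).trans hback))
      have hclosedinv : ∀ y ∈ S \ (L₁ ∪ L₂), y⁻¹ ∈ S \ (L₁ ∪ L₂) := by
        intro y hy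
        rw [Finset.mem_sdiff] at hy ⊢
        refine ⟨hSinv y hy.1, ?_⟩
        intro hxy
        apply hy.2
        rcases Finset.mem_union.mp hxy with h1 | h1
        · have := isConj_inv_inv ((hmem₁ _).mp h1)
          rw [inv_inv] at this
          exact Finset.mem_union_right _ ((hmem₂ y).mpr this)
        · have := isConj_inv_inv ((hmem₂ _).mp h1)
          rw [inv_inv, inv_inv] at this
          exact Finset.mem_union_left _ ((hmem₁ y).mpr this)
      have h1 := ih (S \ (L₁ ∪ L₂)) hsub hclosed hclosedinv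
      rw [← Finset.sum_sdiff hLS]
      refine I.add_mem h1 ?_
      by_cases hr : IsConj h h⁻¹
      · have hL : L₁ ∪ L₂ = L₁ := by
          ext y
          rw [Finset.mem_union, hmem₁, hmem₂]
          constructor
          · rintro (h2 | h2)
            · exact h2
            · exact hr.trans h2
          · intro h2; exact Or.inl h2
        rw [hL, hsum₁]
        exact hreal h hr
      · have hdisj : Disjoint L₁ L₂ := by
          rw [Finset.disjoint_left]
          intro y hy₁ hy₂
          exact hr (((hmem₁ y).mp hy₁).trans ((hmem₂ y).mp hy₂).symm)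
        rw [Finset.sum_union hdisj, hsum₁, hsum₂, ← mul_add]
        exact hpair h hr

/-- A real class of nontrivial elements of odd order has even size. -/
theorem even_index_centralizer_of_real [Fintype G] (h : G) (hodd : Odd (orderOf h)) (h1 : h ≠ 1)
    (hr : IsConj h h⁻¹) : Even (Subgroup.centralizer ({h} : Set G)).index := by
  classical
  rw [← card_conj_eq_index, ← ZMod.natCast_eq_zero_iff_even, Finset.card_eq_sum_ones,
    Nat.cast_sum]
  simp only [Nat.cast_one]
  refine Finset.sum_involution (fun y _ => y⁻¹) ?_ ?_ ?_ ?_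
  · intro y _; decide
  · intro y hy _ hyy
    rw [Finset.mem_filter] at hy
    have hy2 : y ^ 2 = 1 := by
      rw [pow_two]
      nth_rewrite 1 [← hyy]
      exact inv_mul_cancel y
    have hord : orderOf y = orderOf h := by
      obtain ⟨c, hc⟩ := isConj_iff.mp hy.2
      rw [← hc]
      have := orderOf_injective (MulAut.conj c).toMonoidHom (MulAut.conj c).injective h
      simpa using this
    have hdvd : orderOf y ∣ 2 := orderOf_dvd_of_pow_eq_one hy2
    rw [hord] at hdvd
    have h3 : orderOf h = 1 := by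
      rcases (Nat.dvd_prime Nat.prime_two).mp hdvd with h4 | h4
      · exact h4
      · rw [h4] at hodd; exact absurd hodd (by decide)
    exact h1 (orderOf_eq_one_iff.mp h3)
  · intro y hy
    rw [Finset.mem_filter] at hy ⊢
    exact ⟨Finset.mem_univ _, hr.trans (isConj_inv_inv hy.2)⟩
  · intro y _; exact inv_inv y

end Cfsg.Agent.H84
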