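import Mathlib
import Cfsg.Agent.H97.SuRDefs

/-!
# S2282 piece IRRT (helper84): `SL_k(F)` acts irreducibly (over the prime field) on columns
-/

set_option autoImplicit false

namespace Cfsg.Agent.H84.SuR

open Matrix Cfsg.Agent.H45.U Cfsg.Agent.H97.SuR

variable {F : Type*} [Field F]

theorem irr_core {k : ℕ} (hk : 2 ≤ k) (X : AddSubgroup (Matrix (Fin k) (Fin 1) F))
    (hX : ∀ (i j : Fin k), i ≠ j → ∀ (a : F), ∀ c ∈ X,
      ((1 : Matrix (Fin k) (Fin k) F) + Matrix.single i j a) * c ∈ X)
    (hne : ∃ c ∈ X, c ≠ 0) : ∀ c, c ∈ X := by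
  obtain ⟨c, hc, hc0⟩ := hne
  obtain ⟨j, hj⟩ : ∃ j, c j 0 ≠ 0 := by
    by_contra hcon
    simp only [not_exists, not_not] at hcon
    apply hc0
    ext i z
    have hz : z = 0 := Subsingleton.elim _ _
    subst hz
    simpa using hcon i
  have hsingle : ∀ (i' j' : Fin k) (a : F) (c' : Matrix (Fin k) (Fin 1) F),
      Matrix.single i' j' a * c' = Matrix.single i' (0 : Fin 1) (a * c' j' 0) := by
    intro i' j' a c'
    ext r z
    have hz : z = 0 := Subsingleton.elim _ _
    subst hz
    by_cases hr : r = i'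
    · subst hr; simp
    · rw [Matrix.single_mul_apply_of_ne _ _ _ _ _ hr]
      simp [Ne.symm hr]
  have hdiff : ∀ (i' j' : Fin k), i' ≠ j' → ∀ (a : F), ∀ c' ∈ X,
      Matrix.single i' (0 : Fin 1) (a * c' j' 0) ∈ X := by
    intro i' j' hij a c' hc'
    have h1 := X.sub_mem (hX i' j' hij a c' hc') hc'
    rw [Matrix.add_mul, Matrix.one_mul, add_sub_cancel_left, hsingle] at h1
    exact h1
  have hi : ∀ i : Fin k, i ≠ j → ∀ b : F, Matrix.single i (0 : Fin 1) b ∈ X := by
    intro i hij b
    have h1 := hdiff i j hij (b / c j 0) c hc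
    rwa [div_mul_cancel₀ _ hj] at h1
  have hall : ∀ i : Fin k, ∀ b : F, Matrix.single i (0 : Fin 1) b ∈ X := by
    intro i b
    by_cases hij : i = j
    · subst hij
      obtain ⟨i', hi'⟩ : ∃ i' : Fin k, i' ≠ i := by
        by_cases h0 : (i : ℕ) = 0
        · exact ⟨⟨1, by omega⟩, fun h => by have h' := congrArg Fin.val h; simp at h'; omega⟩
        · exact ⟨⟨0, by omega⟩, fun h => by have h' := congrArg Fin.val h; simp at h'; omega⟩
      have h1 := hdiff i i' (Ne.symm hi') b (Matrix.single i' (0 : Fin 1) 1) (hi i' hi' 1)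
      simpa using h1
    · exact hi i hij b
  intro c'
  have hsum : c' = ∑ i : Fin k, Matrix.single i (0 : Fin 1) (c' i 0) := by
    ext r z
    have hz : z = 0 := Subsingleton.elim _ _
    subst hz
    rw [Matrix.sum_apply]
    simp [Matrix.single_apply]
  rw [hsum]
  exact X.sum_mem (fun i _ => hall i _)

theorem irr_top (σ : F →+* F) (hσ : ∀ a, σ (σ a) = a) {k : ℕ} (hk : 2 ≤ k) :
    IrrU (Set.univ : Set (Matrix.SpecialLinearGroup (Fin k) F)) ∧
      IrrL σ (Set.univ : Set (Matrix.SpecialLinearGroup (Fin k) F)) := by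
  constructor
  · intro X hX hne
    apply irr_core hk X _ hne
    intro i j hij a c hc
    have h1 := hX (Matrix.SpecialLinearGroup.transvection hij a) (Set.mem_univ _) c hc
    rw [Matrix.SpecialLinearGroup.transvection_coe] at h1
    exact h1
  · intro X hX hne
    apply irr_core hk X _ hne
    intro i j hij a c hc
    have h1 := hX (Matrix.SpecialLinearGroup.transvection (Ne.symm hij) (σ a))⁻¹
      (Set.mem_univ _) c hc
    rw [inv_inv, Matrix.SpecialLinearGroup.transvection_coe] at h1
    have h2 : ct σ ((1 : Matrix (Fin k) (Fin k) F) + Matrix.single j i (σ a))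
        = 1 + Matrix.single i j a := by
      rw [ct_add, ct_one]
      congr 1
      ext r s
      rw [ct_apply]
      simp only [Matrix.single_apply]
      by_cases h : j = s ∧ i = r
      · rw [if_pos h, if_pos ⟨h.2, h.1⟩, hσ]
      · rw [if_neg h, if_neg (fun h' => h ⟨h'.2, h'.1⟩), map_zero]
    rw [h2] at h1
    exact h1

example (σ : F →+* F) (hσ : ∀ a, σ (σ a) = a) {k : ℕ} (hk : 2 ≤ k) :
    IrrU (Set.univ : Set (Matrix.SpecialLinearGroup (Fin k) F)) ∧
      IrrL σ (Set.univ : Set (Matrix.SpecialLinearGroup (Fin k) F)) := irr_top σ hσ hk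

end Cfsg.Agent.H84.SuR
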