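import Mathlib
import Cfsg.Agent.H97.SuRDefs
import Cfsg.Agent.H84.SuRBase

/-!
# S2282 piece SQ (helper84): for `k = 2` in characteristic `2` the square of `u₁` is a
nontrivial upper unipotent element
-/

set_option autoImplicit false

namespace Cfsg.Agent.H84.SuR

open Matrix Cfsg.Agent.H45.U Cfsg.Agent.H97.SuR

variable {F : Type*} [Field F]

theorem sq_upper (σ : F →+* F) (h2 : (2 : F) = 0) (S : Matrix (Fin 2) (Fin 2) F) :
    ∃ (c' : Matrix (Fin 2) (Fin 1) F) (S' : Matrix (Fin 2) (Fin 2) F), c' ≠ 0 ∧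
      dE σ (Cfsg.Agent.H97.SpR.uniSL 2 (1 : F)) (cE F 2) S *
        dE σ (Cfsg.Agent.H97.SpR.uniSL 2 (1 : F)) (cE F 2) S = eU σ c' S' := by
  have h11 : (1 : F) + 1 = 0 := by rw [one_add_one_eq_two]; exact h2
  have hJJ : Cfsg.Agent.H97.SpR.uniSL 2 (1 : F) * Cfsg.Agent.H97.SpR.uniSL 2 (1 : F) = 1 := by
    apply Subtype.ext
    show Cfsg.Agent.H97.SpR.uniM 2 (1 : F) * Cfsg.Agent.H97.SpR.uniM 2 (1 : F) = 1
    ext i j
    fin_cases i <;> fin_cases j <;>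
      simp [Matrix.mul_apply, Fin.sum_univ_two, Cfsg.Agent.H97.SpR.uniM_apply, h11]
  refine ⟨_, _, ?_, by rw [dE_mul, hJJ, dE_one]⟩
  intro h
  have h1 := congrFun (congrFun h 0) 0
  have hc0 : cE F 2 0 0 = 0 := by simp [cE]
  have hc1 : cE F 2 1 0 = 1 := by simp [cE]
  have hadj : (((Cfsg.Agent.H97.SpR.uniSL 2 (1 : F))⁻¹ : Matrix.SpecialLinearGroup (Fin 2) F) :
      Matrix (Fin 2) (Fin 2) F) 0 1 = -1 := by
    rw [Matrix.SpecialLinearGroup.coe_inv, Matrix.adjugate_fin_two]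
    simp [Cfsg.Agent.H97.SpR.uniSL_coe, Cfsg.Agent.H97.SpR.uniM_apply]
  rw [Matrix.add_apply, Matrix.mul_apply, Fin.sum_univ_two, hc0, hc1, hadj] at h1
  simp at h1

example (σ : F →+* F) (h2 : (2 : F) = 0) (S : Matrix (Fin 2) (Fin 2) F) :
    ∃ (c' : Matrix (Fin 2) (Fin 1) F) (S' : Matrix (Fin 2) (Fin 2) F), c' ≠ 0 ∧
      dE σ (Cfsg.Agent.H97.SpR.uniSL 2 (1 : F)) (cE F 2) S *
        dE σ (Cfsg.Agent.H97.SpR.uniSL 2 (1 : F)) (cE F 2) S = eU σ c' S' := sq_upper σ h2 S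

end Cfsg.Agent.H84.SuR
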