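import Mathlib
import Cfsg.Agent.H97.SuRDefs
import Cfsg.Agent.H84.SuRBase

/-!
# S2282 piece U2 (helper84): the form of `u₂ = d(M) u₁ d(M)⁻¹`
-/

set_option autoImplicit false

namespace Cfsg.Agent.H84.SuR

open Matrix Cfsg.Agent.H45.U Cfsg.Agent.H97.SuR

variable {F : Type*} [Field F]

theorem u2_form (σ : F →+* F) {k : ℕ} (M M' : Matrix (Fin k) (Fin k) F)
    (t t' : Matrix (Fin 1) (Fin 1) F) (J₂ : Matrix.SpecialLinearGroup (Fin k) F)
    (h1 : M * M' = 1) (h2 : M' * M = 1) (ht : t' * t = 1) (htu : ct σ t' = t)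
    (hJ : (J₂ : Matrix (Fin k) (Fin k) F) = M * Cfsg.Agent.H97.SpR.uniM k (1 : F) * M')
    (c : Matrix (Fin k) (Fin 1) F) (S : Matrix (Fin k) (Fin k) F) :
    dU σ M M' t * dE σ (Cfsg.Agent.H97.SpR.uniSL k (1 : F)) c S =
      dE σ J₂ (M * c * t') (M * S * ct σ M) * dU σ M M' t := by
  obtain ⟨J, hJdef⟩ : ∃ J : Matrix.SpecialLinearGroup (Fin k) F,
      J = Cfsg.Agent.H97.SpR.uniSL k (1 : F) := ⟨_, rfl⟩
  rw [← hJdef]
  have hJc : (J : Matrix (Fin k) (Fin k) F) = Cfsg.Agent.H97.SpR.uniM k (1 : F) := by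
    rw [hJdef]; rfl
  rw [← hJc] at hJ
  have hJ2inv : ((J₂⁻¹ : Matrix.SpecialLinearGroup (Fin k) F) : Matrix (Fin k) (Fin k) F)
      = M * ((J⁻¹ : Matrix.SpecialLinearGroup (Fin k) F) : Matrix (Fin k) (Fin k) F) * M' := by
    have e : (J₂ : Matrix (Fin k) (Fin k) F) *
        (M * ((J⁻¹ : Matrix.SpecialLinearGroup (Fin k) F) : Matrix (Fin k) (Fin k) F) * M')
          = 1 := by
      rw [hJ]
      calc M * (J : Matrix (Fin k) (Fin k) F) * M' *
            (M * ((J⁻¹ : Matrix.SpecialLinearGroup (Fin k) F) : Matrix (Fin k) (Fin k) F) * M')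
          = M * ((J : Matrix (Fin k) (Fin k) F) * (M' * M) *
              ((J⁻¹ : Matrix.SpecialLinearGroup (Fin k) F) : Matrix (Fin k) (Fin k) F)) * M' := by
            simp only [Matrix.mul_assoc]
        _ = 1 := by rw [h2, Matrix.mul_one, sl_mul_inv, Matrix.mul_one, h1]
    calc ((J₂⁻¹ : Matrix.SpecialLinearGroup (Fin k) F) : Matrix (Fin k) (Fin k) F)
        = ((J₂⁻¹ : Matrix.SpecialLinearGroup (Fin k) F) : Matrix (Fin k) (Fin k) F) *
            ((J₂ : Matrix (Fin k) (Fin k) F) *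
              (M * ((J⁻¹ : Matrix.SpecialLinearGroup (Fin k) F) : Matrix (Fin k) (Fin k) F) * M'))
          := by rw [e, Matrix.mul_one]
      _ = M * ((J⁻¹ : Matrix.SpecialLinearGroup (Fin k) F) : Matrix (Fin k) (Fin k) F) * M' := by
          rw [← Matrix.mul_assoc, sl_inv_mul, Matrix.one_mul]
  have e1 : M * (J : Matrix (Fin k) (Fin k) F) = (J₂ : Matrix (Fin k) (Fin k) F) * M := by
    rw [hJ, Matrix.mul_assoc, Matrix.mul_assoc, h2, Matrix.mul_one]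
  have e2 : ((J⁻¹ : Matrix.SpecialLinearGroup (Fin k) F) : Matrix (Fin k) (Fin k) F) * M'
      = M' * ((J₂⁻¹ : Matrix.SpecialLinearGroup (Fin k) F) : Matrix (Fin k) (Fin k) F) := by
    rw [hJ2inv, ← Matrix.mul_assoc, ← Matrix.mul_assoc, h2, Matrix.one_mul]
  unfold dE
  rw [← Matrix.mul_assoc, dU_mul_dU, Matrix.mul_assoc (dU σ _ _ 1) (eU σ _ _),
    ← dU_mul_eU σ M M' t t' c S h2 ht htu, ← Matrix.mul_assoc, dU_mul_dU, e1, e2,
    Matrix.mul_one, Matrix.one_mul]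

example (σ : F →+* F) {k : ℕ} (M M' : Matrix (Fin k) (Fin k) F)
    (t t' : Matrix (Fin 1) (Fin 1) F) (J₂ : Matrix.SpecialLinearGroup (Fin k) F)
    (h1 : M * M' = 1) (h2 : M' * M = 1) (ht : t' * t = 1) (htu : ct σ t' = t)
    (hJ : (J₂ : Matrix (Fin k) (Fin k) F) = M * Cfsg.Agent.H97.SpR.uniM k (1 : F) * M')
    (c : Matrix (Fin k) (Fin 1) F) (S : Matrix (Fin k) (Fin k) F) :
    dU σ M M' t * dE σ (Cfsg.Agent.H97.SpR.uniSL k (1 : F)) c S =
      dE σ J₂ (M * c * t') (M * S * ct σ M) * dU σ M M' t :=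
  u2_form σ M M' t t' J₂ h1 h2 ht htu hJ c S

end Cfsg.Agent.H84.SuR
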