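import Mathlib
import Cfsg.Agent.H64.TmDefs

/-!
# S3701 team project TM (lead: helper64): piece TM-NOFUS (helper84)

`x` is conjugate neither to `y` nor to `x * y`.  (Twin of helper24's TN-UV.)  The statement takes the
Sylow piece `StSyl` as an extra hypothesis.
-/

set_option autoImplicit false

namespace Cfsg.Agent.H84.Tm

open Subgroup Cfsg.Agent.H64.Tm

open scoped Pointwise

universe u

section Basic

variable {G : Type u} [Group G] {H T : Subgroup G} {a b c x y : G}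

theorem conj_eq_of_comm {p q : G} (h : p * q = q * p) : p * q * p⁻¹ = q := by
  rw [h, mul_inv_cancel_right]

theorem conj_mul3 (p q r : G) : (p * q) * r * (p * q)⁻¹ = p * (q * r * q⁻¹) * p⁻¹ := by
  group

theorem a_ne_one (cfg : Cfg G H T a b c x y) : a ≠ 1 := by
  intro h
  have := (cfg.indep 1 0 0 (by simpa using h)).1
  omega

theorem b_ne_one (cfg : Cfg G H T a b c x y) : b ≠ 1 := by
  intro h
  have := (cfg.indep 0 1 0 (by simpa using h)).2.1
  omega

theorem c_ne_one (cfg : Cfg G H T a b c x y) : c ≠ 1 := by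
  intro h
  have := (cfg.indep 0 0 1 (by simpa using h)).2.2
  omega

theorem c_mul_c_ne (cfg : Cfg G H T a b c x y) : c * c ≠ 1 := by
  intro h
  have := (cfg.indep 0 0 2 (by simpa [pow_two] using h)).2.2
  omega

theorem c_ne_inv (cfg : Cfg G H T a b c x y) : c ≠ c⁻¹ := by
  intro h
  exact c_mul_c_ne cfg (by rw [eq_inv_iff_mul_eq_one] at h; exact h)

/-- Elements of `T` commute with `c`. -/
theorem T_comm_c (cfg : Cfg G H T a b c x y) {t : G} (ht : t ∈ T) : t * c = c * t := by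
  obtain ⟨i, j, k, rfl⟩ := cfg.Telts t ht
  have h1 : Commute (a ^ i) c := (show Commute a c from cfg.ac).pow_left i
  have h2 : Commute (b ^ j) c := (show Commute b c from cfg.bc).pow_left j
  have h3 : Commute (c ^ k) c := (Commute.refl c).pow_left k
  exact ((h1.mul_left h2).mul_left h3).eq

theorem T_comm_cinv (cfg : Cfg G H T a b c x y) {t : G} (ht : t ∈ T) : t * c⁻¹ = c⁻¹ * t := by
  have h : Commute t c := T_comm_c cfg ht
  exact h.inv_right.eq

/-- Conjugation by an element of `H` maps `c` to `c` or `c⁻¹`. -/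
theorem conj_c_of_mem_H (cfg : Cfg G H T a b c x y) {n : G} (hn : n ∈ H) :
    n * c * n⁻¹ = c ∨ n * c * n⁻¹ = c⁻¹ := by
  obtain ⟨t, ht, h | h | h | h⟩ := cfg.Helts n hn
  · left
    rw [h]
    exact conj_eq_of_comm (T_comm_c cfg ht)
  · left
    rw [h, conj_mul3, conj_eq_of_comm cfg.xc]
    exact conj_eq_of_comm (T_comm_c cfg ht)
  · right
    rw [h, conj_mul3, cfg.yc, mul_inv_cancel_right]
    exact conj_eq_of_comm (T_comm_cinv cfg ht)
  · right
    rw [h, conj_mul3, conj_mul3, cfg.yc, mul_inv_cancel_right]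
    have h1 : x * c⁻¹ = c⁻¹ * x := by
      have h : Commute x c := cfg.xc
      exact h.inv_right.eq
    rw [conj_eq_of_comm h1]
    exact conj_eq_of_comm (T_comm_cinv cfg ht)

end Basic

/-- A `3`-subgroup of `G` meeting `T` nontrivially lies in `T`. -/
theorem three_le_T (hT : StTIT.{u}) (hSyl : StSyl.{u}) {G : Type u} [Group G] [Finite G]
    {H T : Subgroup G} {a b c x y : G} (cfg : Cfg G H T a b c x y) (R : Subgroup G)
    (hR : IsPGroup 3 R) (t : G) (htT : t ∈ T) (ht1 : t ≠ 1) (htR : t ∈ R) : R ≤ T := by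
  have : Fact (Nat.Prime 3) := ⟨Nat.prime_three⟩
  obtain ⟨Q, hQ⟩ := hR.exists_le_sylow
  obtain ⟨S, hS⟩ := hSyl G H T a b c x y cfg
  obtain ⟨h, hh⟩ := MulAction.exists_smul_eq G S Q
  have key : ∀ z : G, z ∈ (Q : Subgroup G) → h⁻¹ * z * h ∈ T := by
    intro z hz
    rw [← hh] at hz
    change z ∈ MulAut.conj h • (S : Subgroup G) at hz
    rw [Subgroup.mem_pointwise_smul_iff_inv_smul_mem, hS] at hz
    simpa [MulAut.smul_def] using hz
  have hH : h⁻¹ ∈ H := by
    refine hT G H T a b c x y cfg t htT ht1 h⁻¹ ?_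
    rw [inv_inv]
    exact key t (hQ htR)
  have hN : h⁻¹ ∈ normalizer (T : Set G) := by
    rw [cfg.norm]
    exact hH
  intro z hz
  have h1 := key z (hQ hz)
  have h2 := (Subgroup.mem_normalizer_iff.mp hN z).mpr (by rw [inv_inv]; exact h1)
  exact h2

/-- The common argument: an element `z` centralizing some `t₀ ∈ T#` and inverting `c` is not
conjugate to `x`. -/
theorem nofus_aux (hT : StTIT.{u}) (hSyl : StSyl.{u}) {G : Type u} [Group G] [Finite G]
    {H T : Subgroup G} {a b c x y : G} (cfg : Cfg G H T a b c x y) (z t₀ : G)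
    (ht₀T : t₀ ∈ T) (ht₀1 : t₀ ≠ 1) (ht₀3 : t₀ ^ 3 = 1) (hzt : t₀ * z = z * t₀)
    (hzc : z * c = c⁻¹ * z) : ¬ IsConj x z := by
  intro hconj
  obtain ⟨g, hg⟩ := isConj_iff.mp hconj
  have : Fact (Nat.Prime 3) := ⟨Nat.prime_three⟩
  obtain ⟨CH, hCH⟩ : ∃ CH : Subgroup G, CH = centralizer ({z} : Set G) := ⟨_, rfl⟩
  have hmemCH : ∀ w : G, w ∈ CH ↔ w * z = z * w := by
    intro w
    rw [hCH]
    exact Subgroup.mem_centralizer_singleton_iff
  have htCH : t₀ ∈ CH := (hmemCH t₀).mpr hzt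
  have hc'CH : g * c * g⁻¹ ∈ CH := by
    rw [hmemCH, ← hg]
    have e1 : g * c * g⁻¹ * (g * x * g⁻¹) = g * (c * x) * g⁻¹ := by group
    have e2 : g * x * g⁻¹ * (g * c * g⁻¹) = g * (x * c) * g⁻¹ := by group
    rw [e1, e2, cfg.xc]
  have hpg : ∀ w : CH, w ^ 3 = 1 → IsPGroup 3 (zpowers w) := by
    intro w hw
    rintro ⟨v, hv⟩
    obtain ⟨k, rfl⟩ := Subgroup.mem_zpowers_iff.mp hv
    refine ⟨1, ?_⟩
    apply Subtype.ext
    simp only [pow_one, Subgroup.coe_pow, Subgroup.coe_one]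
    rw [← zpow_natCast, ← zpow_mul, mul_comm, zpow_mul, zpow_natCast, hw, one_zpow]
  have ht3 : (⟨t₀, htCH⟩ : CH) ^ 3 = 1 := by
    apply Subtype.ext
    simp only [Subgroup.coe_pow, Subgroup.coe_one]
    exact ht₀3
  have hc3 : (⟨g * c * g⁻¹, hc'CH⟩ : CH) ^ 3 = 1 := by
    apply Subtype.ext
    simp only [Subgroup.coe_pow, Subgroup.coe_one]
    rw [conj_pow, cfg.c3]
    group
  obtain ⟨P, hP⟩ := (hpg _ ht3).exists_le_sylow
  obtain ⟨P₂, hP₂⟩ := (hpg _ hc3).exists_le_sylow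
  obtain ⟨k, hk⟩ := MulAction.exists_smul_eq CH P₂ P
  -- the conjugate `k c' k⁻¹` lies in `P`
  have hxP : k * (⟨g * c * g⁻¹, hc'CH⟩ : CH) * k⁻¹ ∈ (P : Subgroup CH) := by
    rw [← hk]
    change _ ∈ MulAut.conj k • (P₂ : Subgroup CH)
    rw [Subgroup.mem_pointwise_smul_iff_inv_smul_mem]
    have h1 : (⟨g * c * g⁻¹, hc'CH⟩ : CH) ∈ (P₂ : Subgroup CH) :=
      hP₂ (Subgroup.mem_zpowers _)
    have e : (MulAut.conj k)⁻¹ • (k * (⟨g * c * g⁻¹, hc'CH⟩ : CH) * k⁻¹)
        = (⟨g * c * g⁻¹, hc'CH⟩ : CH) := by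
      simp [MulAut.smul_def, mul_assoc]
    rw [e]
    exact h1
  -- `P` (in `G`) lies in `T`
  have hPT : (P : Subgroup CH).map CH.subtype ≤ T := by
    refine three_le_T hT hSyl cfg _ (P.isPGroup'.map _) t₀ ht₀T ht₀1 ?_
    exact ⟨⟨t₀, htCH⟩, hP (Subgroup.mem_zpowers _), rfl⟩
  have hxT : (k : G) * (g * c * g⁻¹) * (k : G)⁻¹ ∈ T :=
    hPT ⟨_, hxP, rfl⟩
  have hxCH : (k : G) * (g * c * g⁻¹) * (k : G)⁻¹ ∈ CH :=
    CH.mul_mem (CH.mul_mem k.2 hc'CH) (CH.inv_mem k.2)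
  have e : (k : G) * (g * c * g⁻¹) * (k : G)⁻¹ = ((k : G) * g) * c * ((k : G) * g)⁻¹ := by
    group
  rw [e] at hxT hxCH
  have hN : (k : G) * g ∈ H :=
    hT G H T a b c x y cfg c cfg.cT (c_ne_one cfg) _ hxT
  have hcz : c * z = z * c → False := by
    intro h
    rw [hzc] at h
    exact c_ne_inv cfg (mul_right_cancel h)
  rcases conj_c_of_mem_H cfg hN with h | h
  · rw [h, hmemCH] at hxCH
    exact hcz hxCH
  · rw [h, hmemCH] at hxCH
    apply hcz
    have h2 : Commute c⁻¹ z := hxCH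
    exact (Commute.inv_left_iff.mp h2).eq

/-- **TM-NOFUS** (with the Sylow piece as an extra hypothesis). -/
theorem nofus (hT : StTIT.{u}) (hSyl : StSyl.{u}) : StNofus.{u} := by
  intro G _ _ H T a b c x y cfg
  refine ⟨?_, ?_⟩
  · -- `y` centralizes `b` and inverts `c`
    exact nofus_aux hT hSyl cfg y b cfg.bT (b_ne_one cfg) cfg.b3 cfg.yb.symm cfg.yc
  · -- `x * y` centralizes `a` and inverts `c`
    refine nofus_aux hT hSyl cfg (x * y) a cfg.aT (a_ne_one cfg) cfg.a3 ?_ ?_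
    · -- a * (x * y) = (x * y) * a
      have h1 : x * y * a = x * (a⁻¹ * y) := by rw [mul_assoc, cfg.ya]
      have h2 : x * a⁻¹ = a * x := by
        have := cfg.xa
        calc x * a⁻¹ = a * (a⁻¹ * x) * a⁻¹ := by group
          _ = a * (x * a) * a⁻¹ := by rw [this]
          _ = a * x := by group
      rw [h1, ← mul_assoc x a⁻¹ y, h2, mul_assoc]
    · -- (x * y) * c = c⁻¹ * (x * y)
      have h2 : x * c⁻¹ = c⁻¹ * x := by
        have h : Commute x c := cfg.xc
        exact h.inv_right.eq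
      rw [mul_assoc, cfg.yc, ← mul_assoc, h2, mul_assoc]

example (hT : StTIT.{u}) (hSyl : StSyl.{u}) : StNofus.{u} := nofus hT hSyl

example : StNofus.{u} = (∀ (G : Type u) [Group G] [Finite G] (H T : Subgroup G) (a b c x y : G),
    Cfg G H T a b c x y → ¬ IsConj x y ∧ ¬ IsConj x (x * y)) := rfl

end Cfsg.Agent.H84.Tm
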