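import Mathlib
import Cfsg.Agent.H64.TmDefs

/-!
# S3701 team project TM (lead: helper64): piece TM-XPAIRS (helper84)

No product of two conjugates of `x` lies in `S₁^G`.
-/

set_option autoImplicit false

namespace Cfsg.Agent.H84.Tm

open Subgroup Cfsg.Agent.H64.Tm

universe u

section XP

variable {G : Type u} [Group G]

theorem xp_conj_eq_of_comm {p q : G} (h : p * q = q * p) : p * q * p⁻¹ = q := by
  rw [h, mul_inv_cancel_right]

/-- If `z` inverts `P`, centralizes `Q`, `P` and `Q` commute and `z * z = 1`, then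
`(P * Q * z) * (P * Q * z) = Q * Q`. -/
theorem xp_inv_sq {P Q z : G} (hzP : z * P = P⁻¹ * z) (hzQ : z * Q = Q * z)
    (hPQ : P * Q = Q * P) (hz2 : z * z = 1) : (P * Q * z) * (P * Q * z) = Q * Q := by
  calc (P * Q * z) * (P * Q * z) = P * Q * (z * P) * Q * z := by group
    _ = P * Q * (P⁻¹ * z) * Q * z := by rw [hzP]
    _ = (P * Q * P⁻¹) * (z * Q) * z := by group
    _ = Q * (Q * z) * z := by rw [xp_conj_eq_of_comm hPQ, hzQ]
    _ = Q * Q * (z * z) := by group
    _ = Q * Q := by rw [hz2, mul_one]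

/-- If `z` inverts `P` and `P ^ 3 = 1` then `P * z` is conjugate to `z`. -/
theorem xp_conj_of_inv {P z : G} (hzP : z * P = P⁻¹ * z) (hP3 : P ^ 3 = 1) :
    IsConj z (P * z) := by
  rw [isConj_iff]
  refine ⟨P⁻¹, ?_⟩
  have hP : P⁻¹ * P⁻¹ = P := by
    calc P⁻¹ * P⁻¹ = P⁻¹ * P⁻¹ * P ^ 3 := by rw [hP3, mul_one]
      _ = P := by group
  rw [inv_inv, mul_assoc, hzP, ← mul_assoc, hP]

theorem xp_pow_eq_one {g : G} (h3 : g ^ 3 = 1) {k : ℕ} (hk : 3 ∣ k) : g ^ k = 1 := by
  obtain ⟨q, rfl⟩ := hk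
  rw [pow_mul, h3, one_pow]

theorem xp_pow_cube {g : G} (h3 : g ^ 3 = 1) (k : ℕ) : (g ^ k) ^ 3 = 1 := by
  rw [← pow_mul, mul_comm, pow_mul, h3, one_pow]

theorem xp_mul_cube {P Q : G} (hPQ : Commute P Q) (hP : P ^ 3 = 1) (hQ : Q ^ 3 = 1) :
    (P * Q) ^ 3 = 1 := by
  rw [hPQ.mul_pow, hP, hQ, one_mul]

/-- `z` inverting two commuting elements inverts their product. -/
theorem xp_inv_mul {P Q z : G} (hzP : SemiconjBy z P P⁻¹) (hzQ : SemiconjBy z Q Q⁻¹)
    (hPQ : Commute P Q) : z * (P * Q) = (P * Q)⁻¹ * z := by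
  have h := hzP.mul_right hzQ
  have e : P⁻¹ * Q⁻¹ = (P * Q)⁻¹ := by rw [hPQ.eq, mul_inv_rev]
  rw [e] at h
  exact h

variable {H T : Subgroup G} {a b c x y : G}

/-- An element of `H` conjugate to `x` lies in `⟨a, b, x⟩`. -/
theorem xp_inv_form (hN : StNofus.{u}) [Finite G] (cfg : Cfg G H T a b c x y) (h : G)
    (hH : h ∈ H) (hconj : IsConj x h) : h ∈ closure ({a, b, x} : Set G) := by
  have hh2 : h * h = 1 := by
    obtain ⟨g, rfl⟩ := isConj_iff.mp hconj
    calc g * x * g⁻¹ * (g * x * g⁻¹) = g * (x * x) * g⁻¹ := by group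
      _ = 1 := by rw [cfg.x2]; group
  obtain ⟨hN1, hN2⟩ := hN G H T a b c x y cfg
  obtain ⟨t, ht, he | he | he | he⟩ := cfg.Helts h hH
  · -- `h ∈ T`: then `h = 1`, so `x = 1`
    exfalso
    have h27 : h ^ 27 = 1 := by
      have e := pow_card_eq_one' (G := T) (x := ⟨h, he ▸ ht⟩)
      rw [cfg.cardT] at e
      have e2 := congrArg Subtype.val e
      simpa using e2
    have h1 : h = 1 := by
      have e26 : h ^ 26 = 1 := by
        have e : h ^ 26 = (h * h) ^ 13 := by rw [← pow_two, ← pow_mul]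
        rw [e, hh2, one_pow]
      have e27 : h ^ 27 = h ^ 26 * h := pow_succ h 26
      rw [h27, e26, one_mul] at e27
      exact e27.symm
    rw [h1] at hconj
    have hx1 : x = 1 := isConj_one_left.mp hconj
    exact cfg.xT (hx1 ▸ T.one_mem)
  · -- `h = t * x`
    obtain ⟨i, j, k, rfl⟩ := cfg.Telts t ht
    subst he
    have hAB : Commute (a ^ i) (b ^ j) := (show Commute a b from cfg.ab).pow_pow i j
    have hAC : Commute (a ^ i) (c ^ k) := (show Commute a c from cfg.ac).pow_pow i k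
    have hBC : Commute (b ^ j) (c ^ k) := (show Commute b c from cfg.bc).pow_pow j k
    have hxA : SemiconjBy x (a ^ i) (a ^ i)⁻¹ := by
      have h : SemiconjBy x a a⁻¹ := cfg.xa
      have h2 := h.pow_right i
      rw [inv_pow] at h2
      exact h2
    have hxB : SemiconjBy x (b ^ j) (b ^ j)⁻¹ := by
      have h : SemiconjBy x b b⁻¹ := cfg.xb
      have h2 := h.pow_right j
      rw [inv_pow] at h2
      exact h2
    have hxC : x * c ^ k = c ^ k * x := ((show Commute x c from cfg.xc).pow_right k).eq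
    have hsq := xp_inv_sq (xp_inv_mul hxA hxB hAB) hxC ((hAC.mul_left hBC).eq) cfg.x2
    rw [hh2] at hsq
    have h3k : 3 ∣ k := by
      have := (cfg.indep 0 0 (k + k) (by rw [pow_zero, pow_zero, one_mul, one_mul, pow_add,
        ← hsq])).2.2
      omega
    rw [xp_pow_eq_one cfg.c3 h3k, mul_one]
    exact mul_mem (mul_mem (pow_mem (subset_closure (by simp)) i)
      (pow_mem (subset_closure (by simp)) j)) (subset_closure (by simp))
  · -- `h = t * y`: conjugate to `y`
    exfalso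
    obtain ⟨i, j, k, rfl⟩ := cfg.Telts t ht
    subst he
    have hAB : Commute (a ^ i) (b ^ j) := (show Commute a b from cfg.ab).pow_pow i j
    have hAC : Commute (a ^ i) (c ^ k) := (show Commute a c from cfg.ac).pow_pow i k
    have hBC : Commute (b ^ j) (c ^ k) := (show Commute b c from cfg.bc).pow_pow j k
    have hyA : SemiconjBy y (a ^ i) (a ^ i)⁻¹ := by
      have h : SemiconjBy y a a⁻¹ := cfg.ya
      have h2 := h.pow_right i
      rw [inv_pow] at h2
      exact h2
    have hyC : SemiconjBy y (c ^ k) (c ^ k)⁻¹ := by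
      have h : SemiconjBy y c c⁻¹ := cfg.yc
      have h2 := h.pow_right k
      rw [inv_pow] at h2
      exact h2
    have hyB : y * b ^ j = b ^ j * y := ((show Commute y b from cfg.yb).pow_right j).eq
    have e : a ^ i * b ^ j * c ^ k * y = (a ^ i * c ^ k) * b ^ j * y := by
      rw [mul_assoc (a ^ i), hBC.eq, ← mul_assoc]
    rw [e] at hh2 hconj
    have hyP := xp_inv_mul hyA hyC hAC
    have hsq := xp_inv_sq hyP hyB ((hAB.mul_left hBC.symm).eq) cfg.y2
    rw [hh2] at hsq
    have h3j : 3 ∣ j := by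
      have := (cfg.indep 0 (j + j) 0 (by rw [pow_zero, pow_zero, one_mul, mul_one, pow_add,
        ← hsq])).2.1
      omega
    rw [xp_pow_eq_one cfg.b3 h3j, mul_one] at hconj
    have hc2 : IsConj y (a ^ i * c ^ k * y) :=
      xp_conj_of_inv hyP (xp_mul_cube hAC (xp_pow_cube cfg.a3 i) (xp_pow_cube cfg.c3 k))
    exact hN1 (hconj.trans hc2.symm)
  · -- `h = t * (x * y)`: conjugate to `x * y`
    exfalso
    obtain ⟨i, j, k, rfl⟩ := cfg.Telts t ht
    subst he
    have hAB : Commute (a ^ i) (b ^ j) := (show Commute a b from cfg.ab).pow_pow i j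
    have hAC : Commute (a ^ i) (c ^ k) := (show Commute a c from cfg.ac).pow_pow i k
    have hBC : Commute (b ^ j) (c ^ k) := (show Commute b c from cfg.bc).pow_pow j k
    have hxA : SemiconjBy x (a ^ i) (a ^ i)⁻¹ := by
      have h : SemiconjBy x a a⁻¹ := cfg.xa
      have h2 := h.pow_right i
      rw [inv_pow] at h2
      exact h2
    have hxB : SemiconjBy x (b ^ j) (b ^ j)⁻¹ := by
      have h : SemiconjBy x b b⁻¹ := cfg.xb
      have h2 := h.pow_right j
      rw [inv_pow] at h2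
      exact h2
    have hxC : SemiconjBy x (c ^ k) (c ^ k) := (show Commute x c from cfg.xc).pow_right k
    have hyA : SemiconjBy y (a ^ i) (a ^ i)⁻¹ := by
      have h : SemiconjBy y a a⁻¹ := cfg.ya
      have h2 := h.pow_right i
      rw [inv_pow] at h2
      exact h2
    have hyC : SemiconjBy y (c ^ k) (c ^ k)⁻¹ := by
      have h : SemiconjBy y c c⁻¹ := cfg.yc
      have h2 := h.pow_right k
      rw [inv_pow] at h2
      exact h2
    have hyB : SemiconjBy y (b ^ j) (b ^ j) := (show Commute y b from cfg.yb).pow_right j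
    -- the action of `x * y`
    have hzA : (x * y) * a ^ i = a ^ i * (x * y) := by
      have h := hxA.inv_right.mul_left hyA
      rw [inv_inv] at h
      exact h
    have hzB : SemiconjBy (x * y) (b ^ j) (b ^ j)⁻¹ := hxB.mul_left hyB
    have hzC : SemiconjBy (x * y) (c ^ k) (c ^ k)⁻¹ := hxC.inv_right.mul_left hyC
    have hz2 : (x * y) * (x * y) = 1 := by
      calc (x * y) * (x * y) = x * (y * x) * y := by group
        _ = x * (x * y) * y := by rw [← cfg.xy]
        _ = (x * x) * (y * y) := by group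
        _ = 1 := by rw [cfg.x2, cfg.y2, mul_one]
    have e : a ^ i * b ^ j * c ^ k * (x * y) = (b ^ j * c ^ k) * a ^ i * (x * y) := by
      rw [mul_assoc (a ^ i), (hAB.mul_right hAC).eq]
    rw [e] at hh2 hconj
    have hzP := xp_inv_mul hzB hzC hBC
    have hsq := xp_inv_sq hzP hzA ((hAB.symm.mul_left hAC.symm).eq) hz2
    rw [hh2] at hsq
    have h3i : 3 ∣ i := by
      have := (cfg.indep (i + i) 0 0 (by rw [pow_zero, pow_zero, mul_one, mul_one, pow_add,
        ← hsq])).1
      omega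
    rw [xp_pow_eq_one cfg.a3 h3i, mul_one] at hconj
    have hc2 : IsConj (x * y) (b ^ j * c ^ k * (x * y)) :=
      xp_conj_of_inv hzP (xp_mul_cube hBC (xp_pow_cube cfg.b3 j) (xp_pow_cube cfg.c3 k))
    exact hN2 (hconj.trans hc2.symm)

end XP

/-- **TM-XPAIRS**. -/
theorem xPairs (hS : StS1.{u}) (hTI : StTI.{u}) (hN : StNofus.{u}) : StXPairs.{u} := by
  intro G _ _ H T a b c x y cfg u v hu hv hmem
  obtain ⟨hS1, hS2, hS3, hS4, hS5⟩ := hS G H T a b c x y cfg
  obtain ⟨r, hr⟩ := hmem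
  obtain ⟨u', hu'⟩ : ∃ u' : G, u' = r * u * r⁻¹ := ⟨_, rfl⟩
  obtain ⟨v', hv'⟩ : ∃ v' : G, v' = r * v * r⁻¹ := ⟨_, rfl⟩
  have huv : u' * v' = r * (u * v) * r⁻¹ := by rw [hu', hv']; group
  have hcu : IsConj x u' := hu.trans (isConj_iff.mpr ⟨r, hu'.symm⟩)
  have hcv : IsConj x v' := hv.trans (isConj_iff.mpr ⟨r, hv'.symm⟩)
  have hsq : ∀ w : G, IsConj x w → w * w = 1 := by
    intro w hw
    obtain ⟨g, rfl⟩ := isConj_iff.mp hw
    calc g * x * g⁻¹ * (g * x * g⁻¹) = g * (x * x) * g⁻¹ := by group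
      _ = 1 := by rw [cfg.x2]; group
  have hu2 := hsq u' hcu
  have hv2 := hsq v' hcv
  have hs : u' * v' ∈ S1 a b c x := by rw [huv]; exact hr
  have hinv : u' * (u' * v') * u'⁻¹ = (u' * v')⁻¹ := by
    have e1 : u'⁻¹ = u' := inv_eq_of_mul_eq_one_left hu2
    have e2 : v'⁻¹ = v' := inv_eq_of_mul_eq_one_left hv2
    rw [mul_inv_rev, e1, e2, ← mul_assoc, hu2, one_mul]
  have huH : u' ∈ H := hTI G H T a b c x y cfg _ hs u' (by rw [hinv]; exact hS3 _ hs)
  have hvH : v' ∈ H := by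
    have e : v' = u'⁻¹ * (u' * v') := by group
    rw [e]
    exact H.mul_mem (H.inv_mem huH) (hS1 _ hs)
  have huD := xp_inv_form hN cfg u' huH hcu
  have hvD := xp_inv_form hN cfg v' hvH hcv
  have hsD : u' * v' ∈ closure ({a, b, x} : Set G) := mul_mem huD hvD
  have hcD : c ∈ closure ({a, b, x} : Set G) := by
    obtain ⟨w, hw, h | h⟩ := hs
    · have e : c = (u' * v') * w⁻¹ := by rw [h]; group
      rw [e]
      exact mul_mem hsD (inv_mem hw)
    · have e : c⁻¹ = (u' * v') * w⁻¹ := by rw [h]; group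
      have h2 : c⁻¹ ∈ closure ({a, b, x} : Set G) := by
        rw [e]
        exact mul_mem hsD (inv_mem hw)
      simpa using inv_mem h2
  have h1 : (1 : G) ∈ S1 a b c x := ⟨c⁻¹, inv_mem hcD, Or.inl (by group)⟩
  exact (hS4 1 h1).2 (mul_one 1)

example (hS : StS1.{u}) (hTI : StTI.{u}) (hN : StNofus.{u}) : StXPairs.{u} := xPairs hS hTI hN

example : StXPairs.{u} = (∀ (G : Type u) [Group G] [Finite G] (H T : Subgroup G) (a b c x y : G),
    Cfg G H T a b c x y → ∀ u v : G, IsConj x u → IsConj x v → u * v ∉ S1G a b c x) := rfl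

end Cfsg.Agent.H84.Tm
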