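import Mathlib
import Cfsg.Agent.H16.Rank
import Cfsg.Agent.H16.Spectral
import Cfsg.Agent.H16.PermMatrix
import Cfsg.Agent.H44.PSL2Deg
import Cfsg.Agent.H93.U33Defs

/-!
# S3670 piece U-SPEC (helper84)

A transitive group of rank at most 4 on 63 points with an invariant integer matrix `A`
annihilated by `(x-6)(x-3)(x+1)(x+3)` and with `tr A = 0`, `tr A² = tr A³ = 378` has irreducible
characters of degrees 14 and 21: the permutation character is multiplicity-free, the eigenvalue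
multiplicities are forced to be `1, 21, 27, 14`, and each eigenspace is irreducible.
-/

set_option autoImplicit false

namespace Cfsg.Agent.H84.U33

open Cfsg Cfsg.Agent.H4 Cfsg.Agent.H16
open scoped ComplexConjugate

theorem mk_eq_of_smul {H α : Type*} [Group H] [MulAction H α] (h : H) (x y : α)
    (hxy : h • x = y) :
    (Quotient.mk'' x : MulAction.orbitRel.Quotient H α) = Quotient.mk'' y := by
  apply Quotient.sound'
  apply (MulAction.orbitRel_apply).mpr
  subst hxy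
  exact ⟨h⁻¹, inv_smul_smul h x⟩

theorem sum_four (F : ℂ → ℂ) :
    ∑ μ ∈ ({6, 3, -1, -3} : Finset ℂ), F μ = F 6 + F 3 + F (-1) + F (-3) := by
  have h1 : (-1 : ℂ) ∉ ({-3} : Finset ℂ) := by norm_num
  have h2 : (3 : ℂ) ∉ ({-1, -3} : Finset ℂ) := by
    simp only [Finset.mem_insert, Finset.mem_singleton]; norm_num
  have h3 : (6 : ℂ) ∉ ({3, -1, -3} : Finset ℂ) := by
    simp only [Finset.mem_insert, Finset.mem_singleton]; norm_num
  rw [Finset.sum_insert h3, Finset.sum_insert h2, Finset.sum_insert h1, Finset.sum_singleton]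
  ring

theorem sum_four_nat (F : ℂ → ℕ) :
    ∑ μ ∈ ({6, 3, -1, -3} : Finset ℂ), F μ = F 6 + F 3 + F (-1) + F (-3) := by
  have h1 : (-1 : ℂ) ∉ ({-3} : Finset ℂ) := by norm_num
  have h2 : (3 : ℂ) ∉ ({-1, -3} : Finset ℂ) := by
    simp only [Finset.mem_insert, Finset.mem_singleton]; norm_num
  have h3 : (6 : ℂ) ∉ ({3, -1, -3} : Finset ℂ) := by
    simp only [Finset.mem_insert, Finset.mem_singleton]; norm_num
  rw [Finset.sum_insert h3, Finset.sum_insert h2, Finset.sum_insert h1, Finset.sum_singleton]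
  ring

theorem spec : Cfsg.Agent.H93.U33.StmtSpec := by
  intro G _ _ φ A htr hrank hinv hpoly ht1 ht2 ht3
  classical
  haveI : Fintype G := Fintype.ofFinite G
  letI : MulAction G (Fin 63) := MulAction.compHom (Fin 63) φ
  have hsmul : ∀ (g : G) (i : Fin 63), g • i = φ g i := fun g i => rfl
  haveI : MulAction.IsPretransitive G (Fin 63) := by
    constructor
    intro x y
    obtain ⟨g₁, h₁⟩ := htr x
    obtain ⟨g₂, h₂⟩ := htr y
    refine ⟨g₂ * g₁⁻¹, ?_⟩
    rw [hsmul, map_mul, map_inv, Equiv.Perm.mul_apply, ← h₁]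
    simp [h₂]
  -- rank at most 4
  obtain ⟨a, b, c, habc⟩ := hrank
  have hr : Nat.card (MulAction.orbitRel.Quotient (MulAction.stabilizer G (0 : Fin 63))
      (Fin 63)) ≤ 4 := by
    have hf : Function.Surjective (fun k : Fin 4 =>
        (Quotient.mk'' (![0, a, b, c] k) :
          MulAction.orbitRel.Quotient (MulAction.stabilizer G (0 : Fin 63)) (Fin 63))) := by
      intro q
      induction q using Quotient.inductionOn' with
      | h i =>
        obtain ⟨g, hg0, hg⟩ := habc i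
        have hgs : g ∈ MulAction.stabilizer G (0 : Fin 63) := hg0
        rcases hg with h | h | h | h
        · exact ⟨0, mk_eq_of_smul (⟨g, hgs⟩ : MulAction.stabilizer G (0 : Fin 63)) _ _ h⟩
        · exact ⟨1, mk_eq_of_smul (⟨g, hgs⟩ : MulAction.stabilizer G (0 : Fin 63)) _ _ h⟩
        · exact ⟨2, mk_eq_of_smul (⟨g, hgs⟩ : MulAction.stabilizer G (0 : Fin 63)) _ _ h⟩
        · exact ⟨3, mk_eq_of_smul (⟨g, hgs⟩ : MulAction.stabilizer G (0 : Fin 63)) _ _ h⟩
    have h1 := Nat.card_le_card_of_surjective _ hf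
    rwa [Nat.card_fin] at h1
  have hmf := multFree_of_rank_le_five (G := G) (Ω := Fin 63) (0 : Fin 63) (by omega)
  obtain ⟨m, hinner, -, hmrank, -⟩ := exists_perm_mult (G := G) (Ω := Fin 63) (0 : Fin 63)
  letI := fintypeIrr G
  have hm01 : ∀ χ : IrrCharacter G, m χ = 0 ∨ m χ = 1 := by
    intro χ
    rcases hmf χ.1 χ.2 with h | h
    · left; rw [hinner χ] at h; exact_mod_cast h
    · right; rw [hinner χ] at h; exact_mod_cast h
  -- the endomorphism
  obtain ⟨Φ, hΦ⟩ : ∃ Φ : Matrix (Fin 63) (Fin 63) ℤ →+* Module.End ℂ (Fin 63 → ℂ),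
      ∀ M, Φ M = Matrix.toLin' (M.map (Int.castRingHom ℂ)) :=
    ⟨((Matrix.toLinAlgEquiv' : Matrix (Fin 63) (Fin 63) ℂ ≃ₐ[ℂ] _).toAlgHom.toRingHom).comp
      (Int.castRingHom ℂ).mapMatrix, fun M => rfl⟩
  obtain ⟨Ae, hAe⟩ : ∃ Ae : Module.End ℂ (Fin 63 → ℂ), Ae = Φ A := ⟨_, rfl⟩
  have hA : ∀ g, Ae ∘ₗ Cfsg.permRep ℂ G (Fin 63) g = Cfsg.permRep ℂ G (Fin 63) g ∘ₗ Ae := by
    rw [hAe, hΦ]
    apply toLin'_comm_of_invariant
    intro g x y
    rw [Matrix.map_apply, Matrix.map_apply, hsmul, hsmul, hinv]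
  obtain ⟨θ, hθ1, hθ2, -⟩ := trace_pow_of_multFree (Cfsg.permRep ℂ G (Fin 63)) Ae hA
    (fun χ => hmf χ.1 χ.2)
  have htrΦ : ∀ M : Matrix (Fin 63) (Fin 63) ℤ,
      LinearMap.trace ℂ _ (Φ M) = ((M.trace : ℤ) : ℂ) := by
    intro M
    rw [hΦ, Matrix.trace_toLin'_eq]
    simp [Matrix.trace]
  have htrace : ∀ j : ℕ, LinearMap.trace ℂ _ (Ae ^ j) = (((A ^ j).trace : ℤ) : ℂ) := by
    intro j
    rw [hAe, ← map_pow, htrΦ]
  have hP : Ae ^ 4 - ((5 : ℕ) : Module.End ℂ (Fin 63 → ℂ)) * Ae ^ 3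
      - ((15 : ℕ) : Module.End ℂ (Fin 63 → ℂ)) * Ae ^ 2
      + ((45 : ℕ) : Module.End ℂ (Fin 63 → ℂ)) * Ae
      + ((54 : ℕ) : Module.End ℂ (Fin 63 → ℂ)) * 1 = 0 := by
    have h := congrArg Φ hpoly
    simp only [nsmul_eq_mul, map_sub, map_add, map_mul, map_pow, map_one, map_zero,
      map_natCast] at h
    rw [hAe]; exact h
  have hroot : ∀ μ : ℂ, Ae.HasEigenvalue μ → μ = 6 ∨ μ = 3 ∨ μ = -1 ∨ μ = -3 := by
    intro μ hμ
    obtain ⟨v, hv⟩ := hμ.exists_hasEigenvector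
    have hv1 : Ae v = μ • v := hv.apply_eq_smul
    have hv0 : v ≠ 0 := hv.2
    have hk : ∀ k : ℕ, (Ae ^ k) v = μ ^ k • v := by
      intro k
      induction k with
      | zero => simp
      | succ k ih =>
        rw [pow_succ, Module.End.mul_apply, hv1, map_smul, ih, smul_smul, pow_succ, mul_comm]
    have h := congrArg (fun f : Module.End ℂ (Fin 63 → ℂ) => f v) hP
    simp only [LinearMap.sub_apply, LinearMap.add_apply, Module.End.mul_apply,
      Module.End.natCast_apply, hk, hv1, Module.End.one_apply, LinearMap.zero_apply,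
      ← Nat.cast_smul_eq_nsmul ℂ, smul_smul, ← sub_smul, ← add_smul] at h
    rcases smul_eq_zero.mp h with h0 | h0
    · push_cast at h0
      have h1 : (μ - 6) * (μ - 3) * (μ + 1) * (μ + 3) = 0 := by linear_combination h0
      rcases mul_eq_zero.mp h1 with h2 | h2
      · rcases mul_eq_zero.mp h2 with h3 | h3
        · rcases mul_eq_zero.mp h3 with h4 | h4
          · left; exact sub_eq_zero.mp h4
          · right; left; exact sub_eq_zero.mp h4
        · right; right; left; exact eq_neg_of_add_eq_zero_left h3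
      · right; right; right; exact eq_neg_of_add_eq_zero_left h2
    · exact absurd h0 hv0
  -- degrees
  choose d hd0 hd using fun χ : IrrCharacter G => irr_one_eq_natCast χ
  obtain ⟨C, hC⟩ : ∃ C : Finset (IrrCharacter G), C = Finset.univ.filter (fun χ => m χ = 1) :=
    ⟨_, rfl⟩
  have hmemC : ∀ χ, χ ∈ C ↔ m χ = 1 := by
    intro χ; rw [hC]; simp
  have hmaps : ∀ χ ∈ C, θ χ ∈ ({6, 3, -1, -3} : Finset ℂ) := by
    intro χ hχ
    have h1 : classInner (Cfsg.permRep ℂ G (Fin 63)).character χ.1 = 1 := by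
      rw [hinner χ, (hmemC χ).mp hχ, Nat.cast_one]
    have h2 := hroot _ (hθ1 χ h1)
    simp only [Finset.mem_insert, Finset.mem_singleton]
    exact h2
  obtain ⟨D, hD⟩ : ∃ D : ℂ → ℕ, ∀ μ, D μ = ∑ χ ∈ C.filter (fun χ => θ χ = μ), d χ :=
    ⟨_, fun μ => rfl⟩
  have hsumC : ∀ j : ℕ, (((A ^ j).trace : ℤ) : ℂ) =
      (D 6 : ℂ) * 6 ^ j + (D 3 : ℂ) * 3 ^ j + (D (-1) : ℂ) * (-1) ^ j
        + (D (-3) : ℂ) * (-3) ^ j := by
    intro j
    rw [← htrace j, hθ2 j, finsum_irr_eq_sum]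
    have hterm : ∀ χ : IrrCharacter G,
        classInner (Cfsg.permRep ℂ G (Fin 63)).character χ.1 * χ.1 1 * θ χ ^ j
          = if m χ = 1 then (d χ : ℂ) * θ χ ^ j else 0 := by
      intro χ
      rw [hinner χ, hd χ]
      rcases hm01 χ with h | h
      · rw [h, if_neg (by norm_num)]; simp
      · rw [h, if_pos rfl]; simp
    rw [Finset.sum_congr rfl (fun χ _ => hterm χ), ← Finset.sum_filter, ← hC,
      ← Finset.sum_fiberwise_of_maps_to hmaps, sum_four]
    have hin : ∀ μ : ℂ, ∑ χ ∈ C.filter (fun χ => θ χ = μ), (d χ : ℂ) * θ χ ^ j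
        = (D μ : ℂ) * μ ^ j := by
      intro μ
      rw [hD μ, Nat.cast_sum, Finset.sum_mul]
      refine Finset.sum_congr rfl fun χ hχ => ?_
      rw [(Finset.mem_filter.mp hχ).2]
    rw [hin, hin, hin, hin]
  have e0 := hsumC 0
  have e1 := hsumC 1
  have e2 := hsumC 2
  have e3 := hsumC 3
  rw [pow_zero, Matrix.trace_one, Fintype.card_fin] at e0
  rw [pow_one, ht1] at e1
  rw [ht2] at e2
  rw [ht3] at e3
  have f0 : (63 : ℤ) = D 6 + D 3 + D (-1) + D (-3) := by
    have h : ((63 : ℤ) : ℂ) = ((D 6 + D 3 + D (-1) + D (-3) : ℤ) : ℂ) := by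
      push_cast; push_cast at e0; linear_combination e0
    exact_mod_cast h
  have f1 : (0 : ℤ) = 6 * D 6 + 3 * D 3 - D (-1) - 3 * D (-3) := by
    have h : ((0 : ℤ) : ℂ) = ((6 * D 6 + 3 * D 3 - D (-1) - 3 * D (-3) : ℤ) : ℂ) := by
      push_cast; push_cast at e1; linear_combination e1
    exact_mod_cast h
  have f2 : (378 : ℤ) = 36 * D 6 + 9 * D 3 + D (-1) + 9 * D (-3) := by
    have h : ((378 : ℤ) : ℂ) = ((36 * D 6 + 9 * D 3 + D (-1) + 9 * D (-3) : ℤ) : ℂ) := by
      push_cast; push_cast at e2; linear_combination e2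
    exact_mod_cast h
  have f3 : (378 : ℤ) = 216 * D 6 + 27 * D 3 - D (-1) - 27 * D (-3) := by
    have h : ((378 : ℤ) : ℂ) = ((216 * D 6 + 27 * D 3 - D (-1) - 27 * D (-3) : ℤ) : ℂ) := by
      push_cast; push_cast at e3; linear_combination e3
    exact_mod_cast h
  have hD6 : D 6 = 1 := by omega
  have hD3 : D 3 = 21 := by omega
  have hD1 : D (-1) = 27 := by omega
  have hD3' : D (-3) = 14 := by omega
  -- at most four constituents
  have hCcard : C.card ≤ 4 := by
    have h1 : C.card = ∑ χ ∈ C, m χ * m χ := by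
      rw [Finset.card_eq_sum_ones]
      refine Finset.sum_congr rfl fun χ hχ => ?_
      rw [(hmemC χ).mp hχ]
    have h2 : ∑ χ ∈ C, m χ * m χ ≤ ∑ χ : IrrCharacter G, m χ * m χ := by
      rw [hC]
      exact Finset.sum_le_sum_of_subset (Finset.filter_subset _ _)
    rw [hmrank] at h2
    omega
  have hfib := Finset.card_eq_sum_card_fiberwise hmaps
  rw [sum_four_nat] at hfib
  have hpos : ∀ μ : ℂ, 0 < D μ → 0 < (C.filter (fun χ => θ χ = μ)).card := by
    intro μ hμ
    rw [Finset.card_pos]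
    by_contra hne
    rw [Finset.not_nonempty_iff_eq_empty] at hne
    rw [hD μ, hne, Finset.sum_empty] at hμ
    exact lt_irrefl 0 hμ
  have hp6 := hpos 6 (by omega)
  have hp3 := hpos 3 (by omega)
  have hp1 := hpos (-1) (by omega)
  have hp3' := hpos (-3) (by omega)
  have hdeg : ∀ μ : ℂ, (C.filter (fun χ => θ χ = μ)).card = 1 → D μ ∈ Cfsg.charDegrees G := by
    intro μ hμ
    obtain ⟨χ, hχ⟩ := Finset.card_eq_one.mp hμ
    refine ⟨χ, ?_⟩
    rw [hD μ, hχ, Finset.sum_singleton]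
    exact Cfsg.Agent.H44.charDegree_eq_of_one_eq (hd χ)
  constructor
  · rw [← hD3']; exact hdeg (-3) (by omega)
  · rw [← hD3]; exact hdeg 3 (by omega)

example : Cfsg.Agent.H93.U33.StmtSpec := spec

end Cfsg.Agent.H84.U33
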