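import Mathlib
import Cfsg.Agent.H67.UmDefs
import Cfsg.Agent.H45.SingerU
import Cfsg.Agent.H45.IsoExist

/-!
# S2263, piece UM-SSO (helper84): a unitary matrix of odd size `n` whose order is divisible by
`q ^ n + 1`.
-/

set_option autoImplicit false

namespace Cfsg.Agent.H84.UmO

open Matrix Polynomial Cfsg Cfsg.Agent.H45 Cfsg.Agent.H67.Um

universe u

theorem sso : StSSo.{u} := by
  intro F _ _ q n hF hodd
  classical
  have hq2 := Cfsg.Agent.H7.two_le_of_card_sq hF
  obtain ⟨p, k, hp, hc, hqk⟩ := Cfsg.Agent.H7.exists_char_pow hF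
  haveI : Fact p.Prime := ⟨hp⟩
  haveI : CharP F p := hc
  obtain ⟨σ, hσq⟩ := Cfsg.Agent.H7.exists_frobQ hF
  have hσ : ∀ a, σ (σ a) = a := by
    intro a
    rw [hσq, hσq, Cfsg.Agent.H7.pow_q_pow_q hF]
  have hσne : σ ≠ RingHom.id F := by
    intro h
    obtain ⟨z, hz1, hz2⟩ := Cfsg.Agent.H7.exists_norm_one_sq_ne_one hF
    have h2 : σ z = z := by rw [h]; rfl
    rw [hσq] at h2
    apply hz2
    rw [pow_succ, h2] at hz1
    rw [pow_two]
    exact hz1
  have hn1 : 1 ≤ n := hodd.pos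
  have hqpos : 0 < q := by omega
  obtain ⟨j0, hj0⟩ := hodd
  obtain ⟨N, hNdef⟩ : ∃ N, N = q ^ n + 1 := ⟨_, rfl⟩
  have hN1 : 1 ≤ N := by omega
  have hqF : ((q : ℕ) : F) = 0 := by
    have h1 : ((q ^ 2 : ℕ) : F) = 0 := by rw [← hF]; exact Nat.cast_card_eq_zero F
    rw [Nat.cast_pow] at h1
    exact pow_eq_zero_iff (by norm_num) |>.mp h1
  have hNF : ((N : ℕ) : F) ≠ 0 := by
    rw [hNdef, Nat.cast_add, Nat.cast_pow, hqF, zero_pow (by omega), zero_add, Nat.cast_one]
    exact one_ne_zero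
  have hN2 : 2 ≤ N := by
    have : 1 ≤ q ^ n := Nat.one_le_pow _ _ hqpos
    omega
  have hcyc : ¬ IsUnit (cyclotomic N F) := by
    intro h
    have h1 := natDegree_eq_zero_of_isUnit h
    rw [natDegree_cyclotomic] at h1
    exact (Nat.totient_pos.mpr (by omega)).ne' h1
  obtain ⟨f, hfm, hf, hfdvd⟩ := exists_monic_irreducible_factor (cyclotomic N F) hcyc
  obtain ⟨hdeg, hf0, hfA, -, -⟩ := cyc_factor N hN1 hNF f hf hfm hfdvd
  -- the degree
  have hfn : f.natDegree = n := by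
    rw [hdeg, hF, orderOf_eq_iff (by omega)]
    refine ⟨?_, ?_⟩
    · rw [natCast_pow_eq_one_iff _ _ n (Nat.one_le_pow _ _ hqpos)]
      obtain ⟨a, ha⟩ : ∃ a, q ^ n = a + 1 :=
        ⟨q ^ n - 1, by have := Nat.one_le_pow n q hqpos; omega⟩
      refine ⟨a, ?_⟩
      have e1 : (q ^ 2) ^ n = (q ^ n) ^ 2 := by rw [← pow_mul, ← pow_mul, mul_comm]
      rw [e1, hNdef, ha]
      have e2 : (a + 1) ^ 2 = (a + 1 + 1) * a + 1 := by ring
      rw [e2, Nat.add_sub_cancel]
    · intro j' hjn hj0' hcon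
      have h1 := (natCast_pow_eq_one_iff _ _ j' (Nat.one_le_pow _ _ hqpos)).mp hcon
      have hpe : (q ^ 2) ^ j' = q ^ (2 * j') := by rw [← pow_mul]
      rw [hpe] at h1
      rcases Nat.lt_or_ge (2 * j') n with hlt | hge
      · have h2 : q ^ (2 * j') ≤ q ^ n := Nat.pow_le_pow_right hqpos hlt.le
        have h3 : 2 ≤ q ^ (2 * j') := by
          calc 2 ≤ q := hq2
            _ = q ^ 1 := (pow_one q).symm
            _ ≤ q ^ (2 * j') := Nat.pow_le_pow_right hqpos (by omega)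
        have h4 := Nat.le_of_dvd (by omega) h1
        omega
      · have hgt : n < 2 * j' := by omega
        obtain ⟨r, hr⟩ : ∃ r, 2 * j' = r + n := ⟨2 * j' - n, by omega⟩
        have hr0 : 0 < r := by omega
        have hrn : r < n := by omega
        have e3 : q ^ (2 * j') - 1 + (q ^ r + 1) = q ^ r * N := by
          have h9 : q ^ (2 * j') = q ^ r * q ^ n := by rw [hr, pow_add]
          have h1' : 1 ≤ q ^ (2 * j') := Nat.one_le_pow _ _ hqpos
          rw [hNdef, mul_add, mul_one, ← h9]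
          omega
        have h5 : N ∣ q ^ r + 1 := by
          have h6 : N ∣ q ^ (2 * j') - 1 + (q ^ r + 1) := by rw [e3]; exact dvd_mul_left _ _
          exact (Nat.dvd_add_right h1).mp h6
        have h7 := Nat.le_of_dvd (by omega) h5
        have h8 : q ^ r < q ^ n := Nat.pow_lt_pow_right (by omega) hrn
        omega
  -- self-duality
  have hfact : Fact (Irreducible f) := ⟨hf⟩
  have hfinM : Module.Finite F (AdjoinRoot f) := (AdjoinRoot.powerBasis hfm.ne_zero).finite
  have hfinK : Finite (AdjoinRoot f) := Module.finite_of_finite F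
  have hcK : CharP (AdjoinRoot f) p :=
    charP_of_injective_algebraMap (algebraMap F (AdjoinRoot f)).injective p
  have hexp : ExpChar (AdjoinRoot f) p := ExpChar.prime hp
  obtain ⟨φq, hφq⟩ : ∃ φq : AdjoinRoot f →+* AdjoinRoot f, ∀ x, φq x = x ^ q :=
    ⟨iterateFrobenius (AdjoinRoot f) p k, fun x => by rw [iterateFrobenius_def, hqk]⟩
  obtain ⟨α, hα⟩ : ∃ α : AdjoinRoot f, α = AdjoinRoot.root f := ⟨_, rfl⟩
  have hvan : ∀ g : F[X], f ∣ g ↔ aeval α g = 0 := by
    intro g
    rw [hα, AdjoinRoot.aeval_eq, AdjoinRoot.mk_eq_zero]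
  have hαN : α ^ N = 1 := by
    have h1 : f ∣ X ^ N - 1 := hfdvd.trans (cyclotomic.dvd_X_pow_sub_one N F)
    have h2 := (hvan _).mp h1
    rw [map_sub, map_pow, aeval_X, map_one, sub_eq_zero] at h2
    exact h2
  have hα0 : α ≠ 0 := by
    intro h0
    rw [h0, zero_pow (by omega)] at hαN
    exact zero_ne_one hαN
  obtain ⟨γ, hγ⟩ : ∃ γ : AdjoinRoot f, γ = α ^ (Fintype.card F ^ j0) := ⟨_, rfl⟩
  have hγroot : aeval γ f = 0 := by
    have h3 : (FiniteField.frobeniusAlgHom F (AdjoinRoot f) ^ j0) α =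
        α ^ (Fintype.card F ^ j0) := by
      rw [AlgHom.coe_pow, FiniteField.coe_frobeniusAlgHom, pow_iterate]
    rw [hγ, ← h3, aeval_algHom_apply, (hvan f).mp dvd_rfl, map_zero]
  have hγq : γ ^ q = α⁻¹ := by
    have h4 : γ ^ q * α = 1 := by
      rw [hγ, hF, ← pow_mul, ← pow_succ, ← hαN, hNdef]
      congr 1
      rw [hj0]; ring
    exact eq_inv_of_mul_eq_one_left h4
  have hdual : f ∣ dualPoly σ f := by
    rw [hvan, dualPoly_eq_reverse, aeval_def]
    let inst : Invertible α⁻¹ := ⟨α, mul_inv_cancel₀ hα0, inv_mul_cancel₀ hα0⟩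
    have h4 : eval₂ (algebraMap F (AdjoinRoot f)) α⁻¹ (f.map σ) = 0 := by
      rw [eval₂_map]
      have h5 := congrArg φq hγroot
      rw [aeval_def, hom_eval₂, map_zero, hφq, hγq] at h5
      have h6 : φq.comp (algebraMap F (AdjoinRoot f)) =
          (algebraMap F (AdjoinRoot f)).comp σ := by
        ext x
        rw [RingHom.comp_apply, RingHom.comp_apply, hφq, ← map_pow, hσq]
      rw [h6] at h5
      exact h5
    exact (eval₂_reverse_eq_zero_iff (algebraMap F (AdjoinRoot f)) α⁻¹ (f.map σ)).mpr h4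
  have hassoc : Associated f (dualPoly σ f) := by
    obtain ⟨c, hc⟩ := hdual
    have hD0 : dualPoly σ f ≠ 0 := dualPoly_ne_zero σ f hf0
    have hc0 : c ≠ 0 := by
      intro h
      rw [h, mul_zero] at hc
      exact hD0 hc
    have hdegc : c.natDegree = 0 := by
      have h1 := dualPoly_natDegree σ f hf0
      rw [hc, natDegree_mul hfm.ne_zero hc0] at h1
      omega
    have hcC : c = C (c.coeff 0) := eq_C_of_natDegree_eq_zero hdegc
    have ha0 : c.coeff 0 ≠ 0 := by
      intro h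
      rw [h, map_zero] at hcC
      exact hc0 hcC
    refine associated_dualPoly_of_eq σ f (c.coeff 0) ha0 ?_
    calc dualPoly σ f = f * c := hc
      _ = c * f := mul_comm _ _
      _ = C (c.coeff 0) * f := by rw [← hcC]
  have hreal := exists_realizable p hσ 1 (by rw [map_one, mul_one])
    (fun h => absurd h hσne) n f hfn hfm hf0 hassoc (fun h => absurd h hσne)
  obtain ⟨A, hA, hAc, m', hm', hAm'⟩ := exists_su_of_realizable hF σ hσq p n f hreal hfn
  refine ⟨A, hA, ?_⟩
  intro N' hN'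
  have h6 := hfA (Fin n) A N' (by rw [hAc]) hN'
  rw [hNdef] at h6
  exact h6

example : StSSo.{u} = (∀ (F : Type u) [Field F] [Fintype F] (q n : ℕ), Fintype.card F = q ^ 2 → Odd n →
    ∃ Z : Matrix (Fin n) (Fin n) F, IsU n q Z ∧ ∀ N : ℕ, Z ^ N = 1 → q ^ n + 1 ∣ N) := rfl

end Cfsg.Agent.H84.UmO
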